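import Cfsg.Agent.Lib.MinRep.SpOddA
import Cfsg.Agent.Lib.MinRep.QuadOrb
import Cfsg.Agent.Lib.MinDeg.OrthF

/-! Weight spaces of the unipotent radicals of point stabilisers in complex representations of
orthogonal groups. -/

set_option autoImplicit false
set_option linter.unusedSectionVars false

namespace H20.MR

open Module H28 H97 H20.MD
open scoped Classical

variable {F V : Type*} [Field F] [Fintype F] [AddCommGroup V] [Module F V] [FiniteDimensional F V] [Fintype V]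
  {P : PQ F V (RingHom.id F)}

theorem eq_zero_of_psi_smul {M : Type*} [AddCommGroup M] [Module ℂ M] {w : M} {β : F} (hβ : β ≠ 0)
    (h : ∀ t, psi F (t * β) • w = w) : w = 0 := by
  by_contra h0
  exact hβ (eq_zero_of_psi fun t => (smul_eq_self_iff h0).1 (h t))

theorem card_filter_sub_mem {x : V} (hx : x ≠ 0) (y : V) :
    (Finset.univ.filter fun ν => ν - y ∈ F ∙ x).card = Fintype.card F := by
  rw [← Finset.card_univ]
  refine (Finset.card_bij (fun (t : F) _ => y + t • x) (fun t _ => by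
    simp [Submodule.smul_mem _ _ (Submodule.mem_span_singleton_self x)])
    (fun a _ b _ e => smul_left_injective F hx (add_left_cancel e)) fun ν h => ?_).symm
  obtain ⟨t, ht⟩ := Submodule.mem_span_singleton.1 (Finset.mem_filter.1 h).2
  exact ⟨t, Finset.mem_univ _, by rw [ht, add_sub_cancel]⟩

variable (o : Orth P)

/-- The Eichler elements. -/
noncomputable def ev (x u : V) : EG P :=
  if h : P.q x = 0 ∧ P.B x u = 0 then euG (o.mem.2 h.1) h.2 (o.sub_mem.2 rfl) else 1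

/-- The characters of the unipotent radicals. -/
noncomputable def chr (P : PQ F V (RingHom.id F)) (x ν : V) : AddChar (LinearMap.ker (P.B x)) ℂ :=
  (psi F).compAddMonoidHom (P.B ν ∘ₗ (LinearMap.ker (P.B x)).subtype).toAddMonoidHom

variable {x y u u' d r ν ν' : V} {g : EG P}

theorem ev_eu (hx : P.q x = 0) (hu : P.B x u = 0) (v : V) : (ev o x u).1 v = eu P x u (P.q u) v := by
  rw [ev, dif_pos ⟨hx, hu⟩, euG_apply]

theorem ev_apply (hx : P.q x = 0) (hu : P.B x u = 0) (v : V) :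
    (ev o x u).1 v = v + (P.B u v - P.q u * P.B x v) • x - P.B x v • u := by rw [ev_eu o hx hu, o.eu]

include o in
theorem B_self (hx : P.q x = 0) : P.B x x = 0 := by rw [o.self, hx, mul_zero]

theorem ev_add (hx : P.q x = 0) (hu : P.B x u = 0) (hu' : P.B x u' = 0) :
    ev o x (u + u') = ev o x u * ev o x u' := EG_ext fun v => by
  rw [EG_mul_apply, ev_eu o hx hu, ev_eu o hx hu', ev_eu o hx (by simp [hu, hu']), o.eu_comp hx hu hu']

theorem ev_add' (hx : P.q x = 0) (a b : LinearMap.ker (P.B x)) :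
    ev o x (a + b : LinearMap.ker (P.B x)) = ev o x a * ev o x b := ev_add o hx a.2 b.2

theorem ev_self (hx : P.q x = 0) (a : F) : ev o x (a • x) = 1 := EG_ext fun v => by
  rw [ev_apply o hx (by simp [B_self o hx]), o.q_smul, hx]
  simp only [map_smul, LinearMap.smul_apply, OneMemClass.coe_one, LinearEquiv.coe_one, id]
  module

include o in
theorem EG_q' (g : EG P) (x : V) : P.q (g.1 x) = P.q x := o.sub_mem.1 (EG_q g x)

theorem ev_conj (hx : P.q x = 0) (hu : P.B x u = 0) (g : EG P) :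
    ev o (g.1 x) (g.1 u) * g = g * ev o x u := EG_ext fun v => by
  simp only [EG_mul_apply, ev_apply o hx hu, ev_apply o ((EG_q' o g x).trans hx) ((EG_B g x u).trans hu),
    EG_B, EG_q' o, map_add, map_sub, map_smul]

theorem ev_smul (hx : P.q x = 0) (hu : P.B x u = 0) (a : F) : ev o (a • x) u = ev o x (a • u) :=
  EG_ext fun v => by
    rw [ev_apply o hx (perp_smul hu a), ev_apply o (by rw [o.q_smul, hx, mul_zero]) (by simp [hu]), o.q_smul]
    simp only [map_smul, LinearMap.smul_apply]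
    module

theorem ev_swap (hx : P.q x = 0) (hu : P.q u = 0) (h : P.B x u = 0) : ev o x u = ev o u (-x) :=
  EG_ext fun v => by
    rw [ev_apply o hx h, ev_apply o hu (by simp [o.symm x u, h]), o.q_neg, hx, hu]
    simp only [map_neg, LinearMap.neg_apply]
    module

theorem ev_fix (hx : P.q x = 0) (hu : P.B x u = 0) (h1 : P.B x y = 0) (h2 : P.B u y = 0) :
    (ev o x u).1 y = y := by simp [ev_apply o hx hu, h1, h2]

theorem chr_apply (x ν : V) (u : LinearMap.ker (P.B x)) : chr P x ν u = psi F (P.B ν u) := rfl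

include o in
theorem chr_eq_iff : chr P x ν = chr P x ν' ↔ ν - ν' ∈ F ∙ x := by
  refine ⟨fun h => by_contra fun hn => ?_, fun h => DFunLike.ext _ _ fun u => ?_⟩
  · refine one_ne_zero (eq_zero_of_psi (F := F) fun t => ?_)
    obtain ⟨w, h1, h2⟩ := exists_perp_ne o.nd hn t
    have := DFunLike.congr_fun h ⟨w, h1 x (Submodule.mem_span_singleton_self x)⟩
    rw [chr_apply, chr_apply] at this
    rw [mul_one, ← h2, map_sub, LinearMap.sub_apply, AddChar.map_sub_eq_div, this, div_self (chi_ne_zero _ _)]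
  · obtain ⟨t, ht⟩ := Submodule.mem_span_singleton.1 h
    rw [chr_apply, chr_apply, eq_add_of_sub_eq ht.symm]
    simp [show P.B x u = 0 from u.2]

include o in
theorem exists_chr (χ : AddChar (LinearMap.ker (P.B x)) ℂ) : ∃ ν, χ = chr P x ν := by
  obtain ⟨θ, hθ⟩ := exists_dual (F := F) χ
  obtain ⟨φ, hφ⟩ := θ.exists_extend
  obtain ⟨w, hw⟩ := exists_repr_dual P.σσ P.B o.nd φ
  exact ⟨w, DFunLike.ext _ _ fun u => by rw [hθ, chr_apply, hw, ← hφ]; rfl⟩

variable {M : Type*} [AddCommGroup M] [Module ℂ M] (ρ : Representation ℂ (EG P) M)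

/-- The weight spaces. -/
noncomputable def Wt (x ν : V) : Submodule ℂ M :=
  wt ρ (fun u : LinearMap.ker (P.B x) => ev o x u) (chr P x ν)

/-- The projections onto the weight spaces. -/
noncomputable def pe (x ν : V) : End ℂ M := pr ρ (fun u : LinearMap.ker (P.B x) => ev o x u) (chr P x ν)

variable {o ρ} {v w : M}

theorem mem_Wt : v ∈ Wt o ρ x ν ↔ ∀ u, P.B x u = 0 → ρ (ev o x u) v = psi F (P.B ν u) • v :=
  ⟨fun h u hu => h ⟨u, hu⟩, fun h u => h u u.2⟩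

theorem Wt_congr (h : ν - ν' ∈ F ∙ x) : Wt o ρ x ν = Wt o ρ x ν' := by rw [Wt, (chr_eq_iff o).2 h, Wt]

theorem pe_congr (h : ν - ν' ∈ F ∙ x) : pe o ρ x ν = pe o ρ x ν' := by rw [pe, (chr_eq_iff o).2 h, pe]

theorem pe_of_mem (hv : v ∈ Wt o ρ x ν') : pe o ρ x ν v = if ν - ν' ∈ F ∙ x then v else 0 := by
  simp only [pe, pr_of_mem hv, chr_eq_iff o]

theorem pe_self (hv : v ∈ Wt o ρ x ν) : pe o ρ x ν v = v := pr_self hv

theorem pe_mem (hx : P.q x = 0) (v : M) : pe o ρ x ν v ∈ Wt o ρ x ν := pr_mem_wt (ev_add' o hx) v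

theorem Wt_conj (hx : P.q x = 0) (g : EG P) (hv : v ∈ Wt o ρ x ν) : ρ g v ∈ Wt o ρ (g.1 x) (g.1 ν) :=
  mem_Wt.2 fun u hu => by
    obtain ⟨u, rfl⟩ := g.1.surjective u
    rw [EG_B] at hu
    rw [← rho_mul, ev_conj o hx hu, rho_mul, mem_Wt.1 hv u hu, map_smul, EG_B]

theorem Wt_smul (hx : P.q x = 0) (a : F) (hv : v ∈ Wt o ρ x ν) : v ∈ Wt o ρ (a • x) (a • ν) := by
  by_cases ha : a = 0
  · subst ha
    exact mem_Wt.2 fun u _ => by
      rw [show ev o ((0 : F) • x) u = 1 from EG_ext fun v => by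
        simp [ev_apply o o.q_zero (show P.B 0 u = 0 by simp)]]
      simp
  refine mem_Wt.2 fun u hu => ?_
  have hu' : P.B x u = 0 := by simpa [ha] using hu
  rw [ev_smul o hx hu', mem_Wt.1 hv _ (perp_smul hu' a)]
  simp

theorem Wt_smul_eq (hx : P.q x = 0) {a : F} (ha : a ≠ 0) : Wt o ρ (a • x) (a • ν) = Wt o ρ x ν :=
  le_antisymm (fun v hv => by
    simpa [ha] using Wt_smul (by rw [o.q_smul, hx, mul_zero]) a⁻¹ hv) fun _ => Wt_smul hx a

theorem ext_Wt {N : Type*} [AddCommGroup N] [Module ℂ N] (hx : P.q x = 0) {S T : M →ₗ[ℂ] N}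
    (h : ∀ ν, ∀ v ∈ Wt o ρ x ν, S v = T v) : S = T := LinearMap.ext fun v =>
  mem_of_wt (N' := LinearMap.eqLocus S T) (ev_add' o hx) (N := ⊤) (fun _ _ _ => trivial) (fun χ u _ hu => by
    obtain ⟨ν, rfl⟩ := exists_chr o χ
    exact h ν u hu) trivial

theorem pe_conj (hx : P.q x = 0) (g : EG P) (v : M) :
    pe o ρ (g.1 x) (g.1 ν) (ρ g v) = ρ g (pe o ρ x ν v) :=
  LinearMap.congr_fun (ext_Wt (o := o) (ρ := ρ) hx (S := pe o ρ (g.1 x) (g.1 ν) ∘ₗ ρ g)
    (T := ρ g ∘ₗ pe o ρ x ν) fun ν' v hv => by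
      rw [LinearMap.comp_apply, LinearMap.comp_apply, pe_of_mem (Wt_conj hx g hv), pe_of_mem hv, ← map_sub,
        show g.1 (ν - ν') ∈ (F ∙ g.1 x) ↔ ν - ν' ∈ F ∙ x by
          simp only [Submodule.mem_span_singleton, ← map_smul, g.1.injective.eq_iff]]
      split_ifs <;> simp) v

theorem pe_smul (hx : P.q x = 0) {a : F} (ha : a ≠ 0) : pe o ρ (a • x) (a • ν) = pe o ρ x ν :=
  ext_Wt (o := o) (ρ := ρ) hx fun ν' v hv => by
    rw [pe_of_mem (Wt_smul hx a hv), pe_of_mem hv, ← smul_sub, Submodule.span_singleton_smul_eq ha.isUnit,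
      Submodule.smul_mem_iff _ ha]

theorem pe_ev (hx : P.q x = 0) (hu : P.B x u = 0) (v : M) :
    pe o ρ x ν (ρ (ev o x u) v) = psi F (P.B ν u) • pe o ρ x ν v := by
  rw [← mem_Wt.1 (pe_mem hx v) u hu]
  refine (pr_comm (fun a v => ?_) v).symm
  rw [← rho_mul, ← rho_mul, ← ev_add o hx hu a.2, ← ev_add o hx a.2 hu, add_comm]

theorem pe_eq_zero (hx : P.q x = 0) (hu : P.B x u = 0) (hν : P.B ν u ≠ 0)
    (h : ∀ t : F, ρ (ev o x (t • u)) v = v) : pe o ρ x ν v = 0 :=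
  eq_zero_of_psi_smul hν fun t => by
    rw [← smul_eq_mul, ← map_smul (P.B ν), ← pe_ev hx (perp_smul hu t), h]

theorem Wt_eq_zero (hx : P.q x = 0) (hν : P.B x ν ≠ 0) (hv : v ∈ Wt o ρ x ν) : v = 0 := by
  rw [← pe_self hv]
  exact pe_eq_zero hx (B_self o hx) (by rwa [o.symm]) fun t => by rw [ev_self o hx, rho_one]

theorem eq_sum_pe (hx : P.q x = 0) (h0 : x ≠ 0) {T : End ℂ M} {φ : V → ℂ}
    (h : ∀ ν, ∀ v ∈ Wt o ρ x ν, T v = φ ν • v) : (Fintype.card F : ℂ) • T = ∑ ν, φ ν • pe o ρ x ν := by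
  have h1 : (Fintype.card F : ℂ) • (1 : End ℂ M) = ∑ ν, pe o ρ x ν := ext_Wt (o := o) (ρ := ρ) hx fun ν v hv => by
    simp only [LinearMap.sum_apply, pe_of_mem hv, ← Finset.sum_filter, Finset.sum_const, card_filter_sub_mem h0]
    simp [Nat.cast_smul_eq_nsmul]
  rw [← mul_one T, ← mul_smul_comm, h1, Finset.mul_sum]
  exact Finset.sum_congr rfl fun ν _ => LinearMap.ext fun v => h ν _ (pe_mem hx v)

/-- The fixer of a weight vector in a unipotent radical. -/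
def fixK (o : Orth P) (hx : P.q x = 0) (ρ : Representation ℂ (EG P) M) (v : M) : AddSubgroup V where
  carrier := {u | P.B x u = 0 ∧ ρ (ev o x u) v = v}
  zero_mem' := ⟨map_zero _, by rw [← zero_smul F x, ev_self o hx, rho_one]⟩
  add_mem' ha hb := ⟨by simp [ha.1, hb.1], by rw [ev_add o hx ha.1 hb.1, rho_mul, hb.2, ha.2]⟩
  neg_mem' {a} ha := ⟨by simp [ha.1], by
    nth_rw 1 [← ha.2]
    rw [← rho_mul, ← ev_add o hx (by simp [ha.1]) ha.1, neg_add_cancel, ← zero_smul F x, ev_self o hx, rho_one]⟩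

section Sub

variable {K : AddSubgroup V} {Z : Submodule F V}

theorem perp_le_of_room (o : Orth P) (hn : 2 * finrank F Z + 3 ≤ finrank F V)
    (hK : ∀ g : EG P, (∀ z ∈ Z, g.1 z = z) → ∀ u ∈ perp P Z, g.1 u - u ∈ K) : ∀ u ∈ perp P Z, u ∈ K := by
  have h0 := finrank_perp o.nd Z
  have h1 : ∀ z y, P.q z = 0 → z ∈ perp P Z → y ∈ perp P Z → P.B z y = 0 → ∀ u ∈ perp P Z,
      (P.B y u - P.q y * P.B z u) • z - P.B z u • y ∈ K := fun z y hz hzZ hy hzy u hu => by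
    have := hK (ev o z y) (fun a ha => ev_fix o hz hzy (mem_perp'.1 hzZ a ha) (mem_perp'.1 hy a ha)) u hu
    rwa [ev_apply o hz hzy, add_sub_assoc, add_sub_cancel_left] at this
  have key : ∀ z ∈ perp P Z, z ∉ Z → P.q z = 0 → ∀ y ∈ perp P Z, P.B z y = 0 → y ∈ K := fun z hz hz' hq => by
    have h2 := finrank_perp o.nd (Z ⊔ F ∙ z)
    have h3 := finrank_sup_le' Z (F ∙ z)
    have h4 := finrank_span_singleton_le (F := F) z
    obtain ⟨w, hw, w', hw', h5⟩ := exists_B_ne_zero_of_lt o.nd (U := Z ⊔ F ∙ z) (by omega)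
    rw [perp_sup] at hw hw'
    have h6 : ∀ t : F, t • z ∈ K := fun t => by
      simpa [mem_perp_singleton.1 hw'.2, h5] using h1 z ((t / P.B w w') • w) hq hz
        (Submodule.smul_mem _ _ hw.1) (perp_smul (mem_perp_singleton.1 hw.2) _) w' hw'.1
    obtain ⟨u, hu, hu'⟩ := exists_perp_ne o.nd hz' 1
    intro y hy hzy
    simpa [hu'] using K.sub_mem (h6 (P.B y u - P.q y)) (h1 z y hq hz hy hzy u hu)
  obtain ⟨z, hz, hz', hq⟩ := o.iso.exists_notMem (perp P Z) Z (by omega)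
  rw [o.mem] at hq
  obtain ⟨a, ha, ha'⟩ := exists_perp_ne o.nd hz' 1
  have hb : a - P.q a • z ∈ perp P Z := Submodule.sub_mem _ ha (Submodule.smul_mem _ _ hz)
  have hq' : P.q (a - P.q a • z) = 0 := by simp [o.q_sub, o.q_smul, hq, o.symm z a, ha']
  have hb' : P.B z (a - P.q a • z) = 1 := by simp [ha', B_self o hq]
  generalize a - P.q a • z = b at hb hq' hb'
  intro u hu
  simpa using K.add_mem (key z hz hz' hq (u - P.B z u • b) (Submodule.sub_mem _ hu (Submodule.smul_mem _ _ hb))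
    (by simp [hb'])) (key b hb (fun h => by simp [mem_perp'.1 hz b h] at hb') hq' (P.B z u • b)
      (Submodule.smul_mem _ _ hb) (perp_smul (B_self o hq') _))

theorem perp_le_of_aniso (o : Orth P) (hn : 5 ≤ finrank F V) (h2 : finrank F Z + 2 ≤ finrank F (perp P Z))
    (hZ : ∀ z ∈ Z, z ∈ K) (ha : ∀ u ∈ perp P Z, P.q u = 0 → u ∈ Z)
    (hK : ∀ g : EG P, (∀ z ∈ Z, g.1 z = z) → ∀ u ∈ perp P Z, g.1 u - u ∈ K) : ∀ u ∈ perp P Z, u ∈ K := by
  intro a haZ
  by_cases h : a ∈ Z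
  · exact hZ a h
  have hα : P.q a ≠ 0 := mt (ha a haZ) h
  obtain ⟨b, hbZ, hb, hβ⟩ : ∃ b ∈ perp P Z, b ∉ Z ⊔ (F ∙ a) ∧ P.B a b ≠ 0 := by
    obtain ⟨b, b1, b2⟩ := exists_notMem_of_lt (X := perp P Z) (U := Z ⊔ F ∙ a) (by
      have h3 := finrank_sup_le' Z (F ∙ a)
      have h4 := finrank_span_singleton_le (F := F) a
      omega)
    obtain ⟨c, c1, c2⟩ := exists_perp_ne o.nd h 1
    by_cases h3 : P.B a b = 0
    · by_cases h4 : c ∈ Z ⊔ (F ∙ a)
      · exact ⟨b + c, add_mem b1 c1, fun e => b2 (by simpa using sub_mem e h4), by simp [h3, c2]⟩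
      · exact ⟨c, c1, h4, by simp [c2]⟩
    · exact ⟨b, b1, b2, h3⟩
  have hγ : P.q b ≠ 0 := fun e => hb (Submodule.mem_sup_left (ha b hbZ e))
  have hδ : P.B a b * P.B a b - 4 * P.q a * P.q b ≠ 0 := fun e => by
    have h3 : (2 * P.q a) ≠ 0 := fun e' => hβ (mul_self_eq_zero.1 (by linear_combination e + 2 * P.q b * e'))
    have := ha ((2 * P.q a) • b - P.B a b • a) (sub_mem (Submodule.smul_mem _ _ hbZ) (Submodule.smul_mem _ _ haZ))
      (by simp only [o.q_sub, o.q_smul, map_smul, LinearMap.smul_apply, smul_eq_mul, o.symm a b]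
          linear_combination -P.q a * e)
    refine hb ((Submodule.smul_mem_iff _ h3).1 ?_)
    simpa using add_mem (Submodule.mem_sup_left this : _ ∈ Z ⊔ F ∙ a)
      (Submodule.mem_sup_right (Submodule.smul_mem _ (P.B a b) (Submodule.mem_span_singleton_self a)))
  have hr : ∀ a, P.q a ≠ 0 → ∃ s ∈ P.Isom, (∀ v, s v = v - (P.B a v / P.q a) • a) ∧ s⁻¹ = s := fun a h => by
    obtain ⟨s, h1, h2⟩ := has_qrefl_isom o.nd (c := -(P.q a)⁻¹) (d := a) (o.mem.2 (by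
      simp only [o.eps, RingHom.id_apply]; field_simp; ring))
    have h3 : ∀ v, s v = v - (P.B a v / P.q a) • a := fun v => by
      rw [h2, PQ.qrefl_apply, div_eq_inv_mul]; module
    refine ⟨s, h1, h3, inv_eq_of_mul_eq_one_left (LinearEquiv.ext fun v => ?_)⟩
    rw [le_mul_apply, h3, h3, map_sub, map_smul, o.self, smul_eq_mul, LinearEquiv.coe_one, id]
    match_scalars <;> field_simp
    ring
  obtain ⟨s, s1, s2, s3⟩ := hr a hα
  obtain ⟨t, t1, t2, t3⟩ := hr b hγ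
  have e : (s * t * s⁻¹ * t⁻¹) (a - ((P.B a b * P.B a b - 2 * P.q a * P.q b) / (P.B a b * P.q b)) • b) -
      (a - ((P.B a b * P.B a b - 2 * P.q a * P.q b) / (P.B a b * P.q b)) • b) =
      ((P.B a b * P.B a b - 4 * P.q a * P.q b) / (P.q a * P.q b)) • a := by
    simp only [s3, t3, le_mul_apply, s2, t2, map_sub, map_smul, smul_eq_mul, o.self, o.symm a b]
    match_scalars <;> field_simp <;> ring
  have := hK ⟨_, o.iso.commutator_mem_EG o.nd hn s1 t1⟩ (fun z hz => by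
    simp [s3, t3, s2, t2, mem_perp'.1 haZ z hz, mem_perp'.1 hbZ z hz]) _
    (Submodule.smul_mem _ ((P.B a b * P.B a b - 4 * P.q a * P.q b) / (P.q a * P.q b))⁻¹
      (sub_mem haZ (Submodule.smul_mem _ ((P.B a b * P.B a b - 2 * P.q a * P.q b) / (P.B a b * P.q b)) hbZ)))
  rwa [map_smul, ← smul_sub, e, inv_smul_smul₀ (div_ne_zero hδ (mul_ne_zero hα hγ))] at this

end Sub

theorem sing_sup (o : Orth P) {U : Submodule F V} (hU : ∀ u ∈ U, P.q u = 0) (hx : P.q x = 0)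
    (h : x ∈ perp P U) : ∀ u ∈ U ⊔ F ∙ x, P.q u = 0 := fun u hu => by
  obtain ⟨a, ha, b, hb, rfl⟩ := Submodule.mem_sup.1 hu
  obtain ⟨t, rfl⟩ := Submodule.mem_span_singleton.1 hb
  simp [o.q_add, o.q_smul, hU a ha, hx, h a ha]

theorem sing_line (o : Orth P) (hx : P.q x = 0) : ∀ u ∈ F ∙ x, P.q u = 0 := fun u hu => by
  obtain ⟨t, rfl⟩ := Submodule.mem_span_singleton.1 hu
  rw [o.q_smul, hx, mul_zero]

theorem mem_perp_two : u ∈ perp P ((F ∙ x) ⊔ F ∙ y) ↔ P.B x u = 0 ∧ P.B y u = 0 := by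
  simp only [perp_sup, Submodule.mem_inf, mem_perp_singleton]

theorem finrank_two_le (x y : V) : finrank F ↥((F ∙ x) ⊔ F ∙ y) ≤ 2 :=
  (finrank_sup_le' _ _).trans (add_le_add (finrank_span_singleton_le x) (finrank_span_singleton_le y))

theorem mem_two_left (x y : V) : x ∈ (F ∙ x) ⊔ F ∙ y := Submodule.mem_sup_left (Submodule.mem_span_singleton_self x)

theorem mem_two_right (U : Submodule F V) (y : V) : y ∈ U ⊔ F ∙ y :=
  Submodule.mem_sup_right (Submodule.mem_span_singleton_self y)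

variable [FiniteDimensional ℂ M]

theorem exists_smul_of_one (h1 : finrank ℂ (Wt o ρ d ν) = 1) (hv : v ∈ Wt o ρ d ν) (h0 : v ≠ 0)
    (hw : w ∈ Wt o ρ d ν) : ∃ t : ℂ, t • v = w :=
  ((finrank_eq_one_iff_of_nonzero' (⟨v, hv⟩ : Wt o ρ d ν) fun e => h0 (congrArg Subtype.val e)).1 h1
    ⟨w, hw⟩).imp fun _ h => congrArg Subtype.val h

theorem conj_mem_fixK (hd : P.q d = 0) (h1 : finrank ℂ (Wt o ρ d ν) = 1) (hv : v ∈ Wt o ρ d ν) (hx : P.q x = 0)
    (hx' : x ∈ perp P ((F ∙ d) ⊔ F ∙ ν)) (gd : g.1 d = d) (gν : g.1 ν = ν) {a : F} (ha : a ≠ 0)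
    (gx : g.1 x = a • x) (hu : u ∈ perp P ((F ∙ d) ⊔ (F ∙ ν) ⊔ F ∙ x)) : a • g.1 u - u ∈ fixK o hx ρ v := by
  rw [perp_sup] at hu
  have h2 := mem_perp_singleton.1 hu.2
  have h3 : P.B x (g.1 u) = 0 := by simpa [gx, ha] using (EG_B g x u).trans h2
  refine ⟨by simp [h2, h3], ?_⟩
  by_cases h0 : v = 0
  · rw [h0, map_zero]
  have key : ∀ k : EG P, k.1 d = d → k.1 ν = ν → ∃ t : ℂ, t ≠ 0 ∧ ρ k v = t • v := fun k k1 k2 => by
    obtain ⟨t, ht⟩ := exists_smul_of_one h1 hv h0 (by simpa [k1, k2] using Wt_conj hd k hv)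
    exact ⟨t, by rintro rfl; exact rho_ne_zero ρ k h0 (by rw [← ht, zero_smul]), ht.symm⟩
  obtain ⟨s, s0, hs⟩ := key (ev o x u)
    (ev_fix o hx h2 (mem_perp'.1 hx' _ (mem_two_left d ν)) (mem_perp'.1 hu.1 _ (mem_two_left d ν)))
    (ev_fix o hx h2 (mem_perp'.1 hx' _ (mem_two_right _ ν)) (mem_perp'.1 hu.1 _ (mem_two_right _ ν)))
  obtain ⟨t, t0, ht⟩ := key g gd gν
  have h4 := congrArg (fun k => ρ k v) (ev_conj o hx h2 g)
  simp only [rho_mul, hs, ht, map_smul, gx, ev_smul o hx h3] at h4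
  rw [smul_comm s, smul_right_inj t0, ← sub_add_cancel (a • g.1 u) u, ev_add o hx (by simp [h2, h3]) h2,
    rho_mul, hs, map_smul, smul_right_inj s0] at h4
  exact h4

theorem fix_of_one (hn : 7 ≤ finrank F V) (hd : P.q d = 0) (h1 : finrank ℂ (Wt o ρ d ν) = 1)
    (hv : v ∈ Wt o ρ d ν) (hdν : P.B d ν = 0) (hx : P.q x = 0) (hx' : x ∈ perp P ((F ∙ d) ⊔ F ∙ ν))
    (H : 9 ≤ finrank F V ∨ 3 < Fintype.card F ∨
      P.q ν = 0 ∧ 8 ≤ finrank F V ∧ ∀ U : Submodule F V, (∀ u ∈ U, P.q u = 0) → finrank F U ≤ 3)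
    (hu : u ∈ perp P ((F ∙ d) ⊔ (F ∙ ν) ⊔ F ∙ x)) : ρ (ev o x u) v = v := by
  have key : ∀ {x} (hx : P.q x = 0), x ∈ perp P ((F ∙ d) ⊔ F ∙ ν) → ∀ g : EG P,
      (∀ z ∈ (F ∙ d) ⊔ (F ∙ ν) ⊔ F ∙ x, g.1 z = z) → ∀ u ∈ perp P ((F ∙ d) ⊔ (F ∙ ν) ⊔ F ∙ x),
        g.1 u - u ∈ fixK o hx ρ v := fun {x} hx hx' g hg u hu => by
    simpa using conj_mem_fixK hd h1 hv hx hx' (hg _ (Submodule.mem_sup_left (mem_two_left d ν)))
      (hg _ (Submodule.mem_sup_left (mem_two_right _ ν))) one_ne_zero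
      ((hg _ (mem_two_right _ x)).trans (one_smul F x).symm) hu
  have h2 := finrank_two_le (F := F) d ν
  have h3 := finrank_sup_le' ((F ∙ d) ⊔ F ∙ ν) (F ∙ x)
  have h4 := finrank_span_singleton_le (F := F) x
  have hA : ∀ {x} (hx : P.q x = 0), x ∈ perp P ((F ∙ d) ⊔ F ∙ ν) → x ∈ (F ∙ d) ⊔ F ∙ ν →
      ∀ u ∈ perp P ((F ∙ d) ⊔ F ∙ ν), ρ (ev o x u) v = v := fun {x} hx hx' h u hu => by
    have e := sup_eq_left.2 ((Submodule.span_singleton_le_iff_mem _ _).2 h)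
    have := key hx hx'
    rw [e] at this
    exact (perp_le_of_room o (by omega) this u hu).2
  by_cases h5 : 2 * finrank F ↥((F ∙ d) ⊔ (F ∙ ν) ⊔ F ∙ x) + 3 ≤ finrank F V
  · exact (perp_le_of_room o h5 (key hx hx') u hu).2
  have h6 : x ∉ (F ∙ d) ⊔ F ∙ ν := fun h => by
    rw [sup_eq_left.2 ((Submodule.span_singleton_le_iff_mem _ _).2 h)] at h5
    omega
  rcases H with H | H | ⟨hν, H, H'⟩
  · omega
  · obtain ⟨y, y1, y2, y3⟩ := P.exists_partner o.nd _ h6 (o.mem.2 hx) (mem_perp'.1 hx')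
    have h : Pair P x y := ⟨o.mem.2 hx, y1, (o.symm _ _).trans y2⟩
    obtain ⟨a, ha⟩ : ∃ a : F, a ∉ ({0, 1, -1} : Finset F) := by
      by_contra! e
      have := (Finset.card_le_card fun a _ => e a : (Finset.univ : Finset F).card ≤ _).trans Finset.card_le_three
      rw [Finset.card_univ] at this
      omega
    simp only [Finset.mem_insert, Finset.mem_singleton, not_or] at ha
    have h7 : a * a - 1 ≠ 0 := fun e => (mul_self_eq_one_iff.1 (sub_eq_zero.1 e)).elim ha.2.1 ha.2.2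
    obtain ⟨g, g1, g2⟩ := h.exists_tor o.iso o.nd (by omega) ha.1
    have g3 : ∀ z ∈ (F ∙ d) ⊔ F ∙ ν, g.1 z = z := fun z hz => g2 ⟨z, mem_Wp.2 ⟨mem_perp'.1 hx' z hz, y3 z hz⟩⟩
    have h8 : P.B x u = 0 := hu x (mem_two_right _ x)
    have h9 : x ∈ perp P ((F ∙ d) ⊔ (F ∙ ν) ⊔ F ∙ x) := by
      rw [perp_sup]; exact ⟨hx', mem_perp_singleton.2 (B_self o hx)⟩
    have := conj_mem_fixK hd h1 hv hx hx' (g3 _ (mem_two_left d ν)) (g3 _ (mem_two_right _ ν))
      (mul_ne_zero ha.1 ha.1) g1.gd (Submodule.smul_mem _ (a * a - 1)⁻¹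
        (sub_mem hu (Submodule.smul_mem _ (P.B y u) h9)))
    rw [map_smul, g2 ⟨u - P.B y u • x, mem_Wp.2 ⟨by simp [h8, B_self o hx], by simp [y2]⟩⟩,
      smul_comm, ← smul_sub, show ∀ z : V, (a * a) • z - z = (a * a - 1) • z from fun z => by module,
      inv_smul_smul₀ h7] at this
    rw [← sub_add_cancel u (P.B y u • x), ev_add o hx this.1 (perp_smul (B_self o hx) _), ev_self o hx, mul_one]
    exact this.2
  · have h7 := finrank_perp o.nd ((F ∙ d) ⊔ (F ∙ ν) ⊔ F ∙ x)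
    have h8 := sing_sup o (sing_line o hd) hν (mem_perp_singleton.2 hdν)
    refine (perp_le_of_aniso o (by omega) (by omega) (fun z hz => ?_) (fun z hz hz' => by_contra fun e => ?_)
      (key hx hx') u hu).2
    · obtain ⟨a, ha, b, hb, rfl⟩ := Submodule.mem_sup.1 hz
      obtain ⟨t, rfl⟩ := Submodule.mem_span_singleton.1 hb
      refine add_mem ⟨mem_perp'.1 hx' a ha, ?_⟩ ⟨perp_smul (B_self o hx) t, by rw [ev_self o hx, rho_one]⟩
      rw [ev_swap o hx (h8 a ha) (mem_perp'.1 hx' a ha)]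
      exact hA (h8 a ha) (fun b hb => o.B_of_q h8 b hb a ha) ha _ (neg_mem hx')
    · have := Submodule.finrank_lt_finrank_of_lt (SetLike.lt_iff_le_and_exists.2
        ⟨le_sup_left, z, mem_two_right ((F ∙ d) ⊔ (F ∙ ν) ⊔ F ∙ x) z, e⟩)
      have := H' _ (sing_sup o (sing_sup o h8 hx hx') hz' hz)
      omega

theorem force_eq_omA : True := by
  have := @ev.eq_1.{0,0}
  have := @ev.eq_def.{0,0}
  have := @chr.eq_1.{0,0}
  have := @chr.eq_def.{0,0}
  have := @Wt.eq_1.{0,0,0}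
  have := @Wt.eq_def.{0,0,0}
  have := @pe.eq_1.{0,0,0}
  have := @pe.eq_def.{0,0,0}
  have := @fixK.eq_1.{0,0,0}
  have := @fixK.eq_def.{0,0,0}
  trivial

end H20.MR
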