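import Cfsg.Agent.Lib.MinRep.OmA

/-! The trace identity for representations of orthogonal groups with singular weights of
multiplicity one. -/

set_option autoImplicit false
set_option linter.unusedSectionVars false

namespace H20.MR

open Module H28 H97 H20.MD Finset
open scoped Classical

variable {F V : Type*} [Field F] [Fintype F] [AddCommGroup V] [Module F V] [FiniteDimensional F V] [Fintype V]
  {P : PQ F V (RingHom.id F)} {x y u d r ν x' ν' : V} {Q : ℕ}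

theorem sum_psi_eq_zero (s : Finset V) {z : V} (hs : ∀ y (t : F), y ∈ s → y + t • z ∈ s) (β : V →ₗ[F] F)
    (hβ : β z ≠ 0) : ∑ y ∈ s, psi F (β y) = 0 :=
  eq_zero_of_psi_smul hβ fun t => by
    rw [smul_eq_mul, mul_sum]
    exact sum_nbij' (· + t • z) (· + (-t) • z) (fun y => hs y t) (fun y => hs y (-t)) (by simp) (by simp)
      fun y _ => by rw [map_add, map_smul, AddChar.map_add_eq_mul, mul_comm, smul_eq_mul]

theorem sum_cone (o : Orth P) (hν : P.q ν = 0) (p : V → Prop) (hp : ∀ y (t : F), p y → p (y + t • ν))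
    (φ : V → ℂ) (hφ : ∀ y (t : F), φ (y + t • ν) = φ y) (h0 : ∀ y, P.B ν y = 0 → φ y = 0) :
    Fintype.card F * ∑ y with P.q y = 0 ∧ p y, φ y = ∑ y with p y, φ y := by
  have h1 : ∀ s : Finset V, ∑ y ∈ s, φ y = ∑ y ∈ s with P.B ν y ≠ 0, φ y := fun s =>
    (sum_filter_of_ne fun y _ h => mt (h0 y) h).symm
  rw [h1, h1 (filter p _), ← card_univ, ← nsmul_eq_mul, ← sum_const, ← sum_product' _ _ fun _ y => φ y]
  refine sum_nbij' (fun a => a.2 + a.1 • ν) (fun y => (P.q y / P.B ν y, y + (-(P.q y / P.B ν y)) • ν))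
    (fun a ha => ?_) (fun y hy => ?_) (fun a ha => ?_) (fun y _ => by simp) fun a _ => (hφ _ _).symm
  · simp only [mem_product, mem_filter, mem_univ, true_and] at ha ⊢
    exact ⟨hp _ _ ha.1.2, by simpa [B_self o hν] using ha.2⟩
  · simp only [mem_product, mem_filter, mem_univ, true_and] at hy ⊢
    refine ⟨⟨?_, hp _ _ hy.1⟩, by simpa [B_self o hν] using hy.2⟩
    rw [o.q_add, o.q_smul, hν, mul_zero, map_smul, o.symm ν y, smul_eq_mul, neg_mul, div_mul_cancel₀ _ hy.2]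
    ring
  · simp only [mem_product, mem_filter, mem_univ, true_and] at ha
    simp [o.q_add, o.q_smul, hν, ha.1.1, o.symm ν a.2, B_self o hν, ha.2]

theorem card_cone (o : Orth P) (hν : P.q ν = 0) (p : V → Prop) (hp : ∀ y (t : F), p y → p (y + t • ν)) :
    (Fintype.card F : ℂ) * (#{y | P.q y = 0 ∧ p y} - #{y | P.q y = 0 ∧ p y ∧ P.B ν y = 0}) =
      #{y | p y} - #{y | p y ∧ P.B ν y = 0} := by
  have h1 : ∀ (p : V → Prop) [DecidablePred p], ∑ y with p y, (if P.B ν y = 0 then 0 else 1 : ℂ) =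
      #{y | p y} - #{y | p y ∧ P.B ν y = 0} := fun p _ => by
    rw [← filter_filter, ← card_filter_add_card_filter_not (s := filter p univ) fun y => P.B ν y = 0]
    simp [sum_ite]
  have := sum_cone o hν p hp (fun y => if P.B ν y = 0 then 0 else 1) (fun y t => by simp [B_self o hν])
    fun y h => if_pos h
  simpa only [h1, and_assoc] using this

/-- Independent perpendicular singular vectors. -/
structure Adm (P : PQ F V (RingHom.id F)) (x ν : V) : Prop where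
  qx : P.q x = 0
  ne : x ≠ 0
  qn : P.q ν = 0
  perp : P.B x ν = 0
  nm : ν ∉ F ∙ x

theorem Adm.symm (h : Adm P x ν) : Adm P ν x :=
  have h0 : ν ≠ 0 := fun e => h.nm (e ▸ Submodule.zero_mem _)
  ⟨h.qn, h0, h.qx, P.eq_zero_symm h.perp, not_mem_span_symm h.ne h0 h.nm⟩

theorem card_F_ne : (Fintype.card F : ℂ) ≠ 0 := card_ne

theorem card_perp_one (o : Orth P) (hQ : Fintype.card V = Fintype.card F ^ 3 * Q) (hx : x ≠ 0) :
    #{y | P.B x y = 0} = Fintype.card F ^ 2 * Q :=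
  Nat.eq_of_mul_eq_mul_right (Fintype.card_pos (α := F)) ((card_fiber_mul (P.B x).toAddMonoidHom
    (exists_B_eq o.nd hx) 0).trans (by rw [hQ]; ring))

theorem card_perp_two (o : Orth P) (hQ : Fintype.card V = Fintype.card F ^ 3 * Q) (h : Adm P x ν) :
    #{y | P.B x y = 0 ∧ P.B ν y = 0} = Fintype.card F * Q := by
  have := card_fiber_mul ((P.B x).prod (P.B ν)).toAddMonoidHom (fun a => by
    obtain ⟨u, u1, u2⟩ := exists_perp_ne o.nd h.nm a.2
    obtain ⟨w, w1, w2⟩ := exists_perp_ne o.nd h.symm.nm a.1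
    exact ⟨u + w, Prod.ext (by simp [mem_perp_singleton.1 u1, w2]) (by simp [mem_perp_singleton.1 w1, u2])⟩) 0
  refine Nat.eq_of_mul_eq_mul_right (Fintype.card_pos (α := F × F)) ((congrArg (· * _) ?_).trans (this.trans ?_))
  · simp [Prod.ext_iff]
  · rw [hQ, Fintype.card_prod]; ring

theorem card_C1 (o : Orth P) (hQ : Fintype.card V = Fintype.card F ^ 3 * Q) (hx : P.q x = 0) (h0 : x ≠ 0) :
    (#{y | P.q y = 0 ∧ P.B x y = 0} : ℂ) = #{y | P.q y = 0} - (Fintype.card F - 1) * Fintype.card F * Q := by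
  have := card_cone o hx (fun _ => True) fun _ _ _ => trivial
  simp only [and_true, true_and, card_perp_one o hQ h0, filter_true, card_univ, hQ] at this
  refine mul_left_cancel₀ (card_F_ne (F := F)) ?_
  push_cast at this
  linear_combination -this

theorem card_C2 (o : Orth P) (hQ : Fintype.card V = Fintype.card F ^ 3 * Q) (h : Adm P x ν) :
    (#{y | P.q y = 0 ∧ P.B x y = 0 ∧ P.B ν y = 0} : ℂ) =
      #{y | P.q y = 0} - (Fintype.card F ^ 2 - 1) * Q := by
  have := card_cone o h.qn (fun y => P.B x y = 0) fun _ _ e => by simp [e, h.perp]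
  rw [card_perp_one o hQ h.ne, card_perp_two o hQ h, card_C1 o hQ h.qx h.ne] at this
  refine mul_left_cancel₀ (card_F_ne (F := F)) ?_
  push_cast at this
  linear_combination -this

theorem card_line (hx : x ≠ 0) : #{y | y ∈ F ∙ x} = Fintype.card F := by
  simpa using card_filter_sub_mem (F := F) hx 0

theorem card_plane (h : Adm P x ν) : #{y | y ∈ (F ∙ x) ⊔ F ∙ ν} = Fintype.card F ^ 2 := by
  rw [← Fintype.card_subtype, card_eq_pow_finrank (K := F)]
  exact congrArg _ (le_antisymm (finrank_two_le x ν) (two_le_finrank (mem_two_right _ ν) (mem_two_left x ν) h.ne h.nm))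

theorem sum_ite_line (hx : x ≠ 0) {s : Finset V} (hs : ∀ y ∈ F ∙ x, y ∈ s) (a b : ℂ) :
    ∑ y ∈ s, (if y ∈ F ∙ x then a else b) = Fintype.card F * a + (#s - Fintype.card F) * b := by
  have : s.filter (· ∈ F ∙ x) = univ.filter (· ∈ F ∙ x) := by ext y; simpa using hs y
  rw [sum_ite, sum_const, sum_const, ← card_filter_add_card_filter_not (s := s) (· ∈ F ∙ x), this, card_line hx]
  simp

theorem fourier_cone (o : Orth P) (hQ : Fintype.card V = Fintype.card F ^ 3 * Q) (h : Adm P x ν) :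
    ∑ y with P.q y = 0 ∧ P.B x y = 0, (1 - psi F (P.B ν y)) = Fintype.card F * Q := by
  obtain ⟨z, z1, z2⟩ := exists_perp_ne o.nd h.nm 1
  refine mul_left_cancel₀ (card_F_ne (F := F)) ?_
  rw [sum_cone o h.qn (fun y => P.B x y = 0) (fun _ _ e => by simp [e, h.perp]) _
    (fun y t => by simp [B_self o h.qn]) (fun y e => by simp [e]), sum_sub_distrib, sum_psi_eq_zero _ (z := z)
      (fun y t hy => by simpa [mem_perp_singleton.1 z1] using hy) _ (by simp [z2]), sum_const,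
    card_perp_one o hQ h.ne]
  simp [sq, mul_assoc]

theorem trans_two (o : Orth P) (hn : 7 ≤ finrank F V) (hx : P.q x = 0) (hx' : P.q x' = 0) (h0 : x ≠ 0)
    (h0' : x' ≠ 0) (h : P.B x ν = 0) (h' : P.B x' ν' = 0) (hν : ν ∉ F ∙ x) (hν' : ν' ∉ F ∙ x')
    (hq : P.q ν = P.q ν') : ∃ g : EG P, g.1 x = x' ∧ g.1 ν = ν' := by
  have key : ∀ {x ν : V}, x ≠ 0 → ν ∉ F ∙ x → LinearIndependent F ![x, ν] := fun h0 hν =>
    (LinearIndependent.pair_iff' h0).2 fun a e => hν (Submodule.mem_span_singleton.2 ⟨a, e⟩)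
  obtain ⟨g, hg, e⟩ := P.witt_fin o.nd 2 _ _ (key h0 hν) (key h0' hν') (fun i j => by
    fin_cases i <;> fin_cases j <;> simp [o.self, hx, hx', h, h', hq, o.symm x ν, o.symm x' ν'])
    fun i => by fin_cases i <;> simp [hx, hx', hq]
  obtain ⟨k, hk, e'⟩ := o.iso.exists_EG_agree' o.nd (by omega) (U := (F ∙ x) ⊔ F ∙ ν)
    (by have := finrank_two_le (F := F) x ν; omega) hg
  exact ⟨⟨k, hk⟩, (e' _ (mem_two_left x ν)).trans (e 0), (e' _ (mem_two_right _ ν)).trans (e 1)⟩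

variable {o : Orth P} {M : Type*} [AddCommGroup M] [Module ℂ M] [FiniteDimensional ℂ M]
  {ρ : Representation ℂ (EG P) M} {v w : M}

local notation "𝐭" => LinearMap.trace ℂ _

theorem trace_pe (hx : P.q x = 0) : 𝐭 (pe o ρ x ν) = finrank ℂ (Wt o ρ x ν) :=
  LinearMap.IsProj.trace ⟨pe_mem hx, fun _ => pe_self⟩

theorem trace_pe_mul (hx : P.q x = 0) (h1 : finrank ℂ (Wt o ρ x ν) = 1) (hv : v ∈ Wt o ρ x ν) (h0 : v ≠ 0)
    {T : End ℂ M} {t : ℂ} (ht : pe o ρ x ν (T v) = t • v) : 𝐭 (pe o ρ x ν * T) = t := by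
  have h2 : pe o ρ x ν * pe o ρ x ν = pe o ρ x ν := LinearMap.ext fun m => pe_self (pe_mem hx m)
  have h3 : pe o ρ x ν * T * pe o ρ x ν = t • pe o ρ x ν := LinearMap.ext fun m => by
    obtain ⟨s, hs⟩ := exists_smul_of_one h1 hv h0 (pe_mem hx m)
    simp only [End.mul_apply, LinearMap.smul_apply, ← hs, map_smul, ht, smul_comm s]
  rw [← h2, mul_assoc, LinearMap.trace_mul_comm, h3, map_smul, trace_pe hx, h1]
  simp

theorem trace_of_conj (g : EG P) {S T : End ℂ M} (h : S * ρ g = ρ g * T) : 𝐭 S = 𝐭 T := by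
  rw [← mul_one S, ← map_one ρ, ← mul_inv_cancel g, map_mul ρ, ← mul_assoc, h, LinearMap.trace_mul_comm,
    ← mul_assoc, ← map_mul ρ, inv_mul_cancel, map_one, one_mul]

theorem exists_vec {N : Submodule ℂ M} (h : 1 ≤ finrank ℂ N) : ∃ v ∈ N, v ≠ 0 :=
  Submodule.exists_mem_ne_zero_of_ne_bot fun e => by simp [e] at h

theorem pe_conj' (hx : P.q x = 0) (g : EG P) : pe o ρ (g.1 x) (g.1 ν) * ρ g = ρ g * pe o ρ x ν :=
  LinearMap.ext (pe_conj hx g)

theorem one_sub_pe (x ν : V) : ∀ v ∈ Wt o ρ x ν, (1 - pe o ρ x 0) v = (if ν ∈ F ∙ x then 0 else 1 : ℂ) • v :=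
  fun v hv => by
    simp only [LinearMap.sub_apply, pe_of_mem hv, zero_sub, neg_mem_iff, End.one_apply]
    split_ifs <;> simp

theorem line_subset (o : Orth P) (hx : P.q x = 0) :
    ∀ y ∈ F ∙ x, y ∈ ({y | P.q y = 0 ∧ P.B x y = 0} : Finset V) := fun y hy => by
  obtain ⟨t, rfl⟩ := Submodule.mem_span_singleton.1 hy
  simp [o.q_smul, hx, B_self o hx]

theorem sum_pe_comm (g : EG P) {s : Finset V} (h : ∀ z ∈ s, P.q z = 0) (hs : ∀ z ∈ s, g.1 z ∈ s) (v : M) :
    (∑ z ∈ s, (1 - pe o ρ z 0)) (ρ g v) = ρ g ((∑ z ∈ s, (1 - pe o ρ z 0)) v) := by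
  rw [LinearMap.sum_apply, LinearMap.sum_apply, map_sum]
  refine (sum_bij (fun z _ => g.1 z) hs (fun _ _ _ _ e => g.1.injective e)
    (fun b hb => (surj_on_of_inj_on_of_card_le (fun z _ => g.1 z) hs (fun _ _ _ _ e => g.1.injective e) le_rfl
      b hb).imp fun a ha => ha.imp fun _ e => e.symm) fun z hz => ?_).symm
  have := pe_conj (o := o) (ρ := ρ) (ν := 0) (h z hz) g v
  rw [map_zero] at this
  simp [this]

variable (o ρ) in
/-- Only singular weights occur, with multiplicity one. -/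
structure OS : Prop where
  dim : 7 ≤ finrank F V
  ns : ∀ x ν v, P.q x = 0 → x ≠ 0 → P.q ν ≠ 0 → P.B x ν = 0 → v ∈ Wt o ρ x ν → v = 0
  one : ∀ x ν, Adm P x ν → finrank ℂ (Wt o ρ x ν) = 1
  room : 9 ≤ finrank F V ∨ 3 < Fintype.card F ∨
    8 ≤ finrank F V ∧ ∀ U : Submodule F V, (∀ u ∈ U, P.q u = 0) → finrank F U ≤ 3

namespace OS

theorem fix (hO : OS o ρ) (h : Adm P d ν) (hv : v ∈ Wt o ρ d ν) (hx : P.q x = 0) (h1 : P.B d x = 0)
    (h2 : P.B ν x = 0) (h3 : P.B d u = 0) (h4 : P.B ν u = 0) (h5 : P.B x u = 0) : ρ (ev o x u) v = v :=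
  fix_of_one hO.dim h.qx (hO.one _ _ h) hv h.perp hx (mem_perp_two.2 ⟨h1, h2⟩)
    (hO.room.imp_right (Or.imp_right fun e => ⟨h.qn, e⟩))
    (by rw [perp_sup]; exact ⟨mem_perp_two.2 ⟨h3, h4⟩, mem_perp_singleton.2 h5⟩)

theorem eq_zero (hO : OS o ρ) (hx : P.q x = 0) (h0 : x ≠ 0) (h : ¬ (P.q ν = 0 ∧ P.B x ν = 0))
    (hv : v ∈ Wt o ρ x ν) : v = 0 := by
  by_cases h1 : P.B x ν = 0
  · exact hO.ns x ν v hx h0 (fun e => h ⟨e, h1⟩) h1 hv
  · exact Wt_eq_zero hx h1 hv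

theorem exists_tau (hO : OS o ρ) (h : Adm P d r) : ∃ τ, ∀ x ν, Adm P x ν → 𝐭 (pe o ρ x ν * pe o ρ ν 0) = τ :=
  ⟨_, fun x ν h' => by
    obtain ⟨g, rfl, rfl⟩ := trans_two o hO.dim h.qx h'.qx h.ne h'.ne h.perp h'.perp h.nm h'.nm (h.qn.trans h'.qn.symm)
    have h1 := pe_conj' (o := o) (ρ := ρ) (ν := 0) h.qn g
    rw [map_zero] at h1
    exact trace_of_conj g (by rw [mul_assoc, h1, ← mul_assoc, pe_conj' h.qx, mul_assoc])⟩

theorem tau_gen (hO : OS o ρ) (h : Adm P r d) (h' : Adm P r ν) (hd : P.B d ν = 0) (hν : ν ∉ (F ∙ r) ⊔ F ∙ d) :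
    𝐭 (pe o ρ r ν * pe o ρ d 0) = (Fintype.card F : ℂ)⁻¹ := by
  obtain ⟨v, hv, h0⟩ := exists_vec (hO.one _ _ h').ge
  obtain ⟨y, y1, y2⟩ := exists_perp_ne o.nd hν 1
  obtain ⟨y3, y4⟩ := mem_perp_two.1 y1
  have hdr := h.symm.perp
  have s1 : pe o ρ r ν (∑ t : F, ρ (ev o d (t • y)) v) = v := by
    rw [map_sum, sum_eq_single 0 (fun t _ ht => ?_) (by simp)]
    · rw [zero_smul, ← zero_smul F d, ev_self o h.qn, rho_one, pe_self hv]
    · have := Wt_conj h.qx (ev o d (t • y)) hv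
      rw [ev_fix o h.qn (perp_smul y4 t) hdr (by simp [o.symm r y, y3]), ev_apply o h.qn (perp_smul y4 t)] at this
      rw [pe_of_mem this, if_neg]
      simpa [hd, o.symm ν y, y2, Submodule.smul_mem_iff _ ht] using h.nm
  have s2 : pe o ρ d 0 (∑ t : F, ρ (ev o d (t • y)) v) = (Fintype.card F : ℂ) • pe o ρ d 0 v := by
    simp [pe_ev h.qn (perp_smul y4 _), Nat.cast_smul_eq_nsmul]
  have s3 : ∀ u, P.B r u = 0 → P.B d u = 0 →
      ρ (ev o d u) (∑ t : F, ρ (ev o d (t • y)) v) = ∑ t : F, ρ (ev o d (t • y)) v := fun u u1 u2 => by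
    have h1 : P.B d (u - P.B ν u • y) = 0 := by simp [u2, y4]
    have h2 := hO.fix h' hv h.qn h.perp (P.eq_zero_symm hd) (u := u - P.B ν u • y) (by simp [u1, y3])
      (by simp [y2]) h1
    rw [map_sum, ← Equiv.sum_comp (Equiv.addRight (P.B ν u)) fun t : F => ρ (ev o d (t • y)) v]
    refine sum_congr rfl fun t _ => ?_
    nth_rw 2 [← h2]
    rw [← rho_mul, ← rho_mul, ← ev_add o h.qn u2 (perp_smul y4 _), ← ev_add o h.qn (perp_smul y4 _) h1]
    congr 3
    simp only [Equiv.coe_addRight]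
    module
  generalize ∑ t : F, ρ (ev o d (t • y)) v = v₀ at s1 s2 s3
  have s4 := congrArg (fun T => pe o ρ r ν (T v₀))
    (eq_sum_pe (o := o) (ρ := ρ) h.qn h.symm.ne (T := 1) (φ := fun _ => 1) fun _ _ _ => by simp)
  simp only [LinearMap.smul_apply, End.one_apply, map_smul, s1, one_smul, LinearMap.sum_apply, map_sum] at s4
  rw [sum_congr rfl (g := fun κ => if κ ∈ F ∙ d then pe o ρ r ν (pe o ρ d 0 v₀) else 0) fun κ _ => ?_,
    ← sum_filter, sum_const, card_line h.symm.ne, s2, map_smul, ← Nat.cast_smul_eq_nsmul ℂ,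
    smul_right_inj card_F_ne] at s4
  · exact trace_pe_mul h.qx (hO.one _ _ h') hv h0 (by rw [eq_inv_smul_iff₀ card_F_ne, ← s4])
  split_ifs with h1
  · rw [pe_congr (x := d) (ν := κ) (ν' := 0) (by rwa [sub_zero])]
  by_cases h2 : κ ∈ (F ∙ r) ⊔ F ∙ d
  · have h3 := sing_sup o (sing_line o h.qx) h.qn (mem_perp_singleton.2 h.perp)
    have h4 := o.B_of_q h3
    refine pe_eq_zero h.qx y3 (by simp [y2]) fun t => hO.fix ⟨h.qn, h.symm.ne, h3 κ h2,
      h4 _ (mem_two_right _ d) κ h2, h1⟩ (pe_mem h.qn _) h.qx hdr (h4 κ h2 _ (mem_two_left r d))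
      (perp_smul y4 t) (perp_smul (y1 κ h2) t) (perp_smul y3 t)
  · obtain ⟨u, u1, u2⟩ := exists_perp_ne o.nd h2 1
    obtain ⟨u3, u4⟩ := mem_perp_two.1 u1
    rw [pe_eq_zero h.qn u4 (by simp [u2]) fun t => s3 _ (perp_smul u3 t) (perp_smul u4 t), map_zero]

theorem tau (hO : OS o ρ) {τ : ℂ} (hτ : ∀ x ν, Adm P x ν → 𝐭 (pe o ρ x ν * pe o ρ ν 0) = τ) (h : Adm P r d)
    (hν : ν ∉ F ∙ r) : 𝐭 (pe o ρ r ν * pe o ρ d 0) = if ν ∈ (F ∙ r) ⊔ F ∙ d then τ else
      if P.q ν = 0 ∧ P.B r ν = 0 ∧ P.B d ν = 0 then (Fintype.card F : ℂ)⁻¹ else 0 := by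
  split_ifs with h1 h2
  · obtain ⟨a, ha, b, hb, rfl⟩ := Submodule.mem_sup.1 h1
    obtain ⟨t, rfl⟩ := Submodule.mem_span_singleton.1 hb
    have ht : t ≠ 0 := by rintro rfl; exact hν (by simpa using ha)
    rw [pe_congr (ν' := t • d) (by simpa using ha), ← pe_smul h.qn ht, smul_zero]
    exact hτ _ _ ⟨h.qx, h.ne, by rw [o.q_smul, h.qn, mul_zero], perp_smul h.perp t,
      by simpa [Submodule.smul_mem_iff _ ht] using h.nm⟩
  · exact hO.tau_gen h ⟨h.qx, h.ne, h2.1, h2.2.1, hν⟩ h2.2.2 h1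
  · rw [show pe o ρ r ν * pe o ρ d 0 = 0 from LinearMap.ext fun m => ?_, map_zero]
    by_cases h3 : P.B d ν = 0
    · exact hO.eq_zero h.qx h.ne (fun e => h2 ⟨e.1, e.2, h3⟩) (pe_mem h.qx _)
    · refine pe_eq_zero h.qx h.perp (by rwa [o.symm]) fun t => ?_
      have h4 : P.B d (-r) = 0 := by simp [h.symm.perp]
      rw [ev_swap o h.qx (by rw [o.q_smul, h.qn, mul_zero]) (perp_smul h.perp t), ev_smul o h.qn h4,
        mem_Wt.1 (pe_mem h.qn m) _ (perp_smul h4 t)]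
      simp

theorem sum_tau (hO : OS o ρ) {τ : ℂ} (hτ : ∀ x ν, Adm P x ν → 𝐭 (pe o ρ x ν * pe o ρ ν 0) = τ) (h : Adm P r d)
    {T : End ℂ M} {φ : V → ℂ} (hT : ∀ ν, ∀ v ∈ Wt o ρ r ν, T v = φ ν • v) (hφ : ∀ ν ∈ F ∙ r, φ ν = 0) :
    Fintype.card F * 𝐭 (T * pe o ρ d 0) =
      (Fintype.card F : ℂ)⁻¹ * ∑ ν with P.q ν = 0 ∧ P.B r ν = 0 ∧ P.B d ν = 0, φ ν +
        (τ - (Fintype.card F : ℂ)⁻¹) * ∑ ν with ν ∈ (F ∙ r) ⊔ F ∙ d, φ ν := by
  have h3 := sing_sup o (sing_line o h.qx) h.qn (mem_perp_singleton.2 h.perp)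
  have h4 := o.B_of_q h3
  rw [← smul_eq_mul, ← map_smul, ← smul_mul_assoc, eq_sum_pe h.qx h.ne hT, sum_mul, map_sum, sum_filter,
    sum_filter, mul_sum, mul_sum, ← sum_add_distrib]
  refine sum_congr rfl fun ν _ => ?_
  by_cases h1 : ν ∈ F ∙ r
  · simp [hφ ν h1]
  rw [smul_mul_assoc, map_smul, hO.tau hτ h h1, smul_eq_mul]
  by_cases h2 : ν ∈ (F ∙ r) ⊔ F ∙ d
  · rw [if_pos h2, if_pos h2, if_pos ⟨h3 ν h2, h4 _ (mem_two_left r d) ν h2, h4 _ (mem_two_right _ d) ν h2⟩]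
    ring
  · rw [if_neg h2, if_neg h2]
    split_ifs <;> ring

theorem trace_one_sub (hO : OS o ρ) (hx : P.q x = 0) (h0 : x ≠ 0) : Fintype.card F * 𝐭 (1 - pe o ρ x 0) =
    #{y | P.q y = 0 ∧ P.B x y = 0} - Fintype.card F := by
  rw [← smul_eq_mul, ← map_smul, eq_sum_pe hx h0 (one_sub_pe x), map_sum,
    ← sum_subset (subset_univ {y | P.q y = 0 ∧ P.B x y = 0}) fun ν _ h => by
      rw [show pe o ρ x ν = 0 from LinearMap.ext fun m => hO.eq_zero hx h0 (by simpa using h) (pe_mem hx m)]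
      simp,
    sum_congr rfl (g := fun ν => if ν ∈ F ∙ x then 0 else 1) fun ν h => ?_,
    sum_ite_line h0 (line_subset o hx)]
  · simp
  · split_ifs with h1
    · simp
    · simp only [mem_filter] at h
      simp [trace_pe hx, hO.one _ _ ⟨hx, h0, h.2.1, h.2.2, h1⟩]

theorem fourier (hO : OS o ρ) (hQ : Fintype.card V = Fintype.card F ^ 3 * Q) (hx : P.q x = 0) (h0 : x ≠ 0) :
    ∑ y with P.q y = 0 ∧ P.B x y = 0, (1 - ρ (ev o x y)) = (Fintype.card F * Q : ℂ) • (1 - pe o ρ x 0) :=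
  ext_Wt (o := o) (ρ := ρ) hx fun ν v hv => by
    rw [LinearMap.sum_apply, sum_congr rfl (g := fun y => (1 - psi F (P.B ν y)) • v) fun y hy => by
      rw [LinearMap.sub_apply, mem_Wt.1 hv y (mem_filter.1 hy).2.2, sub_smul, one_smul, End.one_apply],
      ← sum_smul, LinearMap.smul_apply, one_sub_pe x ν v hv]
    split_ifs with h1
    · obtain ⟨t, rfl⟩ := Submodule.mem_span_singleton.1 h1
      rw [sum_eq_zero fun y hy => by simp [(mem_filter.1 hy).2.2]]
      simp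
    by_cases h2 : P.q ν = 0 ∧ P.B x ν = 0
    · rw [fourier_cone o hQ ⟨hx, h0, h2.1, h2.2, h1⟩, one_smul]
    · simp [hO.eq_zero hx h0 h2 hv]

theorem exists_dim (hO : OS o ρ) {τ : ℂ} (hτ : ∀ x ν, Adm P x ν → 𝐭 (pe o ρ x ν * pe o ρ ν 0) = τ)
    (h : Adm P d r) : ∃ a : ℕ, Fintype.card F - 1 ≤ a ∧
      (1 + Fintype.card F - Fintype.card F * τ) * a = Fintype.card F ^ 2 - 1 := by
  have h3 := sing_sup o (sing_line o h.qx) h.qn (mem_perp_singleton.2 h.perp)
  have h4 := o.B_of_q h3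
  have hc := card_plane h
  have hd := mem_two_left (F := F) d r
  have hr := mem_two_right (F ∙ d) r
  have hL : ∀ x ∈ (F ∙ d) ⊔ F ∙ r, ∀ z ∈ (F ∙ d) ⊔ F ∙ r, x ≠ 0 → z ∉ F ∙ x → (F ∙ x) ⊔ (F ∙ z) = (F ∙ d) ⊔ F ∙ r :=
    fun x hx z hz h0 h1 => Submodule.eq_of_le_of_finrank_le (sup_le ((Submodule.span_singleton_le_iff_mem _ _).2 hx)
      ((Submodule.span_singleton_le_iff_mem _ _).2 hz)) ((finrank_two_le d r).trans
        (two_le_finrank (mem_two_right _ z) (mem_two_left x z) h0 h1))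
  generalize (F ∙ d) ⊔ F ∙ r = L at h3 h4 hc hd hr hL
  have hA : ∀ x ∈ L, x ≠ 0 → ∀ ν ∈ L, ν ∉ F ∙ x → Adm P x ν := fun x hx h0 ν hν h1 =>
    ⟨h3 x hx, h0, h3 ν hν, h4 x hx ν hν, h1⟩
  have hs : ∀ x ∈ L, ∀ y ∈ F ∙ x, y ∈ filter (· ∈ L) univ := fun x hx y hy => by
    simpa using (Submodule.span_singleton_le_iff_mem _ _).2 hx hy
  let A : Submodule ℂ M := ⨆ p : {p : V × V // p.1 ∈ L ∧ p.1 ≠ 0 ∧ p.2 ∈ L ∧ p.2 ∉ F ∙ p.1}, Wt o ρ p.1.1 p.1.2
  have hle : ∀ x ∈ L, x ≠ 0 → ∀ ν ∈ L, ν ∉ F ∙ x → Wt o ρ x ν ≤ A := fun x hx h0 ν hν h1 =>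
    le_iSup_of_le ⟨(x, ν), hx, h0, hν, h1⟩ le_rfl
  let Ψ : End ℂ M := ∑ z ∈ (filter (· ∈ L) univ).erase 0, (1 - pe o ρ z 0)
  have a1 : ∀ m ∈ A, Ψ m = ((Fintype.card F - 1) * (1 + Fintype.card F - Fintype.card F * τ) : ℂ) • m := by
    refine fun m hm => Submodule.iSup_induction _ (motive := fun m => Ψ m = _ • m) hm
      (fun ⟨⟨x, ν⟩, hx, h0, hν, h1⟩ v hv => ?_) (by simp) fun a b ha hb => by rw [map_add, ha, hb, smul_add]
    by_cases hv0 : v = 0
    · simp [hv0]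
    have h5 := hA x hx h0 ν hν h1
    have h6 : Ψ v ∈ Wt o ρ x ν := mem_Wt.2 fun u hu => by
      rw [← map_smul, ← mem_Wt.1 hv u hu]
      exact (sum_pe_comm (ev o x u) (fun z hz => h3 z (by simpa using (mem_erase.1 hz).2)) (fun z hz => by
        simp only [mem_erase, mem_filter, mem_univ, true_and] at hz ⊢
        refine ⟨by simpa using hz.1, ?_⟩
        rw [ev_apply o h5.qx hu, h4 x hx z hz.2, zero_smul, sub_zero]
        exact add_mem hz.2 (L.smul_mem _ hx)) v).symm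
    obtain ⟨t, ht⟩ := exists_smul_of_one (hO.one _ _ h5) hv hv0 h6
    rw [← ht, ← trace_pe_mul h5.qx (hO.one _ _ h5) hv hv0 ((pe_self h6).trans ht.symm), mul_sum, map_sum,
      sum_congr rfl (g := fun z => if z ∈ F ∙ x then 1 else 1 - τ) fun z hz => ?_,
      sum_erase_eq_sub (by simp), sum_ite_line h0 (hs x hx), hc, if_pos (zero_mem _)]
    · congr 1
      push_cast
      ring
    simp only [mem_erase, mem_filter, mem_univ, true_and] at hz
    rw [mul_sub, mul_one, map_sub, trace_pe h5.qx, hO.one _ _ h5]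
    split_ifs with h7
    · obtain ⟨t, rfl⟩ := Submodule.mem_span_singleton.1 h7
      have := pe_smul (o := o) (ρ := ρ) (ν := 0) h5.qx (left_ne_zero_of_smul hz.1)
      rw [smul_zero] at this
      rw [this, show pe o ρ x ν * pe o ρ x 0 = 0 from LinearMap.ext fun m => by
        rw [End.mul_apply, pe_of_mem (pe_mem h5.qx m), if_neg (by rwa [sub_zero])]; rfl]
      simp
    · rw [hO.tau hτ (hA x hx h0 z hz.2 h7) h1, if_pos (by rwa [hL x hx z hz.2 h0 h7])]
      simp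
  obtain ⟨B, hB⟩ := A.exists_isCompl
  have hπ : LinearMap.IsProj A (A.projection B hB) :=
    ⟨Submodule.projection_apply_mem hB, fun _ => Submodule.projection_apply_of_mem_left hB⟩
  generalize A.projection B hB = π at hπ
  have a2 : ∀ z ∈ (filter (· ∈ L) univ).erase 0, 𝐭 ((1 - pe o ρ z 0) * π) = Fintype.card F - 1 := fun z hz => by
    simp only [mem_erase, mem_filter, mem_univ, true_and] at hz
    have b1 : ∀ ν ∈ L, ν ∉ F ∙ z → 𝐭 (pe o ρ z ν * π) = 1 := fun ν hν h1 => by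
      rw [LinearMap.trace_mul_comm, show π * pe o ρ z ν = pe o ρ z ν from LinearMap.ext fun m =>
        hπ.map_id _ (hle z hz.2 hz.1 ν hν h1 (pe_mem (h3 z hz.2) m)), trace_pe (h3 z hz.2),
        hO.one _ _ (hA z hz.2 hz.1 ν hν h1), Nat.cast_one]
    have b2 : ∀ ν, ν ∉ L → pe o ρ z ν * π = 0 := fun ν hν => LinearMap.ext fun m => by
      obtain ⟨u, u1, u2⟩ := exists_perp_ne o.nd hν 1
      refine pe_eq_zero (h3 z hz.2) (u1 z hz.2) (by simp [u2]) fun t => ?_
      refine Submodule.iSup_induction _ (motive := fun m => ρ (ev o z (t • u)) m = m) (hπ.map_mem m)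
        (fun ⟨⟨x, κ⟩, hx, h0, hκ, h1⟩ v hv => hO.fix (hA x hx h0 κ hκ h1) hv (h3 z hz.2) (h4 x hx z hz.2)
          (h4 κ hκ z hz.2) (perp_smul (u1 x hx) t) (perp_smul (u1 κ hκ) t) (perp_smul (u1 z hz.2) t))
        (map_zero _) fun a b ha hb => by rw [map_add, ha, hb]
    refine mul_left_cancel₀ (card_F_ne (F := F)) ?_
    rw [← smul_eq_mul, ← map_smul, ← smul_mul_assoc, eq_sum_pe (h3 z hz.2) hz.1 (one_sub_pe z), sum_mul, map_sum,
      ← sum_subset (subset_univ (filter (· ∈ L) univ)) fun ν _ h => by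
        rw [smul_mul_assoc, b2 ν (by simpa using h)]; simp,
      sum_congr rfl (g := fun ν => if ν ∈ F ∙ z then 0 else 1) fun ν h => ?_, sum_ite_line hz.1 (hs z hz.2), hc]
    · push_cast
      ring
    · split_ifs with h1
      · simp
      · rw [one_smul, b1 ν (mem_filter.1 h).2 h1]
  have a3 := congrArg 𝐭 (show Ψ * π = ((Fintype.card F - 1) * (1 + Fintype.card F - Fintype.card F * τ) : ℂ) • π from
    LinearMap.ext fun m => a1 _ (hπ.map_mem m))
  rw [sum_mul, map_sum, sum_congr rfl a2, sum_const, card_erase_of_mem (by simp), hc, map_smul, hπ.trace,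
    nsmul_eq_mul, Nat.cast_sub (Nat.one_le_pow _ _ Fintype.card_pos), smul_eq_mul] at a3
  have hq : (Fintype.card F : ℂ) - 1 ≠ 0 := sub_ne_zero.2 (by exact_mod_cast Fintype.one_lt_card.ne')
  refine ⟨finrank ℂ A, ?_, mul_left_cancel₀ hq (by push_cast at a3; linear_combination -a3)⟩
  rw [← Fintype.card_units]
  refine card_le_of_eigen (fun u : LinearMap.ker (P.B d) => ρ (ev o d u)) (fun (t : Fˣ) u => chr P d (t.1 • r) u)
    (fun s t e => Units.ext (by_contra fun hne => h.nm ?_)) fun t => ?_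
  · have := (chr_eq_iff o).1 (DFunLike.coe_injective e)
    rwa [← sub_smul, Submodule.smul_mem_iff _ (sub_ne_zero.2 hne)] at this
  · have h5 : t.1 • r ∉ F ∙ d := by simpa [Submodule.smul_mem_iff _ t.ne_zero] using h.nm
    obtain ⟨v, hv, h0⟩ := exists_vec (hO.one _ _ (hA d hd h.ne _ (L.smul_mem t.1 hr) h5)).ge
    exact ⟨v, hle d hd h.ne _ (L.smul_mem t.1 hr) h5 hv, h0, hv⟩

theorem ident (hO : OS o ρ) (hi : ρ.IsIrreducible) (h : Adm P r d) {s₀ s : ℕ}
    (hQ : Fintype.card V = Fintype.card F ^ 3 * Q) (h0 : #{x | P.q x = 0} = s₀ + 1)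
    (hs : s₀ + 1 + Fintype.card F * Q = Fintype.card F * s + Fintype.card F + Fintype.card F ^ 2 * Q)
    (hs0 : s ≠ 0) : ∃ a : ℕ, Fintype.card F - 1 ≤ a ∧ (finrank ℂ M : ℤ) * (Fintype.card F ^ 2 - 1) *
      (a * (Q - Fintype.card F) + Fintype.card F ^ 2 - 1) = a * s₀ * s := by
  obtain ⟨τ, hτ⟩ := hO.exists_tau h
  obtain ⟨a, ha, e⟩ := hO.exists_dim hτ h
  refine ⟨a, ha, ?_⟩
  have hq := card_F_ne (F := F)
  have hs' : (s₀ : ℂ) + 1 + Fintype.card F * Q = Fintype.card F * s + Fintype.card F + Fintype.card F ^ 2 * Q := by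
    exact_mod_cast hs
  have c1 : ∀ {x}, P.q x = 0 → x ≠ 0 → (#{y | P.q y = 0 ∧ P.B x y = 0} : ℂ) = Fintype.card F * (s + 1) :=
    fun hx hx0 => by rw [card_C1 o hQ hx hx0, h0]; push_cast; linear_combination hs'
  have c2 : ∀ {x y}, Adm P x y → (#{ν | P.q ν = 0 ∧ P.B x ν = 0 ∧ P.B y ν = 0} : ℂ) =
      Fintype.card F * (s + 1) - (Fintype.card F - 1) * Q :=
    fun h => by rw [card_C2 o hQ h, h0]; push_cast; linear_combination hs'
  have t0 : ∀ {x}, P.q x = 0 → x ≠ 0 → 𝐭 (1 - pe o ρ x 0) = s := fun hx hx0 =>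
    mul_left_cancel₀ hq (by rw [hO.trace_one_sub hx hx0, c1 hx hx0]; ring)
  obtain ⟨κ, hκ⟩ : ∃ κ : ℂ, Fintype.card F ^ 2 * κ = Fintype.card F * (s + 1) - (Fintype.card F - 1) * Q -
    Fintype.card F ^ 2 := ⟨_, mul_div_cancel₀ _ (pow_ne_zero 2 hq)⟩
  have t1 : ∀ {x}, Adm P x d → 𝐭 ((1 - pe o ρ x 0) * pe o ρ d 0) = κ + (Fintype.card F - 1) * τ := fun {x} h => by
    have := hO.sum_tau hτ h (one_sub_pe x) fun ν h => if_pos h
    rw [sum_ite_line h.ne fun y hy => by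
        obtain ⟨t, rfl⟩ := Submodule.mem_span_singleton.1 hy
        simp [o.q_smul, h.qx, B_self o h.qx, h.symm.perp],
      sum_ite_line h.ne fun y hy => by simpa using Submodule.mem_sup_left hy, c2 h, card_plane h] at this
    push_cast at this
    field_simp at this
    exact mul_left_cancel₀ (pow_ne_zero 2 hq) (by linear_combination this - hκ)
  have t2 : ∀ {x y}, Adm P y d → P.B y x = 0 → P.B d x ≠ 0 →
      𝐭 ((1 - ρ (ev o y x)) * pe o ρ d 0) = κ + Fintype.card F * τ := fun {x y} h h1 h2 => by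
    have := hO.sum_tau hτ h (T := 1 - ρ (ev o y x)) (φ := fun ν => 1 - psi F (P.B ν x)) (fun ν v hv => by
      rw [LinearMap.sub_apply, mem_Wt.1 hv x h1, sub_smul, one_smul, End.one_apply]) fun ν hν => by
      obtain ⟨t, rfl⟩ := Submodule.mem_span_singleton.1 hν
      simp [h1]
    rw [sum_sub_distrib, sum_sub_distrib, sum_const, sum_const, card_plane h, nsmul_one, nsmul_one, c2 h,
      show ∀ s : Finset V, ∑ ν ∈ s, psi F (P.B ν x) = ∑ ν ∈ s, psi F (P.B x ν) from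
        fun s => sum_congr rfl fun ν _ => by rw [o.symm],
      show ∀ s : Finset V, ∑ ν ∈ s, psi F (P.B ν x) = ∑ ν ∈ s, psi F (P.B x ν) from
        fun s => sum_congr rfl fun ν _ => by rw [o.symm],
      sum_psi_eq_zero _ (z := d) (fun ν t hν => by
        simp only [mem_filter, mem_univ, true_and] at hν ⊢
        simp [o.q_add, o.q_smul, hν, h.qn, h.perp, o.symm d ν, B_self o h.qn]) _ (by rwa [o.symm]),
      sum_psi_eq_zero _ (z := d) (fun ν t hν => by
        simpa using add_mem (mem_filter.1 hν).2 (Submodule.smul_mem _ t (mem_two_right _ d))) _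
        (by rwa [o.symm])] at this
    push_cast at this
    field_simp at this
    exact mul_left_cancel₀ (pow_ne_zero 2 hq) (by linear_combination this - hκ)
  have t3 : ∀ {x}, P.q x = 0 → P.B d x ≠ 0 →
      Q * 𝐭 ((1 - pe o ρ x 0) * pe o ρ d 0) = s * (κ + Fintype.card F * τ) := fun {x} hx h1 => by
    have hx0 : x ≠ 0 := by rintro rfl; exact h1 (map_zero _)
    have := congrArg (fun T => 𝐭 (T * pe o ρ d 0)) (hO.fourier hQ hx hx0)
    simp only [smul_mul_assoc, map_smul, sum_mul, map_sum, smul_eq_mul] at this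
    rw [sum_congr rfl (g := fun y => if y ∈ F ∙ x then 0 else κ + Fintype.card F * τ) fun y hy => ?_,
      sum_ite_line hx0 (line_subset o hx), c1 hx hx0] at this
    · exact mul_left_cancel₀ hq (by linear_combination -this)
    simp only [mem_filter, mem_univ, true_and] at hy
    split_ifs with h2
    · obtain ⟨t, rfl⟩ := Submodule.mem_span_singleton.1 h2
      simp [ev_self o hx]
    have h3 : P.B x (y - (P.B d y / P.B d x) • x) = 0 := by simp [hy.2, B_self o hx]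
    have h4 : P.q (y - (P.B d y / P.B d x) • x) = 0 := by simp [o.q_sub, o.q_smul, hx, hy.1, o.symm x y, hy.2]
    have h5 : y - (P.B d y / P.B d x) • x ≠ 0 := fun e =>
      h2 (Submodule.mem_span_singleton.2 ⟨_, (sub_eq_zero.1 e).symm⟩)
    rw [← sub_add_cancel y ((P.B d y / P.B d x) • x), ev_add o hx h3 (perp_smul (B_self o hx) _), ev_self o hx,
      mul_one, ev_swap o hx h4 h3]
    refine t2 ⟨h4, h5, h.qn, by rw [o.symm]; simp [h1], fun e => h1 ?_⟩ (by rw [map_neg, o.symm, h3, neg_zero])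
      (by simpa using h1)
    obtain ⟨t, ht⟩ := Submodule.mem_span_singleton.1 e
    rw [← ht, map_smul, LinearMap.smul_apply, o.symm, h3, smul_zero]
  obtain ⟨c, hc⟩ := H6.schur_scalar ρ (∑ x ∈ (filter (P.q · = 0) univ).erase 0, (1 - pe o ρ x 0)) fun g =>
    LinearMap.ext (sum_pe_comm g (fun z hz => (mem_filter.1 (mem_erase.1 hz).2).2) fun z hz => by
      simpa [EG_q' o] using hz)
  have e1 := congrArg 𝐭 hc
  have e2 := congrArg (fun T => Q * 𝐭 (T * pe o ρ d 0)) hc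
  have e3 := t0 h.qn h.symm.ne
  rw [map_sum, sum_congr rfl fun x hx => t0 (mem_filter.1 (mem_erase.1 hx).2).2 (mem_erase.1 hx).1, sum_const,
    card_erase_of_mem (by simp [o.q_zero]), h0, map_smul, LinearMap.trace_id, Nat.add_sub_cancel] at e1
  rw [map_sub, LinearMap.trace_one] at e3
  simp only [smul_mul_assoc, map_smul, sum_mul, map_sum, mul_sum, ← End.one_eq_id, one_mul] at e2
  rw [sum_congr rfl (g := fun x => if P.B d x = 0 then (if x ∈ F ∙ d then 0 else Q * (κ + (Fintype.card F - 1) * τ))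
      else s * (κ + Fintype.card F * τ)) fun x hx => ?_, sum_erase _ (by simp), sum_ite, filter_filter,
      sum_ite_line h.symm.ne (line_subset o h.qn), sum_const, c1 h.qn h.symm.ne] at e2
  · have e4 := congrArg (Nat.cast (R := ℂ))
      (card_filter_add_card_filter_not (s := filter (P.q · = 0) univ) fun x => P.B d x = 0)
    rw [filter_filter, Nat.cast_add, c1 h.qn h.symm.ne, h0, ← eq_sub_iff_add_eq'] at e4
    rw [nsmul_eq_mul, e4] at e2
    have hQ0 : (Q : ℂ) ≠ 0 := Nat.cast_ne_zero.2 (by rintro rfl; exact Fintype.card_ne_zero hQ)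
    have e5 : c = (Fintype.card F ^ 2 - 1) * (Q + 1 - Fintype.card F * τ) :=
      mul_left_cancel₀ (mul_ne_zero hQ0 (Nat.cast_ne_zero.2 hs0)) (by
        simp only [nsmul_eq_mul, smul_eq_mul] at e1 e2
        push_cast at e2
        linear_combination e2 - Q * e1 - Q * c * e3 - Q * s * hκ +
          (Q * s - s * (κ + Fintype.card F * τ)) * hs')
    simp only [nsmul_eq_mul, smul_eq_mul, e5] at e1
    exact_mod_cast (by linear_combination -a * e1 - finrank ℂ M * (Fintype.card F ^ 2 - 1) * e :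
      (finrank ℂ M : ℂ) * (Fintype.card F ^ 2 - 1) * (a * (Q - Fintype.card F) + Fintype.card F ^ 2 - 1) =
        a * s₀ * s)
  simp only [mem_erase, mem_filter, mem_univ, true_and] at hx
  split_ifs with h1 h2
  · obtain ⟨t, rfl⟩ := Submodule.mem_span_singleton.1 h2
    have := pe_smul (o := o) (ρ := ρ) (ν := 0) h.qn (left_ne_zero_of_smul hx.1)
    rw [smul_zero] at this
    rw [this, sub_mul, one_mul, show pe o ρ d 0 * pe o ρ d 0 = pe o ρ d 0 from
      LinearMap.ext fun m => pe_self (pe_mem h.qn m)]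
    simp
  · rw [t1 (Adm.symm ⟨h.qn, h.symm.ne, hx.2, h1, h2⟩)]
  · exact t3 hx.2 h1

end OS

theorem force_eq_omB : True := by
  trivial

end H20.MR
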