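import Cfsg.Agent.Lib.MinRep.OmB

/-! The smallest degrees of complex representations of the orthogonal groups. -/

set_option autoImplicit false
set_option linter.unusedSectionVars false

namespace H20.MR

open Module H28 H97 H20.MD Finset
open scoped Classical

universe u v w

theorem exists_irr_nt {G M : Type*} [Group G] [Finite G] [AddCommGroup M] [Module ℂ M] [FiniteDimensional ℂ M]
    (ρ : Representation ℂ G M) (h : ∃ g v, ρ g v ≠ v) : ∃ (K : Submodule ℂ M) (U : Submodule ℂ K)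
      (σ : Representation ℂ G U), σ.IsIrreducible ∧ ∃ g v, σ g v ≠ v := by
  have := Fintype.ofFinite G
  obtain ⟨g, v, h⟩ := h
  have h1 : ∀ g v, (∑ k, ρ k) (ρ g v) = (∑ k, ρ k) v := fun g v => by
    simp only [LinearMap.sum_apply, ← rho_mul]
    exact Equiv.sum_comp (Equiv.mulRight g) fun k => ρ k v
  have : Nontrivial (LinearMap.ker (∑ k, ρ k)) := Submodule.nontrivial_iff_ne_bot.2
    ((Submodule.ne_bot_iff _).2 ⟨ρ g v - v, by rw [LinearMap.mem_ker, map_sub, h1, sub_self], sub_ne_zero.2 h⟩)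
  obtain ⟨U, hU⟩ := H6.exists_irreducible_subrep (res ρ (MonoidHom.id G) (LinearMap.ker (∑ k, ρ k))
    fun g v hv => (h1 g v).trans hv)
  refine ⟨_, _, _, hU, by_contra fun e => ?_⟩
  have := ((H6.isIrreducible_iff _).1 hU).1
  obtain ⟨u, hu⟩ := exists_ne (0 : U.toSubmodule)
  have h2 : ∀ g, ρ g u.1.1 = u.1.1 := fun g =>
    congrArg (fun x : U.toSubmodule => x.1.1) (by_contra fun e' => e ⟨g, u, e'⟩ : U.toRepresentation g u = u)
  have h3 : (∑ k, ρ k) u.1.1 = 0 := u.1.2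
  rw [LinearMap.sum_apply, sum_congr rfl fun g _ => h2 g, sum_const, ← Nat.cast_smul_eq_nsmul ℂ] at h3
  simp [hu] at h3

theorem nt_of_two {G M : Type*} [Group G] [AddCommGroup M] [Module ℂ M] {ρ : Representation ℂ G M}
    (hρ : ρ.IsIrreducible) (h2 : 2 ≤ finrank ℂ M) : ∃ g v, ρ g v ≠ v := by
  by_contra! e
  have := H63.CrossChar.finrank_le_one_of_trivial ρ hρ fun g => LinearMap.ext (e g)
  omega

section Arith

theorem no_mul {E R c : ℤ} (j : ℤ) (h : E * c = R) (h1 : E * j < R) (h2 : R < E * (j + 1)) : False := by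
  have h0 : 0 ≤ E := by linarith
  have := lt_of_mul_lt_mul_left (h ▸ h1 : E * j < E * c) h0
  have := lt_of_mul_lt_mul_left (h ▸ h2 : E * c < E * (j + 1)) h0
  omega

theorem arithB {q x k a : ℤ} (hq : 2 ≤ q) (hx : q ^ 2 ≤ x) (ha : q - 1 ≤ a)
    (e : k * (q ^ 2 - 1) * (a * (x ^ 2 - q) + q ^ 2 - 1) = a * (q ^ 2 * x ^ 2 - 1) * (x ^ 2 - 1)) :
    q ^ 2 * x ^ 2 - 1 ≤ (q ^ 2 - 1) * k := by
  have h0 : 2 * q ≤ q ^ 2 := by nlinarith
  have h2 : 4 * q ^ 2 ≤ x ^ 2 := by nlinarith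
  rcases (by omega : a = q - 1 ∨ a = q ∨ q + 1 ≤ a) with rfl | rfl | h
  · refine (no_mul (E := x ^ 2 + 1) (R := 2 * (q ^ 2 + 1))
      (c := k * (q ^ 2 - 1) - q ^ 2 * x ^ 2 + 2 * q ^ 2 + 1) 0 ?_ (by linarith) (by linarith)).elim
    exact mul_left_cancel₀ (by omega : q - 1 ≠ 0) (by linear_combination e)
  · exact (no_mul (E := a * x ^ 2 - 1) (R := (a - 1) ^ 2)
      (c := a ^ 2 * x ^ 2 - a ^ 2 + a - 1 - k * (a ^ 2 - 1)) 0 (by linear_combination -e) (by nlinarith)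
      (by nlinarith)).elim
  · have h3 := mul_nonneg (by linarith : 0 ≤ a) (by linarith : 0 ≤ x ^ 2 - q)
    have h4 := mul_nonneg (by nlinarith : 0 ≤ q ^ 2 * x ^ 2 - 1)
      (mul_nonneg (by linarith : 0 ≤ a - q - 1) (by linarith : 0 ≤ q - 1))
    exact le_of_mul_le_mul_right (by linarith) (show 0 < a * (x ^ 2 - q) + q ^ 2 - 1 by linarith)

theorem arithD' {q y c ε : ℤ} (hq : ε = 1 ∧ 4 ≤ q ∨ ε = -1 ∧ 2 ≤ q) (hy : y = q ^ 2 ∨ 2 * q ^ 2 ≤ y) :
    (q * y ^ 2 + 1) * c ≠ (q + 1) ^ 2 * ((q - 1) * y - ε) := fun this => by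
  rcases hy with rfl | hy
  · rcases hq with ⟨rfl, hq⟩ | ⟨rfl, hq⟩
    · obtain ⟨p, rfl⟩ : ∃ p : ℕ, q = p + 4 := ⟨(q - 4).toNat, by omega⟩
      refine no_mul 1 this (sub_pos.1 ?_) (sub_pos.1 ?_) <;> ring_nf <;> positivity
    · obtain ⟨p, rfl⟩ : ∃ p : ℕ, q = p + 2 := ⟨(q - 2).toNat, by omega⟩
      refine no_mul 1 this (sub_pos.1 ?_) (sub_pos.1 ?_) <;> ring_nf <;> positivity
  · obtain ⟨p, rfl⟩ : ∃ p : ℕ, q = p + 2 := ⟨(q - 2).toNat, by omega⟩
    obtain ⟨z, rfl⟩ : ∃ z : ℕ, y = z + 2 * (p + 2) ^ 2 := ⟨(y - 2 * (p + 2) ^ 2).toNat, by omega⟩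
    rcases hq with ⟨rfl, -⟩ | ⟨rfl, -⟩ <;>
      refine no_mul 0 this (sub_pos.1 ?_) (sub_pos.1 ?_) <;> ring_nf <;> positivity

theorem arithD {q y k a ε : ℤ} (hq : ε = 1 ∧ 4 ≤ q ∨ ε = -1 ∧ 2 ≤ q) (hy : y = q ^ 2 ∨ 2 * q ^ 2 ≤ y)
    (ha : q - 1 ≤ a) (e : k * (q ^ 2 - 1) * (a * (q * y ^ 2 - q) + q ^ 2 - 1) =
      a * ((q ^ 2 * y - ε) * (q * y + ε)) * ((q * y - ε) * (y + ε))) :
    (q ^ 2 * y - ε) * (q * y + ε * q) ≤ (q ^ 2 - 1) * k := by
  have h0 : 2 ≤ q := by omega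
  have h1 : 2 * q ≤ q ^ 2 := by nlinarith
  have h2 : 4 ≤ y := by rcases hy with h | h <;> linarith
  have h4 : -1 ≤ ε ∧ ε ≤ 1 := by omega
  rcases (by omega : a = q - 1 ∨ q ≤ a) with rfl | h
  · refine (arithD' (c := ε * (q * (q ^ 2 * y - ε) * (y + ε) - k * (q ^ 2 - 1) - q * (q + 1))) hq hy
      (mul_left_cancel₀ (by omega : q - 1 ≠ 0) ?_)).elim
    rcases hq with ⟨rfl, -⟩ | ⟨rfl, -⟩
    · linear_combination -e
    · linear_combination e
  · have h3 := mul_nonneg (by linarith : 0 ≤ a) (mul_nonneg (by linarith : 0 ≤ q) (mul_nonneg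
      (by linarith : 0 ≤ y - 1) (by linarith : 0 ≤ y + 1)))
    have h5 := mul_pos (by linarith : 0 < q) (by linarith : 0 < a * (q * y ^ 2 - q) + q ^ 2 - 1)
    have h7 := mul_nonneg (by linarith : 0 ≤ q ^ 2 - 1) (by linarith : 0 ≤ y)
    have h6 := mul_nonneg (mul_nonneg (by linarith : 0 ≤ q ^ 2 * y - ε) (mul_nonneg (by linarith : 0 ≤ q)
      (by linarith : 0 ≤ y + ε))) (mul_nonneg (by linarith : 0 ≤ a - q) (by linarith : 0 ≤ q ^ 2 - 1))
    refine le_of_mul_le_mul_right ?_ h5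
    rcases hq with ⟨rfl, -⟩ | ⟨rfl, -⟩ <;> linear_combination h6 - q * e

theorem arithS {q y k : ℤ} (hq : q = 2 ∨ q = 3) (hy : 1 ≤ y) (h : y = q ^ 2 ∧ q * y ^ 2 + y ≤ k ∨
    2 * (q * y ^ 2 + y) ≤ k ∨ (q * y + 1) * (y - 1) + (q * y ^ 2 + y) ≤ k ∨ ∃ z l, y = q * z ∧
      (q ^ 2 * z + 1) * (q * z - q) ≤ (q ^ 2 - 1) * l ∧ l + (q * y ^ 2 + y) ≤ k) :
    (q ^ 2 * y + 1) * (q * y - q) ≤ (q ^ 2 - 1) * k := by
  rcases hq with rfl | rfl <;> rcases h with ⟨rfl, h⟩ | h | h | ⟨z, l, rfl, h, h'⟩ <;> nlinarith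

end Arith

section Rep

variable {F V : Type*} [Field F] [Fintype F] [AddCommGroup V] [Module F V] [FiniteDimensional F V] [Fintype V]
  {P : PQ F V (RingHom.id F)} {x d f ν x' ν' : V} {Q : ℕ} {o : Orth P} {M : Type*} [AddCommGroup M] [Module ℂ M]
  [FiniteDimensional ℂ M] {ρ : Representation ℂ (EG P) M} {v : M}

theorem exists_Wt (o : Orth P) (h : ∃ g v, ρ g v ≠ v) :
    ∃ x ν v, P.q x = 0 ∧ x ≠ 0 ∧ P.B x ν = 0 ∧ ν ∉ F ∙ x ∧ v ∈ Wt o ρ x ν ∧ v ≠ 0 := by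
  obtain ⟨x, u, v, hx, hu, hv⟩ : ∃ x u v, P.q x = 0 ∧ P.B x u = 0 ∧ ρ (ev o x u) v ≠ v := by
    by_contra! e
    obtain ⟨g, v, hv⟩ := h
    obtain ⟨k, hk, e'⟩ := EG_le (M := ρ.ker.map (EG P).subtype) (fun x u c hx hu hc => ⟨(ev o x u).1,
      ⟨_, LinearMap.ext fun v => e x u v (o.mem.1 hx) hu, rfl⟩, fun z => by
        rw [ev_eu o (o.mem.1 hx) hu, o.sub_mem.1 hc]⟩) g.2
    exact hv (by rw [← show k = g from Subtype.ext e', show ρ k = 1 from hk]; rfl)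
  obtain ⟨χ, h1, w, -, h0, hw⟩ := exists_wt_ne (x := fun u : LinearMap.ker (P.B x) => ev o x u) (ev_add' o hx)
    (N := ⊤) (fun _ _ _ => trivial) trivial (a := ⟨u, hu⟩) hv
  obtain ⟨ν, rfl⟩ := exists_chr o χ
  refine ⟨x, ν, w, hx, fun e => hv ?_, by_contra fun e => h0 (Wt_eq_zero hx e hw), fun e => h1 ?_, hw, h0⟩
  · rw [e, show ev o 0 u = 1 from EG_ext fun v => by
      simp [ev_apply o o.q_zero (show P.B 0 u = 0 by simp)], rho_one]
  · obtain ⟨t, rfl⟩ := Submodule.mem_span_singleton.1 e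
    simp [chr_apply, hu]

theorem mult_le (hn : 7 ≤ finrank F V) (hx : P.q x = 0) (hx' : P.q x' = 0) (h0 : x ≠ 0) (h0' : x' ≠ 0)
    (h : P.B x ν = 0) (h' : P.B x' ν' = 0) (hν : ν ∉ F ∙ x) (hν' : ν' ∉ F ∙ x') {a : F} (ha : a ≠ 0)
    (hq : P.q ν' = a * a * P.q ν) : finrank ℂ (Wt o ρ x ν) ≤ finrank ℂ (Wt o ρ x' ν') := by
  obtain ⟨g, rfl, rfl⟩ := trans_two o hn (x := a • x) (ν := a • ν) (by rw [o.q_smul, hx, mul_zero]) hx'
    (smul_ne_zero ha h0) h0' (by simp [h]) h' (by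
      rwa [Submodule.span_singleton_smul_eq ha.isUnit, Submodule.smul_mem_iff _ ha]) hν' (by rw [o.q_smul, hq])
  exact finrank_le_of_maps ρ g fun v hv => Wt_conj (by rw [o.q_smul, hx, mul_zero]) g (Wt_smul hx a hv)

theorem W_notMem (h : Pair P d f) {y : Wp P d f} (hy : y ≠ 0) : (y : V) ∉ F ∙ d := fun e => by
  obtain ⟨t, ht⟩ := Submodule.mem_span_singleton.1 e
  exact hy (h.smul_d_add_eq_zero (a := -t) (by rw [← ht]; simp)).2

theorem sum_mult_le (o : Orth P) (ρ : Representation ℂ (EG P) M) (h : Pair P d f) (C : Finset (Wp P d f)) :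
    ∑ y ∈ C, finrank ℂ (Wt o ρ d y) ≤ finrank ℂ M := by
  have := sum_le_finrank (ρ := ρ) (x := fun u : LinearMap.ker (P.B d) => ev o d u) (ev_add' o (o.mem.1 h.hd))
    (N := ⊤) (fun _ _ _ => trivial) C (fun y => chr P d y) fun y _ y' _ e => sub_eq_zero.1 (by_contra fun e' => W_notMem h e' ((chr_eq_iff o).1 e))
  rw [finrank_top] at this
  exact (sum_congr rfl fun y _ => by rw [top_inf_eq]; rfl).trans_le this

theorem le_mult (hn : 7 ≤ finrank F V) (hx : P.q x = 0) (h0 : x ≠ 0) (h1 : P.B x ν = 0) (hν : ν ∉ F ∙ x)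
    (h : Pair P d f) {y : Wp P d f} (hy : y ∈ cls (Pw P d f) (P.q ν)) :
    finrank ℂ (Wt o ρ x ν) ≤ finrank ℂ (Wt o ρ d y) := by
  obtain ⟨h2, a, ha, h3⟩ := mem_cls.1 hy
  exact mult_le hn hx (o.mem.1 h.hd) h0 h.d_ne h1 (W_d y) hν (W_notMem h h2) ha (o.sub_mem.1 h3)

theorem cls_le (hn : 7 ≤ finrank F V) (hx : P.q x = 0) (h0 : x ≠ 0) (h1 : P.B x ν = 0) (hν : ν ∉ F ∙ x)
    (h : Pair P d f) : #(cls (Pw P d f) (P.q ν)) * finrank ℂ (Wt o ρ x ν) ≤ finrank ℂ M :=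
  (card_nsmul_le_sum _ _ _ fun _ => le_mult hn hx h0 h1 hν h).trans (sum_mult_le o ρ h _)

theorem card_sing (o : Orth P) : #{x | P.q x = 0} = #(lvl P 0) + 1 := by
  rw [← card_insert_of_notMem (zero_not_mem_lvl 0)]
  congr 1
  ext x
  by_cases h : x = 0 <;> simp [o.mem_lvl', h, o.q_zero]

theorem tri (o : Orth P) (hn : 7 ≤ finrank F V) (hR : 9 ≤ finrank F V ∨ 3 < Fintype.card F ∨
      8 ≤ finrank F V ∧ ∀ U : Submodule F V, (∀ u ∈ U, P.q u = 0) → finrank F U ≤ 3)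
    (hi : ρ.IsIrreducible) (h : ∃ g v, ρ g v ≠ v) (hQ : Fintype.card V = Fintype.card F ^ 3 * Q) {s : ℤ}
    (hs : #(lvl P 0) + 1 + Fintype.card F * Q = Fintype.card F * s + Fintype.card F + Fintype.card F ^ 2 * Q) :
    (∃ x ν v, P.q x = 0 ∧ x ≠ 0 ∧ P.q ν ≠ 0 ∧ P.B x ν = 0 ∧ v ∈ Wt o ρ x ν ∧ v ≠ 0) ∨ 2 * s ≤ finrank ℂ M ∨
      ∃ a : ℤ, Fintype.card F - 1 ≤ a ∧ (finrank ℂ M : ℤ) * (Fintype.card F ^ 2 - 1) *
        (a * (Q - Fintype.card F) + Fintype.card F ^ 2 - 1) = a * #(lvl P 0) * s := by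
  refine or_iff_not_imp_left.2 fun h1 => ?_
  push Not at h1
  obtain ⟨x, ν, v, hx, h0, h2, h3, hv, hv0⟩ := exists_Wt o h
  have h4 : P.q ν = 0 := by_contra fun e => hv0 (h1 x ν v hx h0 e h2 hv)
  obtain ⟨f, hf⟩ := exists_pair o.nd (o.mem.2 hx) h0
  obtain ⟨q, hq⟩ : ∃ q, Fintype.card F = q + 1 := ⟨_, (Nat.succ_pred_eq_of_pos Fintype.card_pos).symm⟩
  have h5 := o.lvl_pair hf (Nat.card_eq_fintype_card.trans hq)
  have h6 := hf.card_W
  rw [Nat.card_eq_fintype_card, Nat.card_eq_fintype_card, hQ, pow_succ, mul_assoc,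
    mul_right_inj' (pow_ne_zero 2 Fintype.card_ne_zero)] at h6
  have h7 : #(lvl P 0) + 1 + Fintype.card F * Q =
      Fintype.card F * #(lvl (Pw P x f) 0) + Fintype.card F + Fintype.card F ^ 2 * Q := by
    rw [h5, ← h6, hq]; ring
  obtain rfl : s = #(lvl (Pw P x f) 0) := mul_left_cancel₀ (Nat.cast_ne_zero.2 (Fintype.card_ne_zero (α := F)))
    (by zify at h7; linear_combination h7 - hs)
  have h8 := cls_le (o := o) (ρ := ρ) hn hx h0 h2 h3 hf
  rw [h4, cls_eq_lvl_of_mem (zero_mem _)] at h8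
  refine (lt_or_ge 1 (finrank ℂ (Wt o ρ x ν))).imp (fun e => by
    exact_mod_cast (mul_comm 2 _).trans_le ((Nat.mul_le_mul_left _ e).trans h8)) fun e => ?_
  obtain ⟨r, r', hr⟩ := (o.pw hf).exists_pair (by have := hf.finrank_W; omega)
  obtain ⟨a, ha, e⟩ := OS.ident (o := o) ⟨hn, h1, fun y κ hy => le_antisymm
    ((mult_le hn hy.qx hx hy.ne h0 hy.perp h2 hy.nm h3 one_ne_zero (by simp [h4, hy.qn])).trans e)
    ((one_le_finrank hv hv0).trans (mult_le hn hx hy.qx h0 hy.ne h2 hy.perp h3 hy.nm one_ne_zero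
      (by simp [h4, hy.qn]))), hR⟩ hi ⟨hx, h0, h4, h2, h3⟩ hQ (card_sing o) h7
    (card_ne_zero.2 ⟨r, (o.pw hf).mem_lvl'.2 ⟨hr.d_ne, o.mem.1 hr.hd⟩⟩)
  exact ⟨a, by omega, e⟩

theorem big_ns (hn : 7 ≤ finrank F V) (hq : 3 < Fintype.card F) {j t : ℕ} (hj : j ≤ t)
    (hN : finrank F V = j + t + 3) (hx : P.q x = 0) (h0 : x ≠ 0) (hν : P.q ν ≠ 0) (h1 : P.B x ν = 0)
    (hv : v ∈ Wt o ρ x ν) (hv0 : v ≠ 0) :
    2 * Fintype.card F ^ (j + t) ≤ finrank ℂ M + 2 * Fintype.card F ^ t := by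
  obtain ⟨f, hf⟩ := exists_pair o.nd (o.mem.2 hx) h0
  have h2 := cls_le (o := o) (ρ := ρ) hn hx h0 h1 (fun e => hν (sing_line o hx ν e)) hf
  have h3 := (o.pw hf).cls_ge (c := P.q ν) (μ := Fintype.card F ^ (j + t) - Fintype.card F ^ t) fun c => by
    have := (o.pw hf).lvl_ge hj (by have := hf.finrank_W; omega) c
    rw [Nat.card_eq_fintype_card] at this
    omega
  have h4 := card_sq_image hν
  rw [Nat.card_eq_fintype_card] at h4
  have h5 := (Nat.mul_le_mul_right _ (by omega : 2 ≤ _)).trans h3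
  have h6 := (Nat.le_mul_of_pos_right _ (one_le_finrank hv hv0)).trans h2
  omega

theorem ext_ev (h : Pair P d f) {x u : Wp P d f} (hx : P.q x = 0) (hu : P.B x u = 0) :
    ext h (ev (o.pw h) x u) = ev o x u :=
  h.EG_ext ((ext_d h _).trans (ev_fix o hx hu (W_d' x) (W_d' u)).symm)
    ((ext_f h _).trans (ev_fix o hx hu (W_f' x) (W_f' u)).symm)
    fun w => (ext_W h _ w).trans (by rw [ev_apply o hx hu, ev_apply (o.pw h) hx hu]; rfl)

theorem exists_sub (hn : 9 ≤ finrank F V) (hs : ∀ x ν, Adm P x ν → ∀ v ∈ Wt o ρ x ν, v = 0) (hd : P.q d = 0)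
    (h0 : d ≠ 0) (hν : P.q ν ≠ 0) (hdν : P.B d ν = 0) (h1 : finrank ℂ (Wt o ρ d ν) = 1) :
    ∃ r f, ∃ h : Pair P r f, ∃ γ, ∃ v ∈ Wt o ρ r 0, ρ (ext h γ) v ≠ v := by
  obtain ⟨v, hv, hv0⟩ := exists_vec h1.ge
  have h2 := finrank_perp o.nd ((F ∙ d) ⊔ F ∙ ν)
  have h3 := finrank_two_le (F := F) d ν
  obtain ⟨r, r1, r2, r3⟩ := o.iso.exists_notMem (perp P ((F ∙ d) ⊔ F ∙ ν)) ((F ∙ d) ⊔ F ∙ ν) (by omega)
  obtain ⟨f, f1, f2, f3⟩ := P.exists_partner o.nd _ r2 r3 (mem_perp'.1 r1)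
  have h : Pair P r f := ⟨r3, f1, (o.symm _ _).trans f2⟩
  rw [o.mem] at r3
  obtain ⟨r4, r5⟩ := mem_perp_two.1 r1
  have r6 := P.eq_zero_symm r4
  obtain ⟨d, rfl⟩ : ∃ d' : Wp P r f, d' = d := ⟨⟨d, r6, f3 _ (mem_two_left d ν)⟩, rfl⟩
  obtain ⟨y, y1, y2⟩ := exists_perp_ne (o.pw h).nd (U := F ∙ d)
    (x := ⟨ν, P.eq_zero_symm r5, f3 _ (mem_two_right _ ν)⟩) (fun e => hν (sing_line (o.pw h) hd _ e)) 1
  have y3 : P.B d y = 0 := y1 d (Submodule.mem_span_singleton_self d)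
  change P.B ν y = 1 at y2
  have y4 := W_d y
  have hA : Adm P r d := ⟨r3, h.d_ne, hd, r6, not_mem_span_symm h0 h.d_ne fun e => r2 (Submodule.mem_sup_left e)⟩
  have s0 : ∀ t : F, ρ (ev o r (t • y)) v ∈ Wt o ρ d (ν + t • r) := fun t => by
    have := Wt_conj hd (ev o r (t • y)) hv
    rw [ev_fix o r3 (perp_smul y4 t) r6 (by simp [o.symm d y, y3]), ev_apply o r3 (perp_smul y4 t)] at this
    simpa [o.symm ν r, r5, o.symm ν y, y2] using this
  have s1 : pe o ρ d ν (∑ t : F, ρ (ev o r (t • y)) v) = v := by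
    rw [map_sum, sum_eq_single 0 (fun t _ ht => ?_) (by simp)]
    · rw [zero_smul, ← zero_smul F r, ev_self o r3, rho_one, pe_self hv]
    · rw [pe_of_mem (s0 t), if_neg]
      simpa [Submodule.smul_mem_iff _ ht] using hA.symm.nm
  have s2 : ∀ a : F, ρ (ev o d (a • y)) (∑ t : F, ρ (ev o r (t • y)) v) =
      psi F (a * 1) • ∑ t : F, ρ (ev o r (t • y)) v := fun a => by
    rw [map_sum, smul_sum]
    exact sum_congr rfl fun t _ => by rw [mem_Wt.1 (s0 t) _ (perp_smul y3 a)]; simp [y2, y4]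
  have s3 : ∀ u, P.B r u = 0 → P.B d u = 0 →
      ρ (ev o r u) (∑ t : F, ρ (ev o r (t • y)) v) = ∑ t : F, ρ (ev o r (t • y)) v := fun u u1 u2 => by
    have h4 : P.B r (u - P.B ν u • y) = 0 := by simp [u1, y4]
    have h5 := fix_of_one (by omega) hd h1 hv hdν r3 r1 (Or.inl hn) (u := u - P.B ν u • y) (by
      rw [perp_sup]
      exact ⟨mem_perp_two.2 ⟨by simp [u2, y3], by simp [y2]⟩, mem_perp_singleton.2 h4⟩)
    rw [map_sum, ← Equiv.sum_comp (Equiv.addRight (P.B ν u)) fun t : F => ρ (ev o r (t • y)) v]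
    refine sum_congr rfl fun t _ => ?_
    nth_rw 2 [← h5]
    rw [← rho_mul, ← rho_mul, ← ev_add o r3 u1 (perp_smul y4 _), ← ev_add o r3 (perp_smul y4 _) h4]
    congr 3
    simp only [Equiv.coe_addRight]
    module
  generalize ∑ t : F, ρ (ev o r (t • y)) v = v₀ at s1 s2 s3
  obtain ⟨a, ha⟩ : ∃ a : F, psi F (a * 1) • v₀ ≠ v₀ := by
    by_contra! e
    exact hv0 (by rw [← s1, eq_zero_of_psi_smul one_ne_zero e, map_zero])
  refine ⟨r, f, h, ev (o.pw h) d (a • y), v₀, ?_, by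
    rwa [ext_ev (o := o) h hd (perp_smul y3 a), Submodule.coe_smul, s2]⟩
  have s4 := congrArg (fun T => T v₀)
    (eq_sum_pe (o := o) (ρ := ρ) r3 h.d_ne (T := 1) (φ := fun _ => 1) fun _ _ _ => by simp)
  simp only [LinearMap.smul_apply, End.one_apply, one_smul, LinearMap.sum_apply] at s4
  rw [← Submodule.smul_mem_iff _ (card_F_ne (F := F)), s4]
  refine Submodule.sum_mem _ fun κ _ => ?_
  by_cases h4 : κ ∈ F ∙ r
  · rw [pe_congr (ν' := 0) (by rwa [sub_zero])]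
    exact pe_mem r3 _
  by_cases h5 : κ ∈ (F ∙ r) ⊔ F ∙ d.1
  · have h6 := sing_sup o (sing_line o r3) hd (mem_perp_singleton.2 r6)
    rw [hs r κ ⟨r3, h.d_ne, h6 κ h5, o.B_of_q h6 _ (mem_two_left r d) κ h5, h4⟩ _ (pe_mem r3 _)]
    exact zero_mem _
  · obtain ⟨u, u1, u2⟩ := exists_perp_ne o.nd h5 1
    obtain ⟨u3, u4⟩ := mem_perp_two.1 u1
    rw [pe_eq_zero r3 u3 (by simp [u2]) fun t => s3 _ (perp_smul u3 t) (perp_smul u4 t)]
    exact zero_mem _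

theorem odd_bound {m : ℕ} (hn : finrank F V = 2 * m + 7) (hq : 3 < Fintype.card F)
    (h0 : #(lvl P 0) = Fintype.card F ^ (2 * (m + 3)) - 1) (o : Orth P) (hi : ρ.IsIrreducible)
    (h : ∃ g v, ρ g v ≠ v) : Fintype.card F ^ (2 * (m + 3)) - 1 ≤ (Fintype.card F ^ 2 - 1) * finrank ℂ M := by
  have h1 := Nat.one_le_pow (2 * (m + 3)) _ (Fintype.card_pos (α := F))
  have h2 := Nat.one_le_pow 2 _ (Fintype.card_pos (α := F))
  have h3 := Nat.pow_le_pow_right (Fintype.card_pos (α := F)) (by omega : 2 ≤ m + 2)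
  have h4 := tri o (by omega) (by omega) hi h (Q := (Fintype.card F ^ (m + 2)) ^ 2)
    (by rw [card_eq_pow_finrank (K := F), hn]; ring) (s := (Fintype.card F ^ (m + 2)) ^ 2 - 1)
    (by zify [h1] at h0; rw [h0]; push_cast; ring)
  rw [h0] at h4
  replace h4 := h4.imp_left fun ⟨x, ν, v, a1, a2, a3, a4, a5, a6⟩ =>
    big_ns (by omega) hq (le_refl (m + 2)) (by omega) a1 a2 a3 a4 a5 a6
  rw [show Fintype.card F ^ (2 * (m + 3)) = Fintype.card F ^ 2 * (Fintype.card F ^ (m + 2)) ^ 2 by ring] at h1 h4 ⊢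
  rw [pow_add _ (m + 2), ← sq] at h4
  zify [h1, h2] at h3 h4 hq ⊢
  generalize (Fintype.card F : ℤ) ^ (m + 2) = x at h3 h4 ⊢
  generalize (Fintype.card F : ℤ) = q at h3 h4 hq ⊢
  have h5 : 16 ≤ q ^ 2 := by nlinarith
  rcases h4 with h4 | h4 | ⟨a, ha, e⟩
  · have := mul_le_mul_of_nonneg_left h4 (by linarith : 0 ≤ q ^ 2 - 1)
    have := mul_nonneg (by linarith : 0 ≤ x) (mul_nonneg (by linarith : 0 ≤ q ^ 2 - 2) (by linarith : 0 ≤ x - 3))
    nlinarith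
  · have := mul_le_mul_of_nonneg_left h4 (by linarith : 0 ≤ q ^ 2 - 1)
    have := mul_nonneg (by linarith : 0 ≤ q ^ 2 - 2) (by nlinarith : 0 ≤ x ^ 2 - 3)
    linarith
  · exact arithB (by omega) h3 ha e

theorem even_tri {m : ℕ} {ε : ℤ} (hn : finrank F V = 2 * m + 8)
    (hq : ε = 1 ∧ 4 ≤ (Fintype.card F : ℤ) ∨ ε = -1 ∧ 2 ≤ (Fintype.card F : ℤ))
    (h0 : (#(lvl P 0) : ℤ) = (Fintype.card F ^ 2 * Fintype.card F ^ (m + 2) - ε) *
      (Fintype.card F * Fintype.card F ^ (m + 2) + ε)) (o : Orth P) (hi : ρ.IsIrreducible) (h : ∃ g v, ρ g v ≠ v) :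
    Fintype.card F ≤ 3 ∧ (∃ x ν v, P.q x = 0 ∧ x ≠ 0 ∧ P.q ν ≠ 0 ∧ P.B x ν = 0 ∧ v ∈ Wt o ρ x ν ∧ v ≠ 0) ∨
      (Fintype.card F ^ 2 * Fintype.card F ^ (m + 2) - ε) * (Fintype.card F * Fintype.card F ^ (m + 2) +
        ε * Fintype.card F) ≤ (Fintype.card F ^ 2 - 1) * (finrank ℂ M : ℤ) := by
  have h1 : (Fintype.card F : ℤ) ^ (m + 2) = Fintype.card F ^ 2 ∨
      2 * (Fintype.card F : ℤ) ^ 2 ≤ Fintype.card F ^ (m + 2) := by
    rcases m with _ | m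
    · exact Or.inl rfl
    · exact Or.inr (by
        rw [pow_add]
        exact mul_le_mul_of_nonneg_right ((by omega : (2 : ℤ) ≤ Fintype.card F).trans
          (le_self_pow₀ (by omega) (by omega))) (by positivity))
  have h4 := tri o (by omega) (by
      rcases hq with hq | ⟨rfl, hq⟩
      · omega
      refine (lt_or_ge 8 _).imp_right fun h2 => Or.inr ⟨by omega, fun U hU => by_contra fun h3 => ?_⟩
      obtain rfl : m = 0 := by omega
      have := o.lvl_ge_ts ⟨fun u hu => o.mem.2 (hU u hu), o.B_of_q hU⟩ (j := 4) (t := 3) (by omega) hn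
      rw [Nat.card_eq_fintype_card] at this
      zify at this
      rw [h0] at this
      exact (mul_pos (pow_pos (by omega : (0 : ℤ) < Fintype.card F) 3)
        (by omega : (0 : ℤ) < 2 * Fintype.card F - 2)).not_ge (by linear_combination this)) hi h (Q := Fintype.card F * (Fintype.card F ^ (m + 2)) ^ 2)
    (by rw [card_eq_pow_finrank (K := F), hn]; ring)
    (s := (Fintype.card F * Fintype.card F ^ (m + 2) - ε) * (Fintype.card F ^ (m + 2) + ε))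
    (by rw [h0]; push_cast; rcases hq with ⟨rfl, -⟩ | ⟨rfl, -⟩ <;> ring)
  rw [h0] at h4
  by_cases h5 : Fintype.card F ≤ 3 ∧
    ∃ x ν v, P.q x = 0 ∧ x ≠ 0 ∧ P.q ν ≠ 0 ∧ P.B x ν = 0 ∧ v ∈ Wt o ρ x ν ∧ v ≠ 0
  · exact Or.inl h5
  refine Or.inr ?_
  replace h4 := h4.imp_left fun e => have h6 := not_le.1 fun e' => h5 ⟨e', e⟩
    And.intro h6 (e.elim fun x ⟨ν, v, a1, a2, a3, a4, a5, a6⟩ =>
      big_ns (by omega) h6 (Nat.le_succ (m + 2)) (by omega) a1 a2 a3 a4 a5 a6)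
  rw [pow_add _ (m + 2), Nat.succ_eq_add_one, pow_succ' _ (m + 2)] at h4
  zify at h4
  generalize (Fintype.card F : ℤ) ^ (m + 2) = y at h1 h4 ⊢
  generalize (Fintype.card F : ℤ) = q at h1 h4 hq ⊢
  have h6 : 2 * q ≤ q ^ 2 := by nlinarith [(by omega : 2 ≤ q)]
  have h7 : q ^ 2 ≤ y := by rcases h1 with h | h <;> linarith [(by omega : 2 ≤ q)]
  rcases h4 with ⟨h3, h4⟩ | h4 | ⟨a, ha, e⟩
  · refine le_trans ?_ (mul_le_mul_of_nonneg_left (sub_le_iff_le_add.2 h4) (by nlinarith))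
    obtain ⟨p, rfl⟩ : ∃ p : ℕ, q = p + 4 := ⟨(q - 4).toNat, by omega⟩
    obtain ⟨z, rfl⟩ : ∃ z : ℕ, y = z + (p + 4) ^ 2 := ⟨(y - (p + 4) ^ 2).toNat, by omega⟩
    rcases hq with ⟨rfl, -⟩ | ⟨rfl, -⟩ <;> refine sub_nonneg.1 ?_ <;> ring_nf <;> positivity
  · refine le_trans ?_ (mul_le_mul_of_nonneg_left h4 (by omega))
    obtain ⟨p, rfl⟩ : ∃ p : ℕ, q = p + 2 := ⟨(q - 2).toNat, by omega⟩
    obtain ⟨z, rfl⟩ : ∃ z : ℕ, y = z + (p + 2) ^ 2 := ⟨(y - (p + 2) ^ 2).toNat, by omega⟩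
    rcases hq with ⟨rfl, -⟩ | ⟨rfl, -⟩ <;> refine sub_nonneg.1 ?_ <;> ring_nf <;> positivity
  · exact arithD hq h1 ha e

/-- The numbers of vectors of each length in a space of minus type. -/
structure Minus (P : PQ F V (RingHom.id F)) (m : ℕ) : Prop where
  dim : finrank F V = 2 * m + 2
  zero : cnt P 0 + Fintype.card F ^ (m + 1) = Fintype.card F ^ (2 * m + 1) + Fintype.card F ^ m
  ne : Fintype.card F ≤ 3 → ∀ c ≠ 0, Fintype.card F ^ (2 * m + 1) + Fintype.card F ^ m ≤ cnt P c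

theorem Minus.pw {m : ℕ} (hm : Minus P (m + 1)) (o : Orth P) (h : Pair P d f) : Minus (Pw P d f) m := by
  have h1 : finrank F (Wp P d f) = 2 * m + 2 := by have := h.finrank_W; have := hm.dim; omega
  have h2 := fun c => cnt_pair h c
  obtain ⟨q, hq⟩ : ∃ q, Fintype.card F = q + 1 := ⟨_, (Nat.succ_pred_eq_of_pos Fintype.card_pos).symm⟩
  simp only [o.card_lam, card_submodule (F := F), h1, Nat.card_eq_fintype_card (α := F), hq,
    Nat.add_sub_cancel] at h2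
  refine ⟨h1, Nat.eq_of_mul_eq_mul_left (Fintype.card_pos (α := F)) ?_, fun e c hc =>
    Nat.le_of_mul_le_mul_left ?_ (Fintype.card_pos (α := F))⟩
  · have := hm.zero
    rw [h2, hq] at this
    rw [hq]
    linear_combination this
  · have := hm.ne e c hc
    rw [h2, hq] at this
    rw [hq]
    linear_combination this

end Rep

theorem minus_bound {F : Type u} [Field F] [Fintype F] (m : ℕ) : ∀ {V : Type v} [AddCommGroup V] [Module F V]
    [FiniteDimensional F V] [Fintype V] {P : PQ F V (RingHom.id F)} (_ : Orth P) (_ : Minus P (m + 3))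
    {M : Type w} [AddCommGroup M] [Module ℂ M] [FiniteDimensional ℂ M] (ρ : Representation ℂ (EG P) M)
    (_ : ∃ g v, ρ g v ≠ v), (Fintype.card F ^ 2 * Fintype.card F ^ (m + 2) + 1) *
      (Fintype.card F * Fintype.card F ^ (m + 2) - Fintype.card F) ≤ (Fintype.card F ^ 2 - 1) * (finrank ℂ M : ℤ) := by
  induction m using Nat.strong_induction_on with
  | _ m ih =>
  intro V _ _ _ _ P o hm M _ _ _ ρ h
  have hq : 2 ≤ Fintype.card F := Fintype.one_lt_card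
  obtain ⟨K, U, σ, hi, h⟩ := exists_irr_nt ρ h
  refine le_trans ?_ (mul_le_mul_of_nonneg_left (Nat.cast_le.2 (U.finrank_le.trans K.finrank_le))
    (sub_nonneg.2 (one_le_pow₀ (by omega))))
  have hn := hm.dim
  have z : ∀ {W : Type v} [AddCommGroup W] [Module F W] [FiniteDimensional F W] [Fintype W]
      {P : PQ F W (RingHom.id F)} {k : ℕ}, Minus P k → (#(lvl P 0) : ℤ) =
        (Fintype.card F * Fintype.card F ^ k + 1) * (Fintype.card F ^ k - 1) := fun hm => by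
    have := hm.zero
    rw [← card_lvl_of_mem (zero_mem _)] at this
    zify at this
    linear_combination this
  rcases even_tri (m := m) (ε := -1) hn (Or.inr ⟨rfl, by omega⟩) (by rw [z hm]; ring) o hi h with
    ⟨h3, x, ν, v, hx, h0, hν, h1, hv, hv0⟩ | h1
  swap
  · linarith
  have h2 : ν ∉ F ∙ x := fun e => hν (sing_line o hx ν e)
  have L : ∀ {d f}, Pair P d f → (Fintype.card F : ℤ) * (Fintype.card F ^ (m + 2)) ^ 2 + Fintype.card F ^ (m + 2) ≤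
      #(lvl (Pw P d f) (P.q ν)) := fun {d f} hf => by
    have := (hm.pw o hf).ne h3 _ hν
    rw [← card_lvl_of_not_mem (P := Pw P d f) (mt o.mem.1 hν)] at this
    zify at this
    linear_combination this
  have h4 := one_le_finrank hv hv0
  have L1 : ∀ {d f} (hf : Pair P d f), ∀ y ∈ lvl (Pw P d f) (P.q ν), finrank ℂ (Wt o σ x ν) ≤ finrank ℂ (Wt o σ d y) :=
    fun hf y hy => le_mult (by omega) hx h0 h1 h2 hf (lvl_subset_cls _ hy)
  obtain ⟨f, hf⟩ := exists_pair o.nd (o.mem.2 hx) h0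
  have h5 := (card_nsmul_le_sum _ _ _ (L1 hf)).trans (sum_mult_le o σ hf _)
  refine arithS (by omega) (one_le_pow₀ (by omega)) ?_
  rcases m with _ | m
  · exact Or.inl ⟨rfl, (L hf).trans (by exact_mod_cast (Nat.le_mul_of_pos_right _ h4).trans h5)⟩
  refine Or.inr ((lt_or_ge 1 (finrank ℂ (Wt o σ x ν))).imp (fun e => ?_) fun e => ?_)
  · have := (Nat.mul_le_mul_left _ e).trans h5
    linarith [L hf, (by exact_mod_cast this : (#(lvl (Pw P x f) (P.q ν)) : ℤ) * 2 ≤ finrank ℂ U)]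
  by_cases h6 : ∀ x ν, Adm P x ν → ∀ v ∈ Wt o σ x ν, v = 0
  · obtain ⟨r, f, hr, γ, v, hv, h7⟩ := exists_sub (by omega) h6 hx h0 hν h1 (le_antisymm e h4)
    refine Or.inr ⟨_, _, pow_succ' _ _, ih m (by omega) (o.pw hr) (hm.pw o hr) (res σ (ext hr) (Wt o σ r 0)
      fun γ v hv => by simpa [ext_d] using Wt_conj (o.mem.1 hr.hd) (ext hr γ) hv)
        ⟨γ, ⟨v, hv⟩, fun e => h7 (congrArg Subtype.val e)⟩, ?_⟩
    have := sum_mult_le o σ hr (insert 0 (lvl (Pw P r f) (P.q ν)))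
    rw [sum_insert (zero_not_mem_lvl _)] at this
    have := (Nat.add_le_add_left (card_nsmul_le_sum _ _ 1 fun y hy => h4.trans (L1 hr y hy)) _).trans this
    rw [smul_eq_mul, mul_one] at this
    linarith [L hr, (by exact_mod_cast this : (finrank ℂ (Wt o σ r 0) : ℤ) + #(lvl (Pw P r f) (P.q ν)) ≤ finrank ℂ U)]
  · push Not at h6
    obtain ⟨y, κ, hy, w, hw, hw0⟩ := h6
    have := (card_nsmul_le_sum _ _ 1 fun a ha => (mem_union.1 ha).elim (fun ha => (one_le_finrank hw hw0).trans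
      (le_mult (by omega) hy.qx hy.ne hy.perp hy.nm hf (lvl_subset_cls _ (hy.qn ▸ ha)))) fun ha =>
        h4.trans (L1 hf a ha)).trans (sum_mult_le o σ hf (lvl (Pw P x f) 0 ∪ lvl (Pw P x f) (P.q ν)))
    rw [smul_eq_mul, mul_one, card_union_of_disjoint ((o.pw hf).disjoint_lvl hν.symm)] at this
    zify at this
    exact Or.inl (by linarith [L hf, z (hm.pw o hf)])

section Final

variable {F : Type*} [Field F] [Fintype F]

theorem minus_QMinus {a b : F} (h : H12.Aniso a b) (m : ℕ) : Minus (PQ.ofQuad (H12.QMinus m a b)) m := by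
  have hQ := H12.nondeg_QMinus h m
  have o := orth_ofQuad hQ
  have hn := H12.finrank_minus (F := F) m
  have h0 : cnt (PQ.ofQuad (H12.QMinus m a b)) 0 + Fintype.card F ^ (m + 1) =
      Fintype.card F ^ (2 * m + 1) + Fintype.card F ^ m := by
    rw [← card_lvl_of_mem (zero_mem _), lvl_QMinus h m, Nat.card_eq_fintype_card]
    zify [Nat.one_le_pow m _ (Fintype.card_pos (α := F))]
    ring
  refine ⟨hn, h0, fun hq c hc => ?_⟩
  obtain ⟨φ, hφ⟩ := exists_anti_isometry (Q := H12.QMinus m a b) (W := ⊤) (by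
    rw [top_inf_eq, eq_bot_iff]
    exact fun x hx => hQ x fun w => mem_perp'.1 hx w trivial) (by rw [finrank_top, hn]; exact ⟨m + 1, by ring⟩)
  have h1 : #(lvl (PQ.ofQuad (H12.QMinus m a b)) (-c)) ≤ #(lvl (PQ.ofQuad (H12.QMinus m a b)) c) :=
    card_le_card_of_injOn (fun x => (φ ⟨x, trivial⟩).1) (fun x hx => by
      obtain ⟨h0, h1⟩ := o.mem_lvl'.1 hx
      refine o.mem_lvl'.2 ⟨fun e => h0 (congrArg Subtype.val
        ((map_eq_zero_iff φ φ.injective).1 (Subtype.ext e))), (hφ _).trans ?_⟩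
      change H12.QMinus m a b x = -c at h1
      simp [h1]) fun x _ y _ e => congrArg Subtype.val (φ.injective (Subtype.ext e))
  have h2 : ∀ a : F, a ≠ 0 → a * a = 1 := fun a ha => by
    have h3 := FiniteField.pow_card_sub_one_eq_one a ha
    rcases (by have := Fintype.one_lt_card (α := F); omega : Fintype.card F = 2 ∨ Fintype.card F = 3) with e | e <;>
      rw [e] at h3
    · simp [show a = 1 by simpa using h3]
    · rw [← h3]; ring
  have h3 := o.sum_lvl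
  have h4 := sum_le_card_nsmul (univ.erase (0 : F)) (fun c => #(lvl (PQ.ofQuad (H12.QMinus m a b)) c)) _
    fun c' hc' => (mul_self_eq_mul_self_iff.1 ((h2 c' (mem_erase.1 hc').1).trans (h2 c hc).symm)).elim
      (fun e => by rw [e]) fun e => e ▸ h1
  rw [← add_sum_erase _ _ (mem_univ 0), add_right_comm, card_lvl_of_mem (zero_mem _), Nat.card_eq_fintype_card,
    card_eq_pow_finrank (K := F), hn] at h3
  rw [card_erase_of_mem (mem_univ _), card_univ, card_lvl_of_not_mem (mt o.mem.1 hc), smul_eq_mul] at h4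
  obtain ⟨q, hq⟩ : ∃ q, Fintype.card F = q + 2 := ⟨_, (Nat.sub_add_cancel Fintype.one_lt_card).symm⟩
  rw [hq] at h0 h3 h4 ⊢
  refine Nat.le_of_mul_le_mul_left ?_ q.succ_pos
  zify [(by omega : 1 ≤ q + 2)] at h0 h3 h4 ⊢
  linear_combination h4 + h0 - h3

theorem exists_EG_rep {ι : Type} [Fintype ι] [DecidableEq ι] {Q : QuadraticForm F (ι → F)} (hQ : H12.Nondeg Q)
    (hn : 5 ≤ Fintype.card ι) {k : ℕ} {ρ : Representation ℂ (Cfsg.Omega F Q) (Fin k → ℂ)} (hi : ρ.IsIrreducible)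
    (hk : 2 ≤ k) : ∃ σ : Representation ℂ (EG (PQ.ofQuad Q)) (Fin k → ℂ), σ.IsIrreducible ∧ ∃ g v, σ g v ≠ v :=
  have := (H6.isIrreducible_comp_surjective ρ (omegaEquiv hQ hn).symm.toMonoidHom (omegaEquiv hQ hn).symm.surjective).2 hi
  ⟨_, this, nt_of_two this (by simpa)⟩

theorem omega_odd (h2 : (2 : F) ≠ 0) (hq : 3 < Fintype.card F) (m k : ℕ)
    (ρ : Representation ℂ (Cfsg.Omega F (H12.QOdd F (m + 3))) (Fin k → ℂ)) (hi : ρ.IsIrreducible) (hk : 2 ≤ k) :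
    (Fintype.card F ^ (2 * (m + 3)) - 1) / (Fintype.card F ^ 2 - 1) ≤ k := by
  obtain ⟨σ, h1, h3⟩ := exists_EG_rep (H12.nondeg_QOdd h2 _) (by simp; omega) hi hk
  have := odd_bound (H12.finrank_odd (m + 3)) hq (by rw [lvl_QOdd, Nat.card_eq_fintype_card])
    (orth_ofQuad (H12.nondeg_QOdd h2 _)) h1 h3
  exact Nat.div_le_of_le_mul (by rwa [finrank_fin_fun] at this)

theorem omega_plus (hq : 3 < Fintype.card F) (m k : ℕ)
    (ρ : Representation ℂ (Cfsg.Omega F (H12.QPlus F (m + 4))) (Fin k → ℂ)) (hi : ρ.IsIrreducible) (hk : 2 ≤ k) :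
    (Fintype.card F ^ (m + 4) - 1) * (Fintype.card F ^ (m + 3) + Fintype.card F) / (Fintype.card F ^ 2 - 1) ≤ k := by
  obtain ⟨σ, h1, h3⟩ := exists_EG_rep (H12.nondeg_QPlus _) (by simp; omega) hi hk
  have h4 := fun n => Nat.one_le_pow n _ (Fintype.card_pos (α := F))
  have := (even_tri (ε := 1) (H12.finrank_plus (m + 4)) (Or.inl ⟨rfl, by omega⟩) (by
    rw [lvl_QPlus, Nat.card_eq_fintype_card]
    zify [h4]
    ring) (orth_ofQuad (H12.nondeg_QPlus _)) h1 h3).resolve_left (by omega)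
  rw [finrank_fin_fun] at this
  refine Nat.div_le_of_le_mul ?_
  zify [h4]
  linear_combination this

theorem omega_minus {a b : F} (h : H12.Aniso a b) (m k : ℕ)
    (ρ : Representation ℂ (Cfsg.Omega F (H12.QMinus (m + 3) a b)) (Fin k → ℂ)) (hi : ρ.IsIrreducible) (hk : 2 ≤ k) :
    (Fintype.card F ^ (m + 4) + 1) * (Fintype.card F ^ (m + 3) - Fintype.card F) / (Fintype.card F ^ 2 - 1) ≤ k := by
  obtain ⟨σ, -, h3⟩ := exists_EG_rep (H12.nondeg_QMinus h _) (by simp; omega) hi hk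
  have := minus_bound m (orth_ofQuad (H12.nondeg_QMinus h _)) (minus_QMinus h _) σ h3
  rw [finrank_fin_fun] at this
  refine Nat.div_le_of_le_mul ?_
  zify [Nat.one_le_pow 2 _ (Fintype.card_pos (α := F)), Nat.le_self_pow (by omega : m + 3 ≠ 0) (Fintype.card F)]
  linear_combination this

end Final

end H20.MR
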