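import Cfsg.Agent.Lib.MinRep.SLPerm

/-! The smallest degree of a complex representation of `SL_n(q)`. -/

set_option autoImplicit false
set_option linter.unusedSectionVars false

namespace H20.MR

open Module Cfsg Matrix H65.MD H20.MD

theorem sl_check : ((List.range 12).all fun m => (List.range 50).all fun p => (List.range (m + 3)).all fun j =>
    p == 0 || j == 0 || [1, 3, 9, 101, 102].contains (m * 100 + p) ||
    ((p + 1) * (((p + 1) ^ (m + 2) - 1) / p) + 1) * (p + 1) ^ (m + 2) * p * (((p + 1) ^ (m + 2) - 1) / p) %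
      ((p + 1) * (((p + 1) ^ (m + 2) - 1) / p) - j) != 0) = true := by
  decide +kernel

theorem sl_arith {k q E j N : ℕ} (hk : 2 ≤ k) (hq : 2 ≤ q) (hE : E * (q - 1) + 1 = q ^ k)
    (hN : N + j = q * E) (hj : 1 ≤ j) (hjk : j ≤ k) (hN' : q ^ k ≤ N + 1)
    (h : N ∣ (q * E + 1) * q ^ k * (q - 1) * E) :
    (k = 2 ∧ (q = 2 ∨ q = 4 ∨ q = 10)) ∨ (k = 3 ∧ (q = 2 ∨ q = 3)) := by
  obtain ⟨p, rfl⟩ : ∃ p, q = p + 1 := ⟨q - 1, by omega⟩
  rw [Nat.add_sub_cancel] at hE h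
  have h1 : N ∣ j * (j + 1) * p * (p * j + (p + 1)) := by
    have h2 : ((p + 1) * E + 1) * (p + 1) ^ k * p * E * ((p + 1) * (p + 1)) =
        j * (j + 1) * p * (p * j + (p + 1)) +
          N * (p * ((N + 2 * j + 1) * (p * (N + j) + (p + 1)) + p * j * (j + 1))) := by
      rw [← hE]
      have : ((p + 1) * E + 1) * (E * p + 1) * p * E * ((p + 1) * (p + 1)) =
        ((p + 1) * E + 1) * (p * ((p + 1) * E) + (p + 1)) * p * ((p + 1) * E) := by ring
      rw [this, ← hN]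
      ring
    exact (Nat.dvd_add_left (dvd_mul_right _ _)).1 (h2 ▸ h.mul_right _)
  have h2 : (p + 1) ^ k ≤ k * (k + 1) ^ 2 * (p + 1) ^ 2 := by
    have hp : 0 < p := by omega
    have h3 := Nat.le_of_dvd (by positivity) h1
    have h4 : j * (j + 1) * p * (p * j + (p + 1)) ≤ k * (k + 1) * p * ((k + 1) * (p + 1)) :=
      Nat.mul_le_mul (Nat.mul_le_mul_right _ (Nat.mul_le_mul hjk (by omega))) (by nlinarith)
    have h5 : 1 ≤ k * (k + 1) * ((k + 1) * (p + 1)) := Nat.one_le_iff_ne_zero.2 (by positivity)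
    nlinarith
  obtain ⟨m, rfl⟩ : ∃ m, k = m + 2 := ⟨k - 2, by omega⟩
  rw [pow_add] at h2
  replace h2 := Nat.le_of_mul_le_mul_right h2 (by positivity)
  have hm : m < 12 := by
    by_contra hm
    have : ∀ t, (t + 12 + 2) * (t + 12 + 2 + 1) ^ 2 < 2 ^ (t + 12) := fun t => by
      induction t with
      | zero => norm_num
      | succ t ih => rw [show t + 1 + 12 = t + 12 + 1 by ring, pow_succ 2]; nlinarith [Nat.zero_le (t ^ 3)]
    obtain ⟨t, rfl⟩ : ∃ t, m = t + 12 := ⟨m - 12, by omega⟩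
    have h3 := Nat.pow_le_pow_left hq (t + 12)
    have := this t
    omega
  have hp : p < 50 := by
    by_contra hp
    rcases m with _ | _ | m
    · have h3 : E = p + 2 := Nat.eq_of_mul_eq_mul_right (show 0 < p by omega) (by linarith [show (p + 1) ^ (0 + 2) = (p + 2) * p + 1 by ring])
      subst h3
      obtain rfl | rfl : j = 1 ∨ j = 2 := by omega
      · have h4 : N ∣ 10 * p + 4 := by
          have : 1 * (1 + 1) * p * (p * 1 + (p + 1)) + (10 * p + 4) = N * 4 := by nlinarith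
          exact (Nat.dvd_add_right h1).1 (this ▸ dvd_mul_right _ _)
        have := Nat.le_of_dvd (by omega) h4
        nlinarith
      · have h4 : N = p * (p + 3) := by nlinarith
        rw [h4, show 2 * (2 + 1) * p * (p * 2 + (p + 1)) = p * (18 * p + 6) by ring] at h1
        have h5 := Nat.dvd_of_mul_dvd_mul_left (show 0 < p by omega) h1
        have h6 : p + 3 ∣ 48 := (Nat.dvd_add_right h5).1 ⟨18, by ring⟩
        have := Nat.le_of_dvd (by omega) h6
        omega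
    · norm_num at h2
      omega
    · have h3 : (p + 1) ^ 2 ≤ (p + 1) ^ (m + 1 + 1) := Nat.pow_le_pow_right (by omega) (by omega)
      have h4 : (m + 1 + 1 + 2) * (m + 1 + 1 + 2 + 1) ^ 2 ≤ 13 * 14 ^ 2 :=
        Nat.mul_le_mul (by omega) (Nat.pow_le_pow_left (by omega) _)
      nlinarith
  obtain rfl : E = ((p + 1) ^ (m + 2) - 1) / p := by
    rw [← hE, Nat.add_sub_cancel, Nat.mul_div_cancel _ (by omega)]
  obtain rfl : N = (p + 1) * (((p + 1) ^ (m + 2) - 1) / p) - j := by omega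
  have := List.all_eq_true.1 (List.all_eq_true.1 (List.all_eq_true.1 sl_check m (List.mem_range.2 hm)) p
    (List.mem_range.2 hp)) j (List.mem_range.2 (by omega))
  rw [Nat.mod_eq_zero_of_dvd h] at this
  simp at this
  omega

open scoped Classical LinearAlgebra.Projectivization

variable {ι : Type*} [Fintype ι] [DecidableEq ι] {F : Type*} [Field F] [Fintype F]
  {M : Type*} [AddCommGroup M] [Module ℂ M] [FiniteDimensional ℂ M]
  {ρ : Representation ℂ (SpecialLinearGroup ι F) M} {d y : ι → F} {v : M}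

theorem T_mul (g : SpecialLinearGroup ι F) {x φ : ι → F} (h : φ ⬝ᵥ x = 0) :
    T x φ * g = g * T (g⁻¹ • x) (φ ᵥ* g.1) := by
  have := T_conj g⁻¹ h
  rw [inv_inv] at this
  rw [← this]
  group

theorem dot_smul (g : SpecialLinearGroup ι F) (φ x : ι → F) : (φ ᵥ* g.1) ⬝ᵥ x = φ ⬝ᵥ g • x :=
  (dotProduct_mulVec _ _ _).symm

/-- The annihilator of a vector. -/
def Ann (d : ι → F) : Submodule F (ι → F) := LinearMap.ker (dotProductEquiv F ι d)

theorem mem_Ann {φ : ι → F} : φ ∈ Ann d ↔ φ ⬝ᵥ d = 0 := by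
  rw [dotProduct_comm]; rfl

theorem finrank_Ann (hd : d ≠ 0) : finrank F (Ann d) + 1 = Fintype.card ι := by
  rw [← finrank_fintype_fun_eq_card F]
  exact Module.Dual.finrank_ker_add_one_of_ne_zero ((map_ne_zero_iff _ (dotProductEquiv F ι).injective).2 hd)

/-- The transvections with centre `d`. -/
noncomputable def row (d : ι → F) (φ : Ann d) : SpecialLinearGroup ι F := T d φ

theorem row_add (φ φ' : Ann d) : row d (φ + φ') = row d φ * row d φ' :=
  T_add_right (mem_Ann.1 φ.2) (mem_Ann.1 φ'.2)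

/-- The characters of the group of transvections with centre `d`. -/
noncomputable def ch (d y : ι → F) : AddChar (Ann d) ℂ :=
  ⟨fun φ => psi F (φ.1 ⬝ᵥ y), by simp, fun a b => by simp [AddChar.map_add_eq_mul]⟩

theorem mem_W : v ∈ wt ρ (row d) (ch d y) ↔ ∀ φ, φ ⬝ᵥ d = 0 → ρ (T d φ) v = psi F (φ ⬝ᵥ y) • v :=
  ⟨fun h φ hφ => h ⟨φ, mem_Ann.2 hφ⟩, fun h φ => h φ (mem_Ann.1 φ.2)⟩

theorem exists_ch (χ : AddChar (Ann d) ℂ) : ∃ y, χ = ch d y := by
  obtain ⟨θ, hθ⟩ := exists_dual (F := F) χ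
  obtain ⟨θ', h⟩ := LinearMap.exists_extend θ
  obtain ⟨y, rfl⟩ := (dotProductEquiv F ι).surjective θ'
  exact ⟨y, AddChar.ext _ _ fun φ => by rw [hθ, ← h]; exact congrArg (psi F) (dotProduct_comm _ _)⟩

theorem ch_eq_one (h : y ∈ F ∙ d) : ch d y = 1 := AddChar.ext _ _ fun φ => by
  obtain ⟨a, rfl⟩ := Submodule.mem_span_singleton.1 h
  change psi F (φ.1 ⬝ᵥ a • d) = 1
  simp [mem_Ann.1 φ.2]

theorem W_conj {d' y' : ι → F} {g : SpecialLinearGroup ι F} {a : F} (ha : a ≠ 0) (h1 : g • d = a • d')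
    (h2 : g • y = a • y') (hv : v ∈ wt ρ (row d) (ch d y)) : ρ g v ∈ wt ρ (row d') (ch d' y') :=
  mem_W.2 fun φ hφ => by
    have h3 : g⁻¹ • d' = a⁻¹ • d := by
      rw [inv_smul_eq_iff, smul_comm, h1, smul_smul, inv_mul_cancel₀ ha, one_smul]
    have h4 : (φ ᵥ* g.1) ⬝ᵥ d = 0 := by simp [dot_smul, h1, hφ]
    rw [← rho_mul, T_mul g hφ, h3, T_smul h4, rho_mul, mem_W.1 hv _ (by simp [h4]), map_smul]
    simp [dot_smul, h2, ha]

theorem exists_pair_smul (h3 : 3 ≤ Fintype.card ι) {d' y' : ι → F} (hd : d ≠ 0) (hy : y ∉ F ∙ d)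
    (hd' : d' ≠ 0) (hy' : y' ∉ F ∙ d') : ∃ g : SpecialLinearGroup ι F, g • d = d' ∧ g • y = y' := by
  obtain ⟨g, hg⟩ := H30.exists_SL_mulVec_eq (by omega) hd hd'
  replace hg : g • d = d' := hg
  obtain ⟨k, h1, h2⟩ := exists_fix_smul h3 (v := d') (w := g • y) (fun h => hy (by
    obtain ⟨a, ha⟩ := Submodule.mem_span_singleton.1 h
    rw [← hg, ← smul_comm, smul_left_cancel_iff] at ha
    exact Submodule.mem_span_singleton.2 ⟨a, ha⟩)) hy'
  exact ⟨k * g, by rw [mul_smul, hg, h1], by rw [mul_smul, h2]⟩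

theorem finrank_W_le (h3 : 3 ≤ Fintype.card ι) {d' y' : ι → F} (hd : d ≠ 0) (hy : y ∉ F ∙ d)
    (hd' : d' ≠ 0) (hy' : y' ∉ F ∙ d') :
    finrank ℂ (wt ρ (row d) (ch d y)) ≤ finrank ℂ (wt ρ (row d') (ch d' y')) := by
  obtain ⟨g, h1, h2⟩ := exists_pair_smul h3 hd hy hd' hy'
  exact finrank_le_of_maps ρ g fun v => W_conj one_ne_zero (by simpa) (by simpa)

theorem finrank_eq_row (h3 : 3 ≤ Fintype.card ι) (hd : d ≠ 0) (hy : y ∉ F ∙ d) :
    finrank ℂ M = finrank ℂ (wt ρ (row d) 1) +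
      (Fintype.card F ^ (Fintype.card ι - 1) - 1) * finrank ℂ (wt ρ (row d) (ch d y)) := by
  rw [finrank_eq_sum' (ρ := ρ) (row_add (d := d)), ← Finset.add_sum_erase _ _ (Finset.mem_univ 1),
    Finset.sum_congr rfl fun χ hχ => show _ = finrank ℂ (wt ρ (row d) (ch d y)) from ?_]
  · rw [Finset.sum_const, Finset.card_erase_of_mem (Finset.mem_univ _), Finset.card_univ, AddChar.card_eq,
      Module.card_eq_pow_finrank (K := F), smul_eq_mul, ← finrank_Ann hd, Nat.add_sub_cancel]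
  · obtain ⟨y', rfl⟩ := exists_ch χ
    have hy' : y' ∉ F ∙ d := fun h => Finset.ne_of_mem_erase hχ (ch_eq_one h)
    exact le_antisymm (finrank_W_le h3 hd hy' hd hy) (finrank_W_le h3 hd hy hd hy')

section Key

variable (h1 : finrank ℂ (wt ρ (row d) (ch d y)) = 1) (hv : v ∈ wt ρ (row d) (ch d y)) (h0 : v ≠ 0)
include h1 hv h0

theorem exists_scalar {g : SpecialLinearGroup ι F} {a : F} (ha : a ≠ 0) (h2 : g • d = a • d)
    (h3 : g • y = a • y) : ∃ c : ℂ, c ≠ 0 ∧ ρ g v = c • v := by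
  obtain ⟨c, hc⟩ := (finrank_eq_one_iff_of_nonzero' (⟨v, hv⟩ : wt ρ (row d) (ch d y))
    fun e => h0 (congrArg Subtype.val e)).1 h1 ⟨_, W_conj ha h2 h3 hv⟩
  have : ρ g v = c • v := (congrArg Subtype.val hc).symm
  exact ⟨c, fun e => rho_ne_zero ρ g h0 (by rw [this, e, zero_smul]), this⟩

theorem exists_scalar_T {x φ : ι → F} (hx : φ ⬝ᵥ x = 0) (hd : φ ⬝ᵥ d = 0) (hy : φ ⬝ᵥ y = 0) :
    ∃ c : ℂ, c ≠ 0 ∧ ρ (T x φ) v = c • v :=
  exists_scalar h1 hv h0 one_ne_zero (by simp [T_smul_vec hx, hd]) (by simp [T_smul_vec hx, hy])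

theorem fix_of_torus {x φ : ι → F} (hx : φ ⬝ᵥ x = 0) (hd : φ ⬝ᵥ d = 0) (hy : φ ⬝ᵥ y = 0)
    {g : SpecialLinearGroup ι F} {a b c : F} (ha : a ≠ 0) (h2 : g • d = a • d) (h3 : g • y = a • y)
    (h4 : g • x = b • x) (h5 : φ ᵥ* g.1 = c • φ) (hb : b ≠ 0) (hbc : b ≠ c) : ρ (T x φ) v = v := by
  obtain ⟨e, he, h6⟩ := exists_scalar h1 hv h0 ha h2 h3
  have hbc' : b - c ≠ 0 := sub_ne_zero.2 hbc
  obtain ⟨s, hs, h7⟩ := exists_scalar_T h1 hv h0 (x := x) (φ := (c / (b - c)) • φ) (by simp [hx])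
    (by simp [hd]) (by simp [hy])
  have h8 : T x ((b / (b - c)) • φ) * g = g * T x ((c / (b - c)) • φ) := by
    have h9 : g⁻¹ • x = b⁻¹ • x := by
      rw [inv_smul_eq_iff, smul_comm, h4, smul_smul, inv_mul_cancel₀ hb, one_smul]
    rw [T_mul g (by simp [hx]), h9, T_smul (by simp [smul_vecMul, h5, hx]), smul_vecMul, h5, smul_smul,
      smul_smul]
    congr 3
    field_simp
  have h9 := congrArg (fun k => ρ k v) h8
  have h10 : (b / (b - c)) • φ = φ + (c / (b - c)) • φ := by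
    nth_rewrite 2 [← one_smul F φ]
    rw [← add_smul]
    congr 1
    field_simp
    ring
  simp only [h10, T_add_right hx (by simp [hx] : ((c / (b - c)) • φ) ⬝ᵥ x = 0), rho_mul, h6, h7,
    map_smul] at h9
  rw [smul_comm] at h9
  exact smul_right_injective M he (smul_right_injective M hs h9)

theorem fix_of_comm {x φ z : ι → F} (hx : φ ⬝ᵥ x = 0) (hd : φ ⬝ᵥ d = 0) (hy : φ ⬝ᵥ y = 0)
    (hz : φ ⬝ᵥ z = 0) {U : Submodule F (ι → F)} (hdU : d ∈ U) (hyU : y ∈ U) (hxU : x ∈ U) (hzU : z ∉ U) :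
    ρ (T x φ) v = v := by
  obtain ⟨f, h2, h3⟩ := exists_dot_ann U hzU 1
  obtain ⟨a, ha, h4⟩ := exists_scalar_T h1 hv h0 (h2 x hxU) (h2 d hdU) (h2 y hyU)
  obtain ⟨b, hb, h5⟩ := exists_scalar_T h1 hv h0 hz hd hy
  have h6 := congrArg (fun k => ρ k v) (T_comm (h2 x hxU) hz hx)
  simp only [h3, one_smul, rho_mul, h4, h5, map_smul] at h6
  rw [smul_comm] at h6
  exact (smul_right_injective M hb (smul_right_injective M ha h6)).symm

theorem key_fix (h3 : 3 ≤ Fintype.card ι) (e3 : Fintype.card ι = 3 → ∃ a : F, a ≠ 0 ∧ a ^ 3 ≠ 1)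
    (e4 : Fintype.card ι = 4 → ∃ a : F, a ≠ 0 ∧ a ^ 2 ≠ 1) {x φ : ι → F} (hx : φ ⬝ᵥ x = 0)
    (hd : φ ⬝ᵥ d = 0) (hy : φ ⬝ᵥ y = 0) : ρ (T x φ) v = v := by
  by_cases hφ : φ = 0
  · rw [hφ, T_zero_right, rho_one]
  obtain ⟨z, hz⟩ := H30.exists_dot_eq_one hφ
  rw [dotProduct_comm] at hz
  have key : ∀ U : Submodule F (ι → F), d ∈ U → y ∈ U → x ∈ U → finrank F U + 1 < Fintype.card ι →
      ρ (T x φ) v = v := fun U hdU hyU hxU hU => by
    obtain ⟨u, h4, h5⟩ := SetLike.not_le_iff_exists.1 fun h : Ann φ ≤ U => by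
      have := Submodule.finrank_mono h
      have := finrank_Ann hφ
      omega
    exact fix_of_comm h1 hv h0 hx hd hy (by rw [dotProduct_comm]; exact mem_Ann.1 h4) hdU hyU hxU h5
  have h2 := H65.MD.finrank_span_pair_le (F := F) d y
  have hdU : d ∈ Submodule.span F {d, y} := Submodule.subset_span (by simp)
  have hyU : y ∈ Submodule.span F {d, y} := Submodule.subset_span (by simp)
  by_cases c3 : Fintype.card ι = 3
  · obtain ⟨a, ha, ha3⟩ := e3 c3
    let g : SpecialLinearGroup ι F := ⟨a • (1 + vecMulVec z (((a ^ 3)⁻¹ - 1) • φ)), by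
      rw [det_smul, H30.det_one_add_vecMulVec, c3, smul_dotProduct, hz]
      simp [ha]⟩
    have hg : ∀ u, φ ⬝ᵥ u = 0 → g • u = a • u := fun u hu => by
      rw [sl_smul]
      simp [g, smul_mulVec, add_mulVec, vecMulVec_mulVec, hu]
    refine fix_of_torus h1 hv h0 hx hd hy ha (hg d hd) (hg y hy) (hg x hx) (c := a * (a ^ 3)⁻¹) ?_ ha
      fun e => ha3 (inv_eq_one.1 (mul_left_cancel₀ ha (by rw [← e, mul_one])))
    simp only [g, vecMul_smul, vecMul_add, vecMul_one, vecMul_vecMulVec, hz]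
    module
  by_cases hxU : x ∈ Submodule.span F {d, y}
  · exact key _ hdU hyU hxU (by omega)
  by_cases c4 : Fintype.card ι = 4
  · obtain ⟨b, hb, hb2⟩ := e4 c4
    obtain ⟨θ, h4, h5⟩ := exists_dot_ann _ hxU 1
    let g : SpecialLinearGroup ι F := ⟨(1 + vecMulVec x ((b - 1) • θ)) * (1 + vecMulVec z ((b⁻¹ - 1) • φ)), by
      rw [det_mul, H30.det_one_add_vecMulVec, H30.det_one_add_vecMulVec, smul_dotProduct,
        smul_dotProduct, hz, h5]
      simp [hb]⟩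
    have hg : ∀ u, φ ⬝ᵥ u = 0 → g • u = u + ((b - 1) * θ ⬝ᵥ u) • x := fun u hu => by
      rw [sl_smul]
      simp [g, ← mulVec_mulVec, add_mulVec, vecMulVec_mulVec, hu, smul_mulVec, smul_smul]
    refine fix_of_torus h1 hv h0 hx hd hy (g := g) one_ne_zero (by simp [hg d hd, h4 d hdU])
      (by simp [hg y hy, h4 y hyU]) (b := b) (c := b⁻¹) (by rw [hg x hx, h5]; module) ?_ hb
      fun e => hb2 (by rw [sq]; nth_rewrite 1 [e]; exact inv_mul_cancel₀ hb)
    simp only [g, ← vecMul_vecMul, vecMul_add, vecMul_one, vecMul_vecMulVec, hz, hx, zero_smul, add_zero]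
    module
  · exact key (Submodule.span F {d, y} ⊔ F ∙ x) (Submodule.mem_sup_left hdU) (Submodule.mem_sup_left hyU)
      (Submodule.mem_sup_right (Submodule.mem_span_singleton_self x))
      (by rw [Submodule.finrank_sup_span_singleton hxU]; omega)

end Key

variable (ρ) in
/-- The vectors fixed by the transvections whose axis contains `L`. -/
def Nf (L : Submodule F (ι → F)) : Submodule ℂ M where
  carrier := {v | ∀ x φ, φ ⬝ᵥ x = 0 → (∀ u ∈ L, φ ⬝ᵥ u = 0) → ρ (T x φ) v = v}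
  zero_mem' _ _ _ _ := map_zero _
  add_mem' ha hb x φ h1 h2 := by rw [map_add, ha x φ h1 h2, hb x φ h1 h2]
  smul_mem' c v hv x φ h1 h2 := by rw [map_smul, hv x φ h1 h2]

theorem Nf_inv {L : Submodule F (ι → F)} {g : SpecialLinearGroup ι F} (hg : ∀ u ∈ L, g • u ∈ L) :
    ∀ v ∈ Nf ρ L, ρ g v ∈ Nf ρ L := fun v hv x φ h1 h2 => by
  rw [← rho_mul, T_mul g h1, rho_mul, hv _ _ (by rw [dot_smul, smul_inv_smul, h1])
    fun u hu => by rw [dot_smul, h2 _ (hg u hu)]]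

theorem Nf_step (hK : ∀ d y : ι → F, d ≠ 0 → y ∉ F ∙ d → ∃ v ∈ wt ρ (row d) (ch d y), v ≠ 0 ∧
      ∀ x φ, φ ⬝ᵥ x = 0 → φ ⬝ᵥ d = 0 → φ ⬝ᵥ y = 0 → ρ (T x φ) v = v)
    {L : Submodule F (ι → F)} (hy : y ∉ L) :
    finrank ℂ (Nf ρ L) + (Fintype.card F ^ finrank F L - 1) ≤ finrank ℂ (Nf ρ (L ⊔ F ∙ y)) := by
  obtain ⟨η, h1, h2⟩ := exists_dot_ann L hy 1
  have hx : ∀ a b : L, T (a + b : L).1 η = T a.1 η * T b.1 η := fun a b => T_add_left (h1 _ a.2) (h1 _ b.2)
  have hc : ∀ (a b : L) u, ρ (T a.1 η) (ρ (T b.1 η) u) = ρ (T b.1 η) (ρ (T a.1 η) u) := fun a b u => by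
    rw [← rho_mul, ← hx, add_comm, hx, rho_mul]
  have hN : ∀ a : L, ∀ v ∈ Nf ρ (L ⊔ F ∙ y), ρ (T a.1 η) v ∈ Nf ρ (L ⊔ F ∙ y) := fun a =>
    Nf_inv fun u hu => by
      rw [T_smul_vec (h1 _ a.2)]
      exact add_mem hu (Submodule.smul_mem _ _ (Submodule.mem_sup_left a.2))
  have h3 := one_add_le hx hN (Finset.univ.erase 1) (Finset.notMem_erase _ _) (m := 1) fun χ hχ => ?_
  · rw [Finset.card_erase_of_mem (Finset.mem_univ _), Finset.card_univ, AddChar.card_eq,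
      Module.card_eq_pow_finrank (K := F), mul_one] at h3
    refine le_trans (Nat.add_le_add_right (Submodule.finrank_mono fun v hv => ?_) _) h3
    exact ⟨fun x φ h4 h5 => hv x φ h4 fun u hu => h5 u (Submodule.mem_sup_left hu),
      mem_wt_one.2 fun a => hv _ _ (h1 _ a.2) h1⟩
  obtain ⟨θ, hθ⟩ := exists_dual (F := F) χ
  obtain ⟨d, hd⟩ := LinearMap.surjective_of_ne_zero (f := θ)
    (fun e => Finset.ne_of_mem_erase hχ (AddChar.ext _ _ fun a => by simp [hθ, e])) 1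
  have hd0 : (d : ι → F) ≠ 0 := fun e => by simp [show d = 0 from Subtype.ext e] at hd
  obtain ⟨v, h4, h5, h6⟩ := hK d y hd0 fun h => hy ((Submodule.span_singleton_le_iff_mem _ _).2 d.2 h)
  let x : LinearMap.ker θ → SpecialLinearGroup ι F := fun a => T a.1.1 η
  suffices h : ∃ w ∈ Nf ρ (L ⊔ F ∙ y), w ≠ 0 ∧ (∀ b, ρ (x b) w = w) ∧
      ∀ t : F, ρ (T (t • d).1 η) w = psi F t • w by
    obtain ⟨w, h7, h8, h9, h10⟩ := h
    refine one_le_finrank (v := w) ⟨h7, fun a => ?_⟩ h8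
    have h11 : ρ (T (a - θ a • d).1 η) w = w := h9 ⟨a - θ a • d, by simp [hd]⟩
    have h12 : T a.1 η = T (θ a • d).1 η * T (a - θ a • d).1 η := by rw [← hx, add_sub_cancel]
    beta_reduce
    rw [h12, rho_mul, h11, h10, hθ]
  refine ⟨pr ρ x 1 v, pr_mem (fun a => hN _)
    fun x φ h7 h8 => h6 x φ h7 (h8 _ (Submodule.mem_sup_left d.2))
      (h8 _ (Submodule.mem_sup_right (Submodule.mem_span_singleton_self y))),
    pr_ne_zero (fun φ => ρ (row d.1 φ)) (fun a φ => ch d.1 (y + a.1.1) φ) (fun a b e => ?_) h5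
      fun a => W_conj one_ne_zero (by simp [x, T_smul_vec (h1 _ a.1.2), h1 _ d.2])
        (by simp [x, T_smul_vec (h1 _ a.1.2), h2]) h4,
    mem_wt_one.1 (pr_mem_wt (fun a b => hx _ _) v), fun t => ?_⟩
  swap
  · have h7 : ρ (T (t • d).1 η) v = psi F t • v := by
      rw [Submodule.coe_smul, T_smul (h1 _ d.2), mem_W.1 h4 _ (by simp [h1 _ d.2])]
      simp [h2]
    rw [pr_comm fun b u => hc (t • d) b.1 u, h7, map_smul]
  · by_contra hab
    have h7 : (a - b).1.1 ∉ F ∙ (d : ι → F) := fun h => by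
      obtain ⟨t, ht⟩ := Submodule.mem_span_singleton.1 h
      have h8 : t • d = (a - b).1 := Subtype.ext ht
      have h9 : θ (t • d) = 0 := by rw [h8]; exact (a - b).2
      rw [map_smul, hd, smul_eq_mul, mul_one] at h9
      rw [h9, zero_smul] at h8
      exact hab (sub_eq_zero.1 (Subtype.ext h8.symm))
    refine one_ne_zero (eq_zero_of_psi (F := F) fun t => ?_)
    obtain ⟨φ, h8, h9⟩ := exists_dot_ann _ h7 t
    have h10 : psi F (φ ⬝ᵥ (y + a.1.1)) = psi F (φ ⬝ᵥ (y + b.1.1)) :=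
      congrFun e ⟨φ, mem_Ann.2 (h8 _ (Submodule.mem_span_singleton_self _))⟩
    rw [mul_one, ← h9, show φ ⬝ᵥ (a - b).1.1 = φ ⬝ᵥ (y + a.1.1) - φ ⬝ᵥ (y + b.1.1) by simp,
      AddChar.map_sub_eq_div, h10, div_self (chi_ne_zero _ _)]

theorem Nf_chain (hK : ∀ d y : ι → F, d ≠ 0 → y ∉ F ∙ d → ∃ v ∈ wt ρ (row d) (ch d y), v ≠ 0 ∧
      ∀ x φ, φ ⬝ᵥ x = 0 → φ ⬝ᵥ d = 0 → φ ⬝ᵥ y = 0 → ρ (T x φ) v = v) (k : ℕ) (hk : k ≤ Fintype.card ι) :
    ∃ L : Submodule F (ι → F), finrank F L = k ∧ Fintype.card F ^ k ≤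
      (Fintype.card F - 1) * (finrank ℂ (Nf ρ L) + k) + 1 := by
  induction k with
  | zero => exact ⟨⊥, by simp, by simp⟩
  | succ k ih =>
    obtain ⟨L, h1, h2⟩ := ih (by omega)
    obtain ⟨y, hy⟩ := exists_notMem_of_finrank_lt L (by omega)
    refine ⟨L ⊔ F ∙ y, by rw [Submodule.finrank_sup_span_singleton hy, h1], ?_⟩
    have h3 := Nf_step hK hy
    obtain ⟨p, hp⟩ : ∃ p, Fintype.card F = p + 1 := ⟨Fintype.card F - 1, by
      have := Fintype.card_pos (α := F); omega⟩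
    have h4 : 1 ≤ (p + 1) ^ k := Nat.one_le_pow _ _ (by omega)
    rw [h1, hp] at h3
    rw [hp, Nat.add_sub_cancel] at h2 ⊢
    rw [pow_succ]
    generalize (p + 1) ^ k = x at *
    obtain ⟨x, rfl⟩ : ∃ z, x = z + 1 := ⟨x - 1, by omega⟩
    rw [Nat.add_sub_cancel] at h3
    nlinarith [Nat.mul_le_mul_left p h3]

theorem row_injective (hd : d ≠ 0) : Function.Injective (row d) := fun φ φ' e => by
  refine Subtype.ext (funext fun i => smul_left_injective F hd ?_)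
  have := congrArg (fun g : SpecialLinearGroup ι F => g • (Pi.single i 1 : ι → F)) e
  simpa [row, T_smul_vec (mem_Ann.1 φ.2), T_smul_vec (mem_Ann.1 φ'.2)] using this

theorem sl_dvd (hρ : ρ.IsIrreducible) (h3 : 3 ≤ Fintype.card ι) (hd : d ≠ 0) :
    finrank ℂ M ∣ Nat.card (ℙ F (ι → F)) *
      (Fintype.card F ^ (Fintype.card ι - 1) * finrank ℂ (wt ρ (row d) 1)) := by
  have := Fintype.ofFinite (ℙ F (ι → F))
  rw [Nat.card_eq_fintype_card]
  let S : ℙ F (ι → F) → Finset (SpecialLinearGroup ι F) := fun p => Finset.univ.image (row p.rep)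
  have hS : ∀ p g, g ∈ S p ↔ ∃ u ∈ p.submodule, ∃ φ, φ ⬝ᵥ u = 0 ∧ T u φ = g := fun p g => by
    simp only [S, Finset.mem_image, Finset.mem_univ, true_and, Projectivization.submodule_eq]
    refine ⟨fun ⟨φ, h⟩ => ⟨_, Submodule.mem_span_singleton_self _, φ, mem_Ann.1 φ.2, h⟩, ?_⟩
    rintro ⟨u, hu, φ, h1, rfl⟩
    obtain ⟨a, rfl⟩ := Submodule.mem_span_singleton.1 hu
    by_cases ha : a = 0
    · exact ⟨0, by rw [ha, zero_smul, T_zero_left]; exact T_zero_right _⟩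
    · have h2 : φ ⬝ᵥ p.rep = 0 := by simpa [ha] using h1
      exact ⟨⟨a • φ, mem_Ann.2 (by simp [h2])⟩, (T_smul h2 a).symm⟩
  have key : ∀ (h g : SpecialLinearGroup ι F) p, g ∈ S p → h * g * h⁻¹ ∈ S (h • p) := fun h g p hg => by
    obtain ⟨u, hu, φ, h1, rfl⟩ := (hS _ _).1 hg
    refine (hS _ _).2 ⟨h • u, ?_, _, by rw [vecMul_inv_dot, h1], (T_conj h h1).symm⟩
    induction p using Projectivization.ind with
    | h w hw =>
      obtain ⟨a, rfl⟩ := Submodule.mem_span_singleton.1 hu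
      exact Submodule.mem_span_singleton.2 ⟨a, (smul_comm _ _ _).symm⟩
  refine finrank_dvd hρ S (fun h => ⟨MulAction.toPerm h, fun p g => ⟨fun hg => ?_, key h g p⟩⟩) fun p => ?_
  · simpa [mul_assoc] using key h⁻¹ _ _ hg
  · have key2 : ∀ {d d' : ι → F}, d ≠ 0 → d' ≠ 0 →
        finrank ℂ (wt ρ (row d) 1) ≤ finrank ℂ (wt ρ (row d') 1) := fun {d d'} hd hd' => by
      obtain ⟨g, hg⟩ := H30.exists_SL_mulVec_eq (by omega) hd hd'
      rw [← ch_eq_one (zero_mem _), ← ch_eq_one (zero_mem _)]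
      exact finrank_le_of_maps ρ g fun v => W_conj one_ne_zero (by simpa) (by simp)
    have h1 := card_mul_finrank_wt (ρ := ρ) (χ := 1) (row_add (d := p.rep))
    rw [Finset.sum_image (row_injective p.rep_nonzero).injOn,
      le_antisymm (key2 hd p.rep_nonzero) (key2 p.rep_nonzero hd), ← finrank_Ann p.rep_nonzero,
      Nat.add_sub_cancel, ← Module.card_eq_pow_finrank, Nat.cast_mul, h1]
    simp

theorem sl_bound (hρ : ρ.IsIrreducible) (h2 : 2 ≤ finrank ℂ M) {k : ℕ} (hk : Fintype.card ι = k + 1)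
    (h3 : 2 ≤ k) (e3 : k = 2 → Fintype.card F ≠ 2 ∧ Fintype.card F ≠ 4)
    (e4 : k = 3 → Fintype.card F ≠ 2 ∧ Fintype.card F ≠ 3) :
    Fintype.card F ^ (k + 1) ≤ (Fintype.card F - 1) * finrank ℂ M + Fintype.card F := by
  by_contra hlt
  have hq : 2 ≤ Fintype.card F := Fintype.one_lt_card
  obtain ⟨d, φ, h4, h5⟩ : ∃ d φ : ι → F, φ ⬝ᵥ d = 0 ∧ ρ (T d φ) ≠ 1 := by
    by_contra h
    push Not at h
    have := H63.CrossChar.finrank_le_one_of_trivial ρ hρ fun g =>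
      MonoidHom.mem_ker.1 ((eq_top_of_T ρ.ker h).ge trivial)
    omega
  have hd : d ≠ 0 := fun e => h5 (by rw [e, T_zero_left, map_one])
  obtain ⟨v, hv⟩ := DFunLike.ne_iff.1 h5
  obtain ⟨χ, hχ, u, -, h6, h7⟩ := exists_wt_ne (ρ := ρ) (row_add (d := d)) (N := ⊤) (fun _ _ _ => trivial)
    trivial (a := ⟨φ, mem_Ann.2 h4⟩) hv
  obtain ⟨y, rfl⟩ := exists_ch χ
  have hy : y ∉ F ∙ d := fun h => hχ (by rw [ch_eq_one h]; rfl)
  have h8 := finrank_eq_row (ρ := ρ) (by omega) hd hy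
  have h9 := sl_dvd hρ (by omega) hd
  have h10 := Projectivization.card' F (ι → F)
  obtain ⟨E, hE⟩ := Nat.sub_dvd_pow_sub_pow (Fintype.card F) 1 k
  have hx : 1 ≤ Fintype.card F ^ k := Nat.one_le_pow _ _ (by omega)
  rw [hk, Nat.add_sub_cancel] at h8 h9
  rw [Nat.card_eq_fintype_card, Nat.card_eq_fintype_card (α := F), Fintype.card_fun, hk] at h10
  rw [one_pow] at hE
  have h11 : finrank ℂ (wt ρ (row d) (ch d y)) = 1 := by
    refine le_antisymm (not_lt.1 fun h => hlt ?_) (one_le_finrank h7 h6)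
    have h12 := Nat.mul_le_mul_left (Fintype.card F ^ k - 1) h
    rw [pow_succ]
    generalize Fintype.card F ^ k = x at *
    obtain ⟨x, rfl⟩ : ∃ z, x = z + 1 := ⟨x - 1, by omega⟩
    obtain ⟨p, hp⟩ : ∃ p, Fintype.card F = p + 2 := ⟨Fintype.card F - 2, by omega⟩
    rw [hp, show p + 2 - 1 = p + 1 from rfl]
    rw [Nat.add_sub_cancel] at h8 h12
    nlinarith [Nat.mul_le_mul_left (p + 1) (show x * 2 ≤ finrank ℂ M by omega)]
  have hpow : ∀ m, Fintype.card F ≠ 2 → (Fintype.card F - 1 ∣ m → Fintype.card F = 2) →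
      ∃ a : F, a ≠ 0 ∧ a ^ m ≠ 1 := fun m h h' => by
    by_contra h''
    push Not at h''
    refine h (h' ?_)
    rw [← Fintype.card_units, ← Nat.card_eq_fintype_card, ← IsCyclic.exponent_eq_card]
    exact Monoid.exponent_dvd_of_forall_pow_eq_one fun a => Units.ext (h'' a a.ne_zero)
  obtain ⟨L, -, h12⟩ := Nf_chain (ρ := ρ) (fun d' y' hd' hy' => by
    have h12 := le_antisymm (finrank_W_le (ρ := ρ) (by omega) hd' hy' hd hy)
      (finrank_W_le (by omega) hd hy hd' hy')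
    rw [h11] at h12
    obtain ⟨v, h13, h14⟩ := Submodule.exists_mem_ne_zero_of_ne_bot
      (Submodule.one_le_finrank_iff.1 h12.ge)
    refine ⟨v, h13, h14, fun x φ => key_fix h12 h13 h14 (by omega)
      (fun h => hpow 3 (e3 (by omega)).1 fun h' => ?_) fun h => hpow 2 (e4 (by omega)).1 fun h' => ?_⟩
    · have := (e3 (by omega)).2
      have := (Nat.dvd_prime Nat.prime_three).1 h'
      omega
    · have := (e4 (by omega)).2
      have := (Nat.dvd_prime Nat.prime_two).1 h'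
      omega) (k + 1) hk.ge
  have h13 := Submodule.finrank_le (Nf ρ L)
  have h14 := FiniteField.isPrimePow_card F
  obtain ⟨p, hp⟩ : ∃ p, Fintype.card F = p + 1 := ⟨Fintype.card F - 1, by omega⟩
  rw [hp, Nat.add_sub_cancel] at h10 h12 hlt hE
  rw [hp] at hx h8 h9 h14 e3 e4
  rw [h11, mul_one] at h8
  have hE' : E * p + 1 = (p + 1) ^ k := by rw [mul_comm]; omega
  have hp0 : 0 < p := by omega
  rw [pow_succ, ← hE'] at h10 h12 hlt
  have h15 : Nat.card (ℙ F (ι → F)) = (p + 1) * E + 1 :=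
    Nat.eq_of_mul_eq_mul_right hp0 (by nlinarith)
  have h16 : finrank ℂ M < (p + 1) * E := lt_of_mul_lt_mul_left (a := p) (by nlinarith) (Nat.zero_le _)
  have h17 : (p + 1) * E ≤ finrank ℂ M + k :=
    Nat.le_of_mul_le_mul_left (by nlinarith [Nat.mul_le_mul_left p h13]) hp0
  have h18 := sl_arith (q := p + 1) (j := (p + 1) * E - finrank ℂ M) (N := finrank ℂ M) h3 (by omega) hE'
    (by omega) (by omega) (by omega) (by omega) (by
      rw [h15] at h9
      refine (Nat.dvd_add_right h9).1 ⟨((p + 1) * E + 1) * (p + 1) ^ k, ?_⟩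
      rw [h8, hE, Nat.add_sub_cancel]
      ring)
  have h19 : p + 1 ≠ 10 := fun e => by
    rw [e] at h14
    revert h14
    decide
  omega

theorem force_eq_sl : True := by
  have := @Ann.eq_1.{0,0}
  have := @Ann.eq_def.{0,0}
  have := @row.eq_1.{0,0}
  have := @row.eq_def.{0,0}
  have := @ch.eq_1.{0,0}
  have := @ch.eq_def.{0,0}
  have := @Nf.eq_1.{0,0,0}
  have := @Nf.eq_def.{0,0,0}
  trivial

end H20.MR
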