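import Cfsg.Agent.Lib.MinRep.Div
import Cfsg.Agent.Lib.MinDeg65.Tv

/-! The permutation character of `SL` on non-zero vectors. -/

set_option autoImplicit false
set_option linter.unusedSectionVars false

namespace H20.MR

open Module Cfsg Matrix H65.MD
open scoped Classical

variable {ι : Type*} [Fintype ι] [DecidableEq ι] {F : Type*} [Field F] [Fintype F]

/-- The non-zero vectors. -/
@[ext] structure NZ (ι F : Type*) [Field F] where
  val : ι → F
  ne : val ≠ 0

instance : Finite (NZ ι F) := Finite.of_injective NZ.val fun _ _ => NZ.ext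

instance : MulAction (SpecialLinearGroup ι F × Fˣ) (NZ ι F) where
  smul g v := ⟨g.2 • g.1 • v.1, (smul_ne_zero_iff_ne _).2 ((smul_ne_zero_iff_ne _).2 v.2)⟩
  one_smul v := NZ.ext (show (1 : Fˣ) • (1 : SpecialLinearGroup ι F) • v.1 = v.1 by simp)
  mul_smul a b v := NZ.ext (show (a.2 * b.2) • (a.1 * b.1) • v.1 = a.2 • a.1 • b.2 • b.1 • v.1 by
    simp only [mul_smul, sl_smul, Units.smul_def, mulVec_smul])

theorem nz_smul (g : SpecialLinearGroup ι F × Fˣ) (v : NZ ι F) : (g • v).1 = (g.2 : F) • g.1 • v.1 := rfl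

instance : MulAction (SpecialLinearGroup ι F) (NZ ι F) := MulAction.compHom _ (MonoidHom.inl _ Fˣ)

theorem nz_smul' (g : SpecialLinearGroup ι F) (v : NZ ι F) : (g • v).1 = g • v.1 := one_smul Fˣ _

theorem card_NZ : Nat.card (NZ ι F) = Fintype.card F ^ Fintype.card ι - 1 := by
  rw [Nat.card_congr (⟨fun v => ⟨v.1, v.2⟩, fun v => ⟨v.1, v.2⟩, fun _ => rfl, fun _ => rfl⟩ :
    NZ ι F ≃ {v : ι → F // v ≠ 0})]
  simp

theorem card_orbits_le (h3 : 3 ≤ Fintype.card ι) : Nat.card (MulAction.orbitRel.Quotient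
    (SpecialLinearGroup ι F) (NZ ι F × NZ ι F)) ≤ Fintype.card F := by
  obtain ⟨e, he⟩ := exists_notMem_of_finrank_lt (⊥ : Submodule F (ι → F)) (by simp; omega)
  replace he : e ≠ 0 := by simpa using he
  obtain ⟨e', he'⟩ := exists_notMem_of_finrank_lt (F ∙ e) (by rw [finrank_span_singleton he]; omega)
  have he'' : e' ≠ 0 := fun h => he' (h ▸ zero_mem _)
  rw [← Nat.card_eq_fintype_card]
  refine Nat.card_le_card_of_surjective (fun a : F => Quotient.mk'' (⟨e, he⟩,
    if h : a = 0 then ⟨e', he''⟩ else ⟨a • e, smul_ne_zero h he⟩)) fun r => ?_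
  obtain ⟨⟨u, w⟩, rfl⟩ := Quotient.mk''_surjective r
  obtain ⟨g, hg⟩ := H30.exists_SL_mulVec_eq (by omega) u.2 he
  by_cases h : g • w.1 ∈ F ∙ e
  · obtain ⟨a, ha⟩ := Submodule.mem_span_singleton.1 h
    have ha0 : a ≠ 0 := fun h0 => (smul_ne_zero_iff_ne g).2 w.2 (by rw [← ha, h0, zero_smul])
    refine ⟨a, Quotient.sound' ⟨g, Prod.ext (NZ.ext ((nz_smul' _ _).trans hg)) ?_⟩⟩
    rw [dif_neg ha0]
    exact NZ.ext ((nz_smul' _ _).trans ha.symm)
  · obtain ⟨k, h1, h2⟩ := exists_fix_smul h3 h he'
    refine ⟨0, Quotient.sound' ⟨k * g, Prod.ext (NZ.ext ((nz_smul' _ _).trans ?_)) ?_⟩⟩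
    · rw [mul_smul]
      exact (congrArg _ hg).trans h1
    · rw [dif_pos rfl]
      exact NZ.ext ((nz_smul' _ _).trans (by rw [mul_smul]; exact h2))

theorem exists_weil_sl (h3 : 3 ≤ Fintype.card ι) :
    ∃ χ : AddChar (Additive Fˣ) ℂ → SpecialLinearGroup ι F → ℂ,
      (∀ i, IsIrrCharacter _ (χ i)) ∧ Function.Injective χ ∧
      (∀ g : SpecialLinearGroup ι F, (Nat.card (MulAction.fixedBy (NZ ι F) g) : ℂ) = 1 + ∑ i, χ i g) ∧
      ((Fintype.card F : ℂ) - 1) * χ 1 1 = (Fintype.card F : ℂ) ^ Fintype.card ι - Fintype.card F := by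
  let ρ := Representation.ofMulAction ℂ (SpecialLinearGroup ι F × Fˣ) (NZ ι F)
  let x : Additive Fˣ → SpecialLinearGroup ι F × Fˣ := fun a => (1, a.toMul)
  have hx : ∀ a b, x (a + b) = x a * x b := fun a b => Prod.ext (mul_one _).symm rfl
  have hc : ∀ a k, x a * MonoidHom.inl _ Fˣ k = MonoidHom.inl _ Fˣ k * x a := fun a k => by simp [x]
  let τ := fun η => res ρ (MonoidHom.inl _ Fˣ) (wt ρ x η) fun k _ => mem_wt_comm fun a => hc a k
  have hq : 2 ≤ Fintype.card F := Fintype.one_lt_card
  have hn : Fintype.card F ≤ Fintype.card F ^ Fintype.card ι := Nat.le_self_pow (by omega) _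
  have hdeg : ∀ η, ((Fintype.card F : ℂ) - 1) * (τ η).character 1 =
      (Fintype.card F : ℂ) ^ Fintype.card ι - 1 := fun η => by
    have h1 := card_mul_finrank_wt (ρ := ρ) (χ := η) hx
    rw [Finset.sum_eq_single 0 (fun a _ ha => ?_) (by simp), x_zero hx, Representation.char_one] at h1
    · rw [← Representation.char_one ρ, H6.character_ofMulAction, MulAction.fixedBy_one_eq_univ,
        Nat.card_univ, card_NZ] at h1
      rw [Representation.char_one]
      simpa [Fintype.card_units, Nat.cast_sub (one_le_two.trans hq),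
        Nat.cast_sub ((one_le_two.trans hq).trans hn)] using h1
    · rw [H6.character_ofMulAction, Nat.card_eq_zero.2 (Or.inl ⟨fun v => ha ?_⟩), Nat.cast_zero, mul_zero]
      have h2 : ((a.toMul : Fˣ) : F) • v.1.1 = (1 : F) • v.1.1 := by
        simpa [nz_smul, x] using congrArg NZ.val (MulAction.mem_fixedBy.1 v.2)
      exact Units.ext (smul_left_injective F v.1.2 h2)
  have hsum : ∀ g : SpecialLinearGroup ι F,
      (Nat.card (MulAction.fixedBy (NZ ι F) g) : ℂ) = ∑ η, (τ η).character g := fun g =>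
    (H6.character_ofMulAction (NZ ι F) (MonoidHom.inl _ Fˣ g)).symm.trans (character_eq_sum hx _ hc g)
  have hinv : classInner (τ 1).character (fun _ => 1) ≠ 0 := by
    have := Fintype.ofFinite (NZ ι F)
    have : Nonempty (NZ ι F) := by
      obtain ⟨e, he⟩ := exists_notMem_of_finrank_lt (⊥ : Submodule F (ι → F)) (by simp; omega)
      exact ⟨⟨e, by simpa using he⟩⟩
    let v : MonoidAlgebra ℂ (NZ ι F) := ∑ u, MonoidAlgebra.single u 1
    have h1 : ∀ g, ρ g v = v := fun g => by
      simp only [v, map_sum, ρ, Representation.ofMulAction_single]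
      exact Equiv.sum_comp (MulAction.toPerm g) fun u => MonoidAlgebra.single u (1 : ℂ)
    have h2 : v ≠ 0 := fun e => by
      have := congrArg (fun f : MonoidAlgebra ℂ (NZ ι F) => f.coeff (Classical.arbitrary _)) e
      simp [v, Finsupp.single_apply] at this
    rw [H6.classInner_character_one, Nat.cast_ne_zero, ← Nat.one_le_iff_ne_zero]
    exact one_le_finrank (v := (⟨v, mem_wt_one.2 fun a => h1 _⟩ : wt ρ x 1)) (fun g => Subtype.ext (h1 _))
      fun e => h2 (congrArg Subtype.val e)
  let χ := fun η => if η = 1 then (τ 1).character - fun _ => 1 else (τ η).character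
  have hχ : ∀ g, 1 + ∑ η, χ η g = ∑ η, (τ η).character g := fun g => by
    rw [← Finset.add_sum_erase _ _ (Finset.mem_univ 1), ← Finset.add_sum_erase _ _ (Finset.mem_univ 1),
      Finset.sum_congr rfl fun η hη => show χ η g = (τ η).character g by
        simp only [χ, if_neg (Finset.ne_of_mem_erase hη)]]
    simp [χ]
  have hd1 : ((Fintype.card F : ℂ) - 1) * χ 1 1 =
      (Fintype.card F : ℂ) ^ Fintype.card ι - Fintype.card F := by
    simp only [χ, if_true, Pi.sub_apply, mul_sub, hdeg]
    ring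
  have hlt : Fintype.card F < Fintype.card F ^ Fintype.card ι := by
    simpa using Nat.pow_lt_pow_right hq (show 1 < Fintype.card ι by omega)
  obtain ⟨h1, h2⟩ := irr_of_sum (κ := Option (AddChar (Additive Fˣ) ℂ))
    (fun o => o.elim (fun _ => 1) χ) (fun o => by
      rcases o with _ | η
      · exact H6.isCharacter_one
      · by_cases h : η = 1
        · simp only [Option.elim, χ, if_pos h]
          exact H6.isCharacter_sub_of_inner_ne_zero (H6.isCharacter_character _) H6.isIrrCharacter_one hinv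
        · simp only [Option.elim, χ, if_neg h]
          exact H6.isCharacter_character _) (fun o => by
      rcases o with _ | η
      · exact one_ne_zero
      · intro e
        replace e : χ η 1 = 0 := e
        by_cases h : η = 1
        · rw [← h, e, mul_zero, eq_comm, sub_eq_zero] at hd1
          exact hlt.ne' (by exact_mod_cast hd1)
        · have h4 := hdeg η
          simp only [χ, if_neg h] at e
          rw [e, mul_zero, eq_comm, sub_eq_zero] at h4
          have : Fintype.card F ^ Fintype.card ι = 1 := by exact_mod_cast h4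
          omega)
    ((card_orbits_le (F := F) h3).trans (by simp [Fintype.card_units]; omega)) (by
      rw [← H6.classInner_fixedBy]
      congr 1 <;> exact funext fun g => by rw [hsum, ← hχ]; simp)
  exact ⟨χ, fun η => h1 (some η), fun η η' e => Option.some_injective _ (h2 e),
    fun g => by rw [hsum, hχ], hd1⟩

theorem exists_rep_sl (h3 : 3 ≤ Fintype.card ι) : ∃ ρ : Representation ℂ (SpecialLinearGroup ι F)
    (Fin ((Fintype.card F ^ Fintype.card ι - Fintype.card F) / (Fintype.card F - 1)) → ℂ),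
      ρ.IsIrreducible := by
  obtain ⟨χ, h1, -, -, h2⟩ := exists_weil_sl (F := F) h3
  obtain ⟨k, ρ, hρ, e⟩ := h1 1
  have hq : 2 ≤ Fintype.card F := Fintype.one_lt_card
  have hn : Fintype.card F ≤ Fintype.card F ^ Fintype.card ι := Nat.le_self_pow (by omega) _
  rw [← e, Representation.char_one, finrank_fin_fun] at h2
  have h4 : Fintype.card F ^ Fintype.card ι - Fintype.card F = (Fintype.card F - 1) * k := by
    zify [hn, one_le_two.trans hq]
    exact_mod_cast h2.symm
  rw [h4, Nat.mul_div_cancel_left _ (by omega)]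
  exact ⟨ρ, hρ⟩

end H20.MR
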