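import Cfsg.Agent.Lib.MinRep.Tr
import Cfsg.Agent.Lib.Unitary.Gen

/-! The smallest degrees of complex representations of the special unitary groups. -/

set_option autoImplicit false
set_option linter.unusedSectionVars false

namespace H20.MR

open Module H28 H97 H20.MD H11.U
open scoped Classical Matrix

universe u v w

section Line

variable {F V : Type*} [Field F] [AddCommGroup V] [Module F V] [FiniteDimensional F V]
  {σ : F →+* F} {P : PQ F V σ} {d r : V}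

/-- The centre of the unipotent radical of the stabiliser of a totally singular line. -/
noncomputable def lin (hd : P.q d ∈ P.Λ) (hr : P.q r ∈ P.Λ) (hdr : P.B d r = 0) (x : P.Λ × F × P.Λ) :
    EG P :=
  euG (w := x.2.1 • r) (c := (x.1 : F)) hd (by simp [hdr]) (P.Λ.sub_mem x.1.2 (P.q_smul_mem hr _)) * tr hr x.2.2

theorem lin_apply (hd : P.q d ∈ P.Λ) (hr : P.q r ∈ P.Λ) (hdr : P.B d r = 0) (x : P.Λ × F × P.Λ) (u : V) :
    (lin hd hr hdr x).1 u = u + (σ x.2.1 * P.B r u - P.ε * x.1 * P.B d u) • d -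
      (P.ε * x.2.2 * P.B r u + P.ε * x.2.1 * P.B d u) • r := by
  rw [lin, EG_mul_apply, euG_apply, tr_apply, eu_apply]
  simp only [map_sub, map_smul, B_smul_left, P.self_eq_zero hr, hdr, smul_eq_mul, mul_zero, sub_zero]
  module

theorem lin_add (hd : P.q d ∈ P.Λ) (hr : P.q r ∈ P.Λ) (hdr : P.B d r = 0) (x y : P.Λ × F × P.Λ) :
    lin hd hr hdr (x + y) = lin hd hr hdr x * lin hd hr hdr y := EG_ext fun u => by
  simp only [EG_mul_apply, lin_apply, map_add, map_sub, map_smul, P.self_eq_zero hd, P.self_eq_zero hr,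
    hdr, P.eq_zero_symm hdr, mul_zero, add_zero, sub_zero, Prod.fst_add, Prod.snd_add,
    AddSubgroup.coe_add]
  module

theorem lin_left (hd : P.q d ∈ P.Λ) (hr : P.q r ∈ P.Λ) (hdr : P.B d r = 0) (l : P.Λ) :
    lin hd hr hdr (l, 0, 0) = tr hd l := EG_ext fun u => by
  simp only [lin_apply, tr_apply, map_zero, ZeroMemClass.coe_zero]
  module

theorem lin_tr (hd : P.q d ∈ P.Λ) (hr : P.q r ∈ P.Λ) (hdr : P.B d r = 0) (α : F)
    (he : P.q (r + α • d) ∈ P.Λ) (l : P.Λ) :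
    lin hd hr hdr (⟨σ α * α * l, P.norm_mem _ _ l.2⟩, l * σ α, l) = tr he l := EG_ext fun u => by
  simp only [lin_apply, tr_apply, map_add, map_mul, P.σσ, sigma_lam l.2, LinearMap.add_apply,
    B_smul_left]
  module

end Line

variable {F : Type u} [Field F] [Fintype F] {q : ℕ} [IsSq F q]

section Step

variable {V : Type v} [AddCommGroup V] [Module F V] [FiniteDimensional F V] [Finite V]
  {P : PQ F V (cj q)} {d f : V}
  {M : Type w} [AddCommGroup M] [Module ℂ M] [FiniteDimensional ℂ M] {ρ : Representation ℂ (EG P) M}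

theorem fix_mul (o : Herm P) (s : F) (hs : cj q s = s) (l : F) (hl : l ∈ P.Λ) : s * l ∈ P.Λ :=
  o.mem.2 (by rw [map_mul, hs, o.cj_lam hl]; ring)

theorem exists_scale (o : Herm P) (hn : 3 ≤ finrank F V) (h : Pair P d f) {a : F} (ha : a ≠ 0) :
    ∃ g : EG P, g.1 d = a • d := by
  obtain ⟨z, hz⟩ := (o.pw h).exists_nonsing' (by have := h.finrank_W; omega)
  rw [Pw_B] at hz
  have key : ∀ c : F, c ≠ 0 → ∃ g : EG P, g.1 d = (-c) • f := fun c hc => by
    obtain ⟨b, hb⟩ := exists_norm_eq' (q := q) (c := (c + cj q c) / P.B z z)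
      (by rw [map_div₀, cj_trace, o.cj_self])
    have hv : c - P.q (b • z : Wp P d f) ∈ P.Λ := o.mem.2 (by
      have h1 := o.self (b • z : Wp P d f)
      rw [Submodule.coe_smul, Herm.B_smul, hb, div_mul_cancel₀ _ hz] at h1
      rw [map_sub, Submodule.coe_smul]
      linear_combination h1)
    let g := euG h.hf (W_f (b • z)) hv
    have h1 : P.B d (g.1 d) = P.B d ((-c) • f) := by
      simp [g, euG_apply, o.eu, h.dd, h.hdf, h.fd, o.eps, W_d, W_d']
    obtain ⟨a, c', h2, h3, h4⟩ := exists_eu_apply_eq h.hd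
      (P.Λ.sub_mem (EG_sing g h.hd) (P.q_smul_mem h.hf (-c))) h1 (by rw [h1]; simp [h.hdf, hc])
    exact ⟨euG h.hd h2 h3 * g, by rw [EG_mul_apply, euG_apply, h4]⟩
  obtain ⟨g, hg⟩ := key a ha
  obtain ⟨k, hk⟩ := key 1 one_ne_zero
  refine ⟨k⁻¹ * g, k.1.injective ?_⟩
  rw [EG_mul_apply, EG_apply_inv, map_smul, hg, hk]
  module

theorem card_fix : (Finset.univ.filter fun s : F => cj q s = s ∧ s ≠ 0).card = q - 1 := by
  have h1 := card_fixed F q
  rw [Nat.card_eq_fintype_card, Fintype.card_subtype] at h1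
  rw [← Finset.filter_filter, Finset.filter_ne', Finset.card_erase_of_mem (by simp), h1]

theorem exists_norm_ne {s : F} (h : cj q s = s ∧ s ≠ 0) : ∃ a : F, a ≠ 0 ∧ cj q a * a = s := by
  obtain ⟨a, ha⟩ := exists_norm_eq' h.1
  exact ⟨a, fun e => h.2 (by rw [← ha, e, mul_zero]), ha⟩

theorem step_su (o : Herm P) {m : ℕ} (hn : finrank F V = m + 2) (hm : 1 ≤ m) (h : Pair P d f) {l : P.Λ}
    {v : M} (hv : ρ (tr h.hd l) v ≠ v) :
    finrank ℂ (wt ρ (tr h.hd) 1) + (q - 1) * q ^ m ≤ finrank ℂ M := by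
  obtain ⟨χ, hχ, u, -, h0, hu⟩ := exists_wt_ne (ρ := ρ) (tr_add h.hd) (N := ⊤) (fun _ _ _ => trivial)
    trivial hv
  have hχ' : χ ≠ 1 := fun e => hχ (by rw [e]; rfl)
  have h1 := step (ρ := ρ) (fix_mul o) h.hd (N := ⊤) (fun _ _ _ => trivial)
    (Finset.univ.filter fun s : F => cj q s = s ∧ s ≠ 0) (fun s hs => by
      obtain ⟨a, ha, e⟩ := exists_norm_ne (Finset.mem_filter.1 hs).2
      obtain ⟨g, hg⟩ := exists_scale o (by omega) h ha
      exact ⟨g, a, ha, hg, e, fun _ _ => trivial⟩) hχ'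
  have h2 := heis_bound o.nd o.exists_sub h hχ' (fun x => fix_inv h.hd (toG_d h x)) le_rfl hu h0
  rw [Herm.card_W h, show finrank F (Wp P d f) = m by have := h.finrank_W; omega, sq,
    Nat.mul_self_le_mul_self_iff] at h2
  rw [top_inf_eq, top_inf_eq, card_fix, finrank_top] at h1
  exact le_trans (Nat.add_le_add_left (Nat.mul_le_mul_left _ h2) _) h1

theorem exists_char (o : Herm P) (χ : AddChar P.Λ ℂ) : ∃ κ : F, ∀ l, χ l = psi F (κ * l) := by
  obtain ⟨θ, hθ⟩ := exists_trace_eq (F := F) (q := q) (c := 1) (map_one _)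
  let E : AddChar F ℂ := χ.compAddMonoidHom
    ⟨⟨fun t => ⟨t - cj q t, o.mem.2 (by simp [cj_cj])⟩, Subtype.ext (by simp)⟩,
      fun a b => Subtype.ext (by simp; ring)⟩
  obtain ⟨κ, hκ⟩ := exists_eq_psi E
  refine ⟨κ * θ, fun l => ?_⟩
  rw [mul_assoc, ← hκ]
  change χ l = χ ⟨θ * l - cj q (θ * l), _⟩
  congr 1
  apply Subtype.ext
  change (l : F) = θ * l - cj q (θ * l)
  rw [map_mul, o.cj_lam l.2]
  linear_combination (-(l : F)) * hθ

/-- A character of the group `lin` is trivial on some group of transvections. -/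
theorem exists_iso (o : Herm P) (χ : AddChar (P.Λ × F × P.Λ) ℂ) {l₀ : P.Λ} (h : χ (l₀, 0, 0) ≠ 1) :
    ∃ α : F, ∀ l : P.Λ, χ (⟨cj q α * α * l, P.norm_mem _ _ l.2⟩, l * cj q α, l) = 1 := by
  obtain ⟨κ₁, h1⟩ := exists_char o (χ.compAddMonoidHom (AddMonoidHom.inl _ _))
  obtain ⟨κ₂, h2⟩ := exists_eq_psi (χ.compAddMonoidHom ((AddMonoidHom.inr _ _).comp (AddMonoidHom.inl _ _)))
  obtain ⟨κ₃, h3⟩ := exists_char o (χ.compAddMonoidHom ((AddMonoidHom.inr _ _).comp (AddMonoidHom.inr _ _)))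
  have h4 : ∀ a b c, χ (a, b, c) = psi F (κ₁ * a + κ₂ * b + κ₃ * c) := fun a b c => by
    rw [AddChar.map_add_eq_mul, AddChar.map_add_eq_mul, ← h1, ← h2, ← h3]
    simp [← AddChar.map_add_eq_mul]
  obtain ⟨θ, hθ⟩ := exists_trace_eq (F := F) (q := q) (c := 1) (map_one _)
  obtain ⟨s, hs, hs'⟩ := exists_psi_sep P.Λ (l := θ) fun h => by
    rw [o.mem, hθ] at h
    exact one_ne_zero h
  have hs0 : s ≠ 0 := fun e => hs' (by simp [e])
  have key : ∀ t : F, cj q (t / s) = t / s → ∀ l : P.Λ, psi F (t * l) = 1 := fun t ht l => by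
    rw [← hs _ (fix_mul o _ ht _ l.2)]
    congr 1
    field_simp
  set k₁ := κ₁ / s with hk₁
  set k₂ := κ₂ / s with hk₂
  set k₃ := κ₃ / s with hk₃
  have hδ : k₁ - cj q k₁ ≠ 0 := fun e => h (by
    rw [h4]; simpa using key κ₁ (sub_eq_zero.1 e).symm l₀)
  set δ := k₁ - cj q k₁ with hδ'
  have hδ2 : cj q δ = -δ := by simp [hδ', cj_cj]
  obtain ⟨x, hx⟩ := exists_norm_eq' (q := q) (c := cj q (k₂ / δ) * (k₂ / δ) - (k₃ - cj q k₃) / δ)
    (by simp only [map_sub, map_mul, map_div₀, map_neg, cj_cj, hδ2]; field_simp; ring)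
  refine ⟨x - k₂ / δ, fun l => ?_⟩
  set α := x - k₂ / δ with hα
  have e : κ₁ * (cj q α * α * l) + κ₂ * (l * cj q α) + κ₃ * l =
      (κ₁ * (cj q α * α) + κ₂ * cj q α + κ₃) * l := by ring
  rw [h4, e]
  refine key _ ?_ l
  have e2 : (κ₁ * (cj q α * α) + κ₂ * cj q α + κ₃) / s = k₁ * (cj q α * α) + k₂ * cj q α + k₃ := by
    simp only [hk₁, hk₂, hk₃]; ring
  have e3 : x = α + k₂ / δ := by rw [hα]; ring
  rw [e3] at hx
  simp only [map_add, map_div₀, hδ2] at hx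
  field_simp at hx
  rw [e2]
  simp only [map_add, map_mul, cj_cj]
  refine mul_left_cancel₀ hδ ?_
  linear_combination -hx - δ * cj q α * α * hδ'

theorem move_su (o : Herm P) (hn : 4 ≤ finrank F V) (hρ : NT ρ) :
    ∃ (e f : V) (h : Pair P e f) (r : Wp P e f) (hr : P.q r ∈ P.Λ) (l : P.Λ) (v : M),
      v ∈ wt ρ (tr h.hd) 1 ∧ ρ (tr hr l) v ≠ v := by
  obtain ⟨d, hd, l₀, v₀, h0⟩ := hρ
  obtain ⟨f, h⟩ := MD.exists_pair o.nd hd (ne_zero_of_nt h0)
  obtain ⟨r, r', h'⟩ := (o.pw h).exists_pair (by have := h.finrank_W; omega)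
  have hr : P.q r ∈ P.Λ := h'.hd
  rw [← lin_left hd hr (W_d r)] at h0
  obtain ⟨χ, hχ, u, -, hu0, hu⟩ := exists_wt_ne (ρ := ρ) (lin_add hd hr (W_d r)) (N := ⊤)
    (fun _ _ _ => trivial) trivial h0
  obtain ⟨α, hα⟩ := exists_iso o χ hχ
  have he : P.q (r + α • d) ∈ P.Λ := sing_add hr (P.q_smul_mem hd _) (by simp [W_d'])
  have hde : P.B (r + α • d) d = 0 := by simp [W_d', h.dd]
  obtain ⟨w, hw, h1, h2⟩ := P.exists_partner o.nd (F ∙ d) (d := r + α • d) (fun hm => W_not_mem' h h'.d_ne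
      (by simpa using (F ∙ d).sub_mem hm (Submodule.smul_mem _ α (Submodule.mem_span_singleton_self d))))
    he fun x hx => by
      obtain ⟨a, rfl⟩ := Submodule.mem_span_singleton.1 hx
      rw [map_smul, hde, smul_zero]
  refine ⟨_, w, ⟨he, hw, by rw [o.symm, h1, map_one]⟩,
    ⟨d, hde, h2 d (Submodule.mem_span_singleton_self d)⟩, hd, l₀, u, mem_wt_one.2 fun l => ?_, ?_⟩
  · rw [← lin_tr hd hr (W_d r) α he, hu, hα, one_smul]
  · rw [← lin_left hd hr (W_d r), hu]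
    exact fun e => hχ ((smul_eq_self_iff hu0).1 e)

theorem base_four (o : Herm P) (hn : finrank F V = 4) {e f : V} (h : Pair P e f) {r : Wp P e f}
    (hr : P.q r ∈ P.Λ) {l : P.Λ} {v : M} (hv : v ∈ wt ρ (tr h.hd) 1) (hl : ρ (tr hr l) v ≠ v) :
    q - 1 ≤ finrank ℂ (wt ρ (tr h.hd) 1) := by
  have hN : ∀ l, ∀ v ∈ wt ρ (tr h.hd) 1, ρ (tr hr l) v ∈ wt ρ (tr h.hd) 1 :=
    fun l => fix_inv h.hd (tr_fix hr l (W_d' r))
  obtain ⟨χ, hχ, u, hu1, h0, hu⟩ := exists_wt_ne (tr_add hr) hN hv hl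
  obtain ⟨r', hp⟩ := MD.exists_pair (P := Pw P e f) (d := r) (h.nd o.nd) hr
    (fun e => ne_zero_of_nt hl (by rw [e]; rfl))
  have h' : Pair P (r : V) r' := ⟨hp.hd, hp.hf, hp.hdf⟩
  obtain ⟨l', hl', hl0⟩ := o.exists_lam
  have h1 := step (ρ := ρ) (fix_mul o) hr hN
    (Finset.univ.filter fun s : F => cj q s = s ∧ s ≠ 0) (fun s hs => by
      obtain ⟨a, ha, e1⟩ := exists_norm_ne (Finset.mem_filter.1 hs).2
      obtain ⟨g, hg⟩ := h'.exists_lev o.iso o.nd (by omega) ha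
      let x : Wp P (r : V) r' := ⟨e, W_d' r, W_d' r'⟩
      obtain ⟨b, hb, γ, hγ, e2⟩ := exists_EG_two (P := Pw P (r : V) r') (h'.nd o.nd)
        (by have := h'.finrank_W; omega) hl' hl0 (v := x) h.hd (fun e => h.d_ne (congrArg Subtype.val e))
        (y := ⟨g.1 x, hg.mem_W x⟩) (EG_sing g h.hd)
        (fun e => h.d_ne (g.1.injective ((congrArg Subtype.val e).trans (map_zero _).symm)))
      have e3 : g.1 e = b • (ext h' ⟨γ, hγ⟩).1 e := by
        rw [show (ext h' ⟨γ, hγ⟩).1 e = _ from ext_W h' _ x]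
        exact congrArg Subtype.val e2
      refine ⟨(ext h' ⟨γ, hγ⟩)⁻¹ * g, a, ha, ?_, e1, fix_inv' h.hd (inv_ne_zero hb) ?_⟩
      · rw [EG_mul_apply, hg.gd, map_smul, ← map_inv, ext_d]
      · rw [mul_inv_rev, inv_inv, EG_mul_apply]
        apply g.1.injective
        rw [EG_apply_inv, map_smul, e3, smul_smul, inv_mul_cancel₀ hb, one_smul])
    (χ := χ) (fun e => hχ (by rw [e]; rfl))
  have h2 := one_le_finrank (N := wt ρ (tr h.hd) 1 ⊓ wt ρ (tr hr) χ) ⟨hu1, hu⟩ h0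
  rw [card_fix] at h1
  nlinarith

end Step

theorem arith {q k a b c : ℕ} (hq : 1 ≤ q) (h1 : a + (q - 1) * q ^ k ≤ b) (h2 : q ^ k ≤ (q + 1) * a + c) :
    q ^ (k + 2) ≤ (q + 1) * b + c := by
  obtain ⟨p, rfl⟩ : ∃ p, q = p + 1 := ⟨q - 1, by omega⟩
  rw [Nat.add_sub_cancel] at h1
  rw [pow_add]
  nlinarith

theorem main_su (k : ℕ) : ∀ {V : Type v} [AddCommGroup V] [Module F V] [FiniteDimensional F V] [Finite V]
    {P : PQ F V (cj q)} (_ : Herm P) (_ : finrank F V = k + 3) {M : Type w} [AddCommGroup M] [Module ℂ M]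
    [FiniteDimensional ℂ M] {ρ : Representation ℂ (EG P) M} (_ : NT ρ),
    q ^ (k + 3) ≤ (q + 1) * finrank ℂ M + if Even k then q else 1 := by
  have hq : 1 ≤ q := by have := two_le_q F q; omega
  induction k using Nat.strong_induction_on with
  | _ k ih =>
  intro V _ _ _ _ P o hn M _ _ _ ρ hρ
  rcases k with _ | k
  · obtain ⟨d, hd, l, v, hv⟩ := hρ
    obtain ⟨f, h⟩ := MD.exists_pair o.nd hd (ne_zero_of_nt hv)
    have h1 := step_su o (m := 1) hn le_rfl h hv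
    rw [if_pos Even.zero]
    exact arith hq h1 (by simp)
  obtain ⟨e, f, h, r, hr, l, v, hv, hl⟩ := move_su o (by omega) hρ
  obtain ⟨g, hg, e1⟩ := o.iso.exists_EG_apply_eq o.nd (by omega) (ne_zero_of_nt hl) h.d_ne
    (P.Λ.sub_mem hr h.hd)
  have h1 := step_su o (m := k + 2) hn (by omega) h (nt_move hl h.hd (g := ⟨g, hg⟩) e1)
  have h2 : q ^ (k + 2) ≤ (q + 1) * finrank ℂ (wt ρ (tr h.hd) 1) + if Even (k + 1) then q else 1 := by
    rcases k with _ | k
    · have h3 := base_four o hn h hr hv hl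
      rw [if_neg (by decide)]
      exact arith hq (k := 0) (a := 0) (by simpa using h3) (by simp)
    · have h3 := ih k (by omega) (o.pw h) (by have := h.finrank_W; omega) (nt_sub h hr hv hl)
      simpa only [Nat.even_add_one, not_not] using h3
  exact arith hq h1 h2

theorem EG_le_range (n : ℕ) :
    EG (uP n F q) ≤ (toAut ((Cfsg.slToMat n F).comp (Cfsg.SU n F q).subtype)).range := fun g hg => by
  rw [mem_range_toAut]
  refine ⟨⟨⟨LinearMap.toMatrix' (g : (Fin n → F) →ₗ[F] (Fin n → F)), by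
    rw [LinearMap.det_toMatrix']; exact mem_SLV.1 (EG_le_SLV hg)⟩, fun x y => ?_⟩, rfl⟩
  change Cfsg.hermForm n F q (LinearMap.toMatrix' (g : (Fin n → F) →ₗ[F] (Fin n → F)) *ᵥ x)
    (LinearMap.toMatrix' (g : (Fin n → F) →ₗ[F] (Fin n → F)) *ᵥ y) = _
  rw [LinearMap.toMatrix'_mulVec, LinearMap.toMatrix'_mulVec]
  exact (EG_le_isom hg).1 y x

theorem su_bound {k : ℕ} (hex : k + 3 ≠ 3 ∨ q ≠ 2) {M : Type w} [AddCommGroup M] [Module ℂ M]
    [FiniteDimensional ℂ M] (ρ : Representation ℂ (Cfsg.SU (k + 3) F q) M) (hρ : ρ.IsIrreducible)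
    (h2 : 2 ≤ finrank ℂ M) : q ^ (k + 3) ≤ (q + 1) * finrank ℂ M + if Even k then q else 1 := by
  let e := MonoidHom.ofInjective (toAut_injective
    (toMat := (Cfsg.slToMat (k + 3) F).comp (Cfsg.SU (k + 3) F q).subtype)
    fun _ _ e => Subtype.ext (Subtype.ext e))
  let φ : EG (uP (k + 3) F q) →* Cfsg.SU (k + 3) F q :=
    e.symm.toMonoidHom.comp (Subgroup.inclusion (EG_le_range (k + 3)))
  have hφ : ∀ g x, (φ g).1.1 *ᵥ x = g.1 x := fun g x =>
    LinearEquiv.congr_fun (congrArg Subtype.val (e.apply_symm_apply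
      (Subgroup.inclusion (EG_le_range (k + 3)) g))) x
  refine main_su k (herm_uP (k + 3)) (by simp) (ρ := ρ.comp φ) ?_
  by_contra hn
  have h1 : ρ.ker = ⊤ := eq_top_of_tv_mem hex fun w _ hw c hc => by
    have hl : -c ∈ (uP (k + 3) F q).Λ := (herm_uP (k + 3)).mem.2 (by simp [hc])
    have h3 : tv q w c = φ (tr (uP_q_mem.2 hw) ⟨-c, hl⟩) := su_ext fun x => by
      rw [tv_mulVec hw hc, hφ, tr_apply, uP_B, (herm_uP (k + 3)).eps]
      module
    refine LinearMap.ext fun v => ?_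
    by_contra h4
    exact hn ⟨w, uP_q_mem.2 hw, ⟨-c, hl⟩, v, by rw [h3] at h4; exact h4⟩
  have := H63.CrossChar.finrank_le_one_of_trivial ρ hρ fun g => MonoidHom.mem_ker.1 (h1.ge trivial)
  omega

theorem force_eq_su : True := by
  have := @lin.eq_1.{0,0}
  have := @lin.eq_def.{0,0}
  trivial

end H20.MR
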