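import Cfsg.Agent.Lib.MinRep.SpOddA
import Cfsg.Agent.Lib.MinRep.QuadOrb
import Cfsg.Agent.Lib.CrossChar.WeilSp

/-! The Weil characters and the degree gap for symplectic groups in odd characteristic. -/

set_option autoImplicit false
set_option linter.unusedSectionVars false

namespace H20.MR

open Module H28 H97 H20.MD Cfsg
open scoped Classical

theorem card_irr_congr {G H : Type*} [Group G] [Group H] (e : G ≃* H) (z : ℂ) :
    Nat.card {χ : IrrCharacter G // χ.1 1 = z} = Nat.card {χ : IrrCharacter H // χ.1 1 = z} :=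
  Nat.card_congr ⟨fun χ => ⟨⟨_, H6.isIrrCharacter_comp_equiv e.symm χ.1.2⟩, by simpa using χ.2⟩,
    fun χ => ⟨⟨_, H6.isIrrCharacter_comp_equiv e χ.1.2⟩, by simpa using χ.2⟩,
    fun χ => by ext; simp, fun χ => by ext; simp⟩

variable {F V : Type*} [Field F] [Fintype F] [AddCommGroup V] [Module F V] [FiniteDimensional F V] [Finite V]
  {P : PQ F V (RingHom.id F)} {o : Symp P} {M : Type*} [AddCommGroup M] [Module ℂ M] [FiniteDimensional ℂ M]
  {ρ : Representation ℂ (EG P) M} {c : F} {n : ℕ}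

/-- The unipotent radical of the stabiliser of a maximal isotropic subspace. -/
def sieg (X : Submodule F V) : Subgroup (EG P) where
  carrier := {g | (∀ x ∈ X, g.1 x = x) ∧ ∀ v, g.1 v - v ∈ X}
  one_mem' := ⟨fun _ _ => rfl, fun v => (sub_self v).symm ▸ X.zero_mem⟩
  mul_mem' {a b} ha hb := ⟨fun x hx => by rw [EG_mul_apply, hb.1 x hx, ha.1 x hx], fun v => by
    simpa [EG_mul_apply] using X.add_mem (ha.2 (b.1 v)) (hb.2 v)⟩
  inv_mem' {a} ha := ⟨fun x hx => by nth_rw 1 [← ha.1 x hx]; rw [EG_inv_apply], fun v => by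
    simpa [EG_apply_inv] using X.neg_mem (ha.2 ((a⁻¹).1 v))⟩

theorem sieg_comm (X : Submodule F V) (a b : sieg (P := P) X) : a * b = b * a :=
  Subtype.ext (EG_ext fun v => by
    have h1 := a.2.1 _ (b.2.2 v)
    have h2 := b.2.1 _ (a.2.2 v)
    rw [map_sub] at h1 h2
    change a.1.1 (b.1.1 v) = b.1.1 (a.1.1 v)
    linear_combination (norm := module) h1 - h2)

theorem big_of_not_r1 (hq : Fintype.card F % 2 = 1) (hn : finrank F V = 2 * n) (h2 : 2 ≤ n) (hR : ¬ R1 o ρ) :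
    (Fintype.card F ^ n - 1) * (Fintype.card F ^ n - Fintype.card F) ≤
      2 * (Fintype.card F + 1) * finrank ℂ M := by
  simp only [R1, not_forall] at hR
  obtain ⟨d, r, h, a, b, c, v, v0, v1, v2, v3, hne⟩ := hR
  obtain ⟨X, h1, hX⟩ := exists_lag o (U := (F ∙ d) ⊔ F ∙ r) (by
    simp only [perp_sup, sup_le_iff, le_inf_iff, Submodule.span_singleton_le_iff_mem, mem_perp_singleton,
      o.alt, h, P.eq_zero_symm h, and_self])
  have hd : d ∈ X := h1 (Submodule.mem_sup_left (Submodule.mem_span_singleton_self d))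
  have hr : r ∈ X := h1 (Submodule.mem_sup_right (Submodule.mem_span_singleton_self r))
  have hB : ∀ x y : X, P.B x y = 0 := fun x y => hX.ge y.2 x x.2
  have hm : finrank F X = n := by have := finrank_perp o.nd X; rw [hX] at this; omega
  obtain ⟨φ, u, ⟨⟨u1, u2⟩, u3⟩, u0, hu⟩ := exists_eigen (sieg_comm X) (sieg X).subtype
    (N := Ew o ρ d a ⊓ Sw o ρ d r b ⊓ Ew o ρ r c) (fun g v hv => ⟨⟨Ew_conj (g.2.1 d hd) hv.1.1,
      mem_wt_comm (sa_comm o h (g.2.1 d hd) (g.2.1 r hr)) hv.1.2⟩, Ew_conj (g.2.1 r hr) hv.2⟩) ⟨⟨v1, v2⟩, v3⟩ v0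
  have h3 : ∀ (x y : X) (t : F), sa o x y t ∈ sieg X := fun x y t => by
    have h4 := perp_smul (hB x y) t
    refine ⟨fun z hz => by simp [sa, sv_apply o h4, hB _ ⟨z, hz⟩], fun v => ?_⟩
    rw [sa, sv_apply o h4, add_assoc, add_sub_cancel_left]
    exact X.add_mem (X.smul_mem _ x.2) (X.smul_mem _ (X.smul_mem _ y.2))
  have h4 : ∀ x y : X, ∃ β, u ∈ Sw o ρ x y β := fun x y => by
    obtain ⟨β, hβ⟩ := exists_lam ⟨fun t => φ ⟨_, h3 x y t⟩,
      (congrArg φ (Subtype.ext (x_zero (sa_add o (hB x y))))).trans φ.map_one,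
      fun s t => (congrArg φ (Subtype.ext (sa_add o (hB x y) s t))).trans (φ.map_mul _ _)⟩
    exact ⟨β, fun t => hβ ▸ hu ⟨_, h3 x y t⟩⟩
  choose β hβ using h4
  have uq : ∀ {x y : X} {κ}, u ∈ Sw o ρ x y κ → β x y = κ := fun h => lam_inj (wt_unique u0 (hβ _ _) h)
  have s1 : ∀ x y, β x y = β y x := fun x y => uq fun t => by
    rw [sa, sv_symm o (perp_smul (hB x y) t), sv_smul o (hB y x)]
    exact hβ y x t
  have s2 : ∀ x y y', β x (y + y') = β x y + β x y' := fun x y y' => uq fun t => by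
    have := sv_mul o (perp_smul (hB x y) t) (perp_smul (hB x y') t) 0 0
    simp only [map_smul, hB, smul_zero, add_zero, ← smul_add, LinearMap.smul_apply] at this
    rw [sa, Submodule.coe_add, ← this, rho_mul, ← sa, ← sa, hβ, map_smul, hβ, smul_smul, lam_apply, lam_apply,
      lam_apply, add_mul, AddChar.map_add_eq_mul, mul_comm]
  have s3 : ∀ (s : F) x y, β x (s • y) = s • β x y := fun s x y => uq fun t => by
    rw [sa, Submodule.coe_smul, smul_smul, ← sa, hβ, lam_apply, lam_apply, smul_eq_mul]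
    congr 2
    ring
  have s4 : ∀ (x : X) a, u ∈ Ew o ρ x a → β x x = a * 2 := fun x a h => uq fun t => by
    rw [sa, sv_self, h, lam_apply, lam_apply, add_zero, mul_assoc]
  let b' := LinearMap.mk₂ F β (fun x x' y => by rw [s1, s2, s1 y, s1 y]) (fun s x y => by rw [s1, s3, s1 y]) s2 s3
  have := Fintype.ofFinite X
  have : Finite (X →ₗ[F] X →ₗ[F] F) := Module.finite_of_finite F
  have := Fintype.ofFinite (X →ₗ[F] X →ₗ[F] F)
  have h5 := orbit_bound hq (b := b') s1 (d := ⟨d, hd⟩) (r := ⟨r, hr⟩) (by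
      simp only [b', LinearMap.mk₂_apply, s4 ⟨d, hd⟩ a u1, s4 ⟨r, hr⟩ c u3, uq (x := ⟨d, hd⟩) (y := ⟨r, hr⟩) u2]
      exact fun e => hne (by linear_combination e)) (hm ▸ h2)
    {e | ∃ w : M, w ≠ 0 ∧ ∀ p : X × X, ρ (sv o p.1 p.2 0) w = psi F (e p.1 p.2) • w} fun g => by
      obtain ⟨γ, hγ, e⟩ := P.witt o.nd X (X.subtype ∘ₗ g.toLinearMap) (X.injective_subtype.comp g.injective)
        (fun x y => (hB _ _).trans (hB _ _).symm) fun _ => o.mem _
      refine Finset.mem_filter.2 ⟨Finset.mem_univ _, ρ (⟨γ, o.isom_le hγ⟩ : EG P)⁻¹ u, rho_ne_zero _ _ u0,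
        fun p => rho_injective ρ ⟨γ, o.isom_le hγ⟩ ?_⟩
      have h6 := hβ (g p.1) (g p.2) 1
      rw [sa, one_smul, lam_apply, mul_one] at h6
      rw [← rho_mul, ← sv_conj o (hB _ _), rho_mul, map_smul, rho_self_inv, e, e]
      exact h6
  rw [hm] at h5
  refine h5.trans (Nat.mul_le_mul_left _ ?_)
  rw [← Fintype.card_subtype, ← finrank_top]
  refine card_le_of_eigen (fun p : X × X => ρ (sv o p.1 p.2 0)) (fun e p => psi F (e.1 p.1 p.2))
    (fun e e' h => Subtype.ext (LinearMap.ext₂ fun x y => lam_inj (DFunLike.ext _ _ fun t => ?_)))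
    fun e => e.2.imp fun w hw => ⟨trivial, hw⟩
  simpa [lam_apply, mul_comm] using congrFun h (x, t • y)

variable (o ρ) in
/-- The weight `c` occurs for the transvection groups. -/
def Occ (c : F) : Prop := ∃ d : V, d ≠ 0 ∧ ∃ v : M, v ≠ 0 ∧ v ∈ Ew o ρ d c

theorem Occ.move (h : Occ o ρ c) {d : V} (hd : d ≠ 0) : ∃ v : M, v ≠ 0 ∧ v ∈ Ew o ρ d c := by
  obtain ⟨e, he, v, h0, hv⟩ := h
  obtain ⟨g, hg, e1⟩ := o.exists_apply_eq he hd
  exact ⟨_, rho_ne_zero ρ ⟨g, hg⟩ h0, Ew_conj e1 hv⟩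

theorem Occ.sq (h : Occ o ρ c) {a : F} (ha : a ≠ 0) : Occ o ρ (c * (a * a)) :=
  let ⟨d, hd, v, h0, hv⟩ := h
  ⟨a • d, smul_ne_zero ha hd, v, h0, Ew_smul a hv⟩

theorem Occ.congr {M' : Type*} [AddCommGroup M'] [Module ℂ M'] [FiniteDimensional ℂ M']
    {ρ' : Representation ℂ (EG P) M'} (h : Occ o ρ c) (e : ρ.character = ρ'.character) : Occ o ρ' c := by
  obtain ⟨d, hd, v, h0, hv⟩ := h
  have h1 := card_mul_finrank_wt (ρ := ρ) (χ := lam c) (tv_add o d)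
  rw [e, ← card_mul_finrank_wt (tv_add o d), mul_right_inj' card_ne, Nat.cast_inj] at h1
  have h2 := one_le_finrank hv h0
  obtain ⟨w, hw, hw'⟩ := Submodule.exists_mem_ne_zero_of_ne_bot (p := Ew o ρ' d c) fun e => by
    rw [h1, show wt ρ' (tv o d) (lam c) = ⊥ from e, finrank_bot] at h2
    omega
  exact ⟨d, hd, w, hw', hw⟩

theorem exists_occ (o : Symp P) (hn : 1 ≤ finrank F V) (hρ : ρ.IsIrreducible) (h2 : 2 ≤ finrank ℂ M) :
    ∃ c ≠ 0, Occ o ρ c := by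
  obtain ⟨d, hd, l, v, hv⟩ := nt_of_irr (fun H hH => o.EG_le_of_zf hn fun e => hH e (o.mem _)) hρ h2
  obtain ⟨χ, h1, u, -, u0, hu⟩ := exists_wt_ne (tv_add o d) (N := ⊤) (fun _ _ _ => trivial) trivial
    (a := l) (by rwa [tv_tr])
  obtain ⟨c, rfl⟩ := exists_lam χ
  exact ⟨c, by rintro rfl; exact h1 (by rw [lam_zero]; rfl), d, ne_zero_of_nt hv, u, u0, hu⟩

theorem le_of_occ (h2 : (2 : F) ≠ 0) (hn : finrank F V = 2 * (n + 1)) (h : ∀ c ≠ 0, Occ o ρ c) :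
    (Fintype.card F - 1) * Fintype.card F ^ n ≤ finrank ℂ M := by
  obtain ⟨d, hd, -⟩ := h 1 one_ne_zero
  obtain ⟨f, hf⟩ := o.exists_pair hd
  have := card_mul_le (ρ := ρ) (tv_add o d) (N := ⊤) (fun _ _ _ => trivial) (Finset.univ.erase (0 : F)) lam
    (fun _ _ _ _ => lam_inj) (m := Fintype.card F ^ n) fun c hc => by
      have hc := Finset.ne_of_mem_erase hc
      obtain ⟨v, v0, hv⟩ := (h c hc).move hd
      have := heis_bound o.nd (o.exists_sub h2) hf (χ := (lam c).compAddMonoidHom P.Λ.subtype)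
        (fun e => hc (eq_zero_of_psi fun t => by
          simpa [lam_apply, mul_comm] using DFunLike.congr_fun e ⟨t, o.mem t⟩))
        (N := Ew o ρ d c) (fun x _ => Ew_conj (toG_d hf x)) (fun v hv l => by
          have := hv l
          rwa [tv_tr] at this) hv v0
      rw [card_space (F := F), Nat.card_eq_fintype_card,
        show finrank F (Wp P d f) = n + n by have := hf.finrank_W; omega, pow_add] at this
      rw [top_inf_eq]
      exact Nat.mul_self_le_mul_self_iff.1 this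
  rwa [Finset.card_erase_of_mem (Finset.mem_univ _), Finset.card_univ, finrank_top] at this

theorem exists_sign (o : Symp P) (hρ : ρ.IsIrreducible) :
    ∃ ε : ℂ, (ε = 1 ∨ ε = -1) ∧ ∀ v, ρ (ng o) v = ε • v := by
  obtain ⟨ε, h⟩ := H6.schur_scalar ρ (ρ (ng o)) fun g => by
    rw [← End.mul_eq_comp, ← End.mul_eq_comp, ← map_mul, ← map_mul]
    exact congrArg ρ (EG_ext fun v => by simp [ng_apply])
  have h1 : ∀ v, ρ (ng o) v = ε • v := fun v => by rw [h]; rfl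
  have := H6.nontrivial_of_isIrreducible ρ
  obtain ⟨v, hv⟩ := exists_ne (0 : M)
  refine ⟨ε, mul_self_eq_one_iff.1 ((smul_eq_self_iff hv).1 ?_), h1⟩
  rw [mul_smul, ← h1, ← h1, ← rho_mul, show ng o * ng o = 1 from EG_ext fun v => neg_neg v, rho_one]

theorem classify {M₁ M₂ : Type*} [AddCommGroup M₁] [Module ℂ M₁] [FiniteDimensional ℂ M₁] [AddCommGroup M₂]
    [Module ℂ M₂] [FiniteDimensional ℂ M₂] {ρ₁ : Representation ℂ (EG P) M₁} {ρ₂ : Representation ℂ (EG P) M₂}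
    (h2 : (2 : F) ≠ 0) (hn : 3 ≤ finrank F V) (hc : c ≠ 0) (i : ρ.IsIrreducible) (i₁ : ρ₁.IsIrreducible)
    (i₂ : ρ₂.IsIrreducible) (r : R1 o ρ) (r₁ : R1 o ρ₁) (r₂ : R1 o ρ₂) (h : Occ o ρ c) (h₁ : Occ o ρ₁ c)
    (h₂ : Occ o ρ₂ c) (hne : finrank ℂ M₁ ≠ finrank ℂ M₂) :
    ρ.character = ρ₁.character ∨ ρ.character = ρ₂.character := by
  obtain ⟨d, hd, v, v0, hv⟩ := h
  obtain ⟨v₁, v0₁, hv₁⟩ := h₁.move hd
  obtain ⟨v₂, v0₂, hv₂⟩ := h₂.move hd
  obtain ⟨ε, e, he⟩ := exists_sign o i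
  obtain ⟨ε₁, e₁, he₁⟩ := exists_sign o i₁
  obtain ⟨ε₂, e₂, he₂⟩ := exists_sign o i₂
  have h3 : ε₁ ≠ ε₂ := by
    rintro rfl
    have := congrFun (char_eq_of_r1 i₁ i₂ r₁ r₂ h2 hn hc hd he₁ he₂ hv₁ v0₁ hv₂ v0₂) 1
    rw [Representation.char_one, Representation.char_one, Nat.cast_inj] at this
    exact hne this
  by_cases h4 : ε = ε₁
  · exact Or.inl (char_eq_of_r1 i i₁ r r₁ h2 hn hc hd he (h4 ▸ he₁) hv v0 hv₁ v0₁)
  · have h5 : ε = ε₂ := by rcases e with rfl | rfl <;> rcases e₁ with rfl | rfl <;> rcases e₂ with rfl | rfl <;> simp_all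
    exact Or.inr (char_eq_of_r1 i i₂ r r₂ h2 hn hc hd he (h5 ▸ he₂) hv v0 hv₂ v0₂)

variable {δ : F} {s : V ≃ₗ[F] V}

variable (o) in
/-- Conjugation by a similitude. -/
def twist (hδ : δ ≠ 0) (hs : ∀ x y, P.B (s x) (s y) = δ * P.B x y) : EG P →* EG P :=
  MonoidHom.mk' (fun g => ⟨s⁻¹ * g.1 * s, o.isom_le ⟨fun x y => mul_left_cancel₀ hδ (by
    rw [← hs, ← hs x, ← EG_B g (s x)]
    simp), fun _ => o.mem _⟩⟩) fun a b => Subtype.ext (by simp [mul_assoc])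

theorem exists_twist (hδ : δ ≠ 0) (hs : ∀ x y, P.B (s x) (s y) = δ * P.B x y) (i : ρ.IsIrreducible) :
    ∃ ρ' : Representation ℂ (EG P) M, ρ'.IsIrreducible ∧ ∀ c, Occ o ρ c → Occ o ρ' (c * δ) := by
  refine ⟨ρ.comp (twist o hδ hs), (H6.isIrreducible_comp_surjective ρ _
    (Finite.surjective_of_injective fun a b e => Subtype.ext ?_)).2 i,
    fun c ⟨d, hd, v, v0, hv⟩ => ⟨s d, by simpa, v, v0, fun l => ?_⟩⟩
  · simpa [twist] using congrArg Subtype.val e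
  · have : twist o hδ hs (tv o (s d) l) = tv o d (δ * l) := EG_ext fun x => by
      change s.symm ((tv o (s d) l).1 (s x)) = _
      rw [tv_apply, tv_apply, hs, map_add, map_smul, s.symm_apply_apply, s.symm_apply_apply]
      module
    rw [MonoidHom.comp_apply, this, hv, lam_apply, lam_apply, mul_assoc]

theorem sq_or (hδ : ¬ IsSquare δ) (hc : c ≠ 0) : (∃ a ≠ 0, c * (a * a) = 1) ∨ ∃ a ≠ 0, c * (a * a) = δ := by
  have hδ0 : δ ≠ 0 := by rintro rfl; exact hδ IsSquare.zero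
  by_cases h : IsSquare c
  · obtain ⟨a, rfl⟩ := h
    have ha : a ≠ 0 := by rintro rfl; exact hc (mul_zero _)
    exact Or.inl ⟨a⁻¹, inv_ne_zero ha, by field_simp⟩
  · obtain ⟨a, ha⟩ : IsSquare (c * δ) := by
      rw [← quadraticChar_one_iff_isSquare (mul_ne_zero hc hδ0), map_mul,
        quadraticChar_neg_one_iff_not_isSquare.2 h, quadraticChar_neg_one_iff_not_isSquare.2 hδ]
      norm_num
    refine Or.inr ⟨a / c, div_ne_zero (by rintro rfl; exact mul_ne_zero hc hδ0 (by rw [ha, mul_zero])) hc, ?_⟩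
    field_simp
    linear_combination -ha

theorem Occ.or (hδ : ¬ IsSquare δ) (hc : c ≠ 0) (h : Occ o ρ c) : Occ o ρ 1 ∨ Occ o ρ δ :=
  (sq_or hδ hc).imp (fun ⟨_, ha, e⟩ => e ▸ h.sq ha) fun ⟨_, ha, e⟩ => e ▸ h.sq ha

theorem Occ.all (hδ : ¬ IsSquare δ) (h : Occ o ρ 1) (h' : Occ o ρ δ) (c : F) (hc : c ≠ 0) : Occ o ρ c := by
  rcases sq_or hδ hc with ⟨a, ha, e⟩ | ⟨a, ha, e⟩
  · convert h.sq (inv_ne_zero ha) using 1
    rw [← e]; field_simp
  · convert h'.sq (inv_ne_zero ha) using 1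
    rw [← e]; field_simp

theorem exists_pair_occ (hn : 1 ≤ finrank F V) (hδ : ¬ IsSquare δ) (hs : ∀ x y, P.B (s x) (s y) = δ * P.B x y)
    (i : ρ.IsIrreducible) (h2 : 2 ≤ finrank ℂ M) : ∃ ρ₁ ρ₂ : Representation ℂ (EG P) M,
      ρ₁.IsIrreducible ∧ ρ₂.IsIrreducible ∧ Occ o ρ₁ 1 ∧ Occ o ρ₂ δ := by
  have hδ0 : δ ≠ 0 := by rintro rfl; exact hδ IsSquare.zero
  obtain ⟨c, hc, h⟩ := exists_occ o hn i h2
  obtain ⟨ρ', i', h'⟩ := exists_twist (o := o) hδ0 hs i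
  rcases h.or hδ hc with h | h
  · exact ⟨ρ, ρ', i, i', h, by simpa using h' 1 h⟩
  · refine ⟨ρ', ρ, i', i, ?_, h⟩
    convert (h' δ h).sq (inv_ne_zero hδ0) using 1
    field_simp

theorem sp_odd_main (o : Symp P) (hq : Fintype.card F % 2 = 1) (hn : finrank F V = 2 * (n + 2))
    (hδ : ¬ IsSquare δ) (hs : ∀ x y, P.B (s x) (s y) = δ * P.B x y) {k₁ k₂ : ℕ} (hk : k₁ ≠ k₂) (a₁ : 2 ≤ k₁)
    (a₂ : 2 ≤ k₂) (b₁ : 2 * (Fintype.card F + 1) * k₁ <
      (Fintype.card F ^ (n + 2) - 1) * (Fintype.card F ^ (n + 2) - Fintype.card F))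
    (b₂ : 2 * (Fintype.card F + 1) * k₂ <
      (Fintype.card F ^ (n + 2) - 1) * (Fintype.card F ^ (n + 2) - Fintype.card F))
    (c₁ : k₁ < (Fintype.card F - 1) * Fintype.card F ^ (n + 1))
    {ρ₁ : Representation ℂ (EG P) (Fin k₁ → ℂ)} {ρ₂ : Representation ℂ (EG P) (Fin k₂ → ℂ)}
    (i₁ : ρ₁.IsIrreducible) (i₂ : ρ₂.IsIrreducible) :
    Nat.card {χ : IrrCharacter (EG P) // χ.1 1 = k₁} = 2 ∧
      ∀ (k : ℕ) (ρ : Representation ℂ (EG P) (Fin k → ℂ)), ρ.IsIrreducible → 2 ≤ k → k ≠ k₁ → k ≠ k₂ →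
        (Fintype.card F ^ (n + 2) - 1) * (Fintype.card F ^ (n + 2) - Fintype.card F) ≤
          2 * (Fintype.card F + 1) * k := by
  have h2 := two_ne_zero_of_odd hq
  have hδ0 : δ ≠ 0 := by rintro rfl; exact hδ IsSquare.zero
  have hr : ∀ {k : ℕ} (ρ : Representation ℂ (EG P) (Fin k → ℂ)), 2 * (Fintype.card F + 1) * k <
      (Fintype.card F ^ (n + 2) - 1) * (Fintype.card F ^ (n + 2) - Fintype.card F) → R1 o ρ := fun ρ h => by
    by_contra hR
    have := big_of_not_r1 hq hn (by omega) hR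
    rw [finrank_fin_fun] at this
    omega
  have h1 : ∀ {k : ℕ} (ρ : Representation ℂ (EG P) (Fin k → ℂ)), ρ.character 1 = k := fun ρ => by
    rw [Representation.char_one, finrank_fin_fun]
  obtain ⟨A₁, B₁, iA₁, iB₁, oA₁, oB₁⟩ := exists_pair_occ (o := o) (by omega) hδ hs i₁ (by simpa)
  obtain ⟨A₂, B₂, iA₂, iB₂, oA₂, oB₂⟩ := exists_pair_occ (o := o) (by omega) hδ hs i₂ (by simpa)
  have key : ∀ {k : ℕ} (ρ : Representation ℂ (EG P) (Fin k → ℂ)), ρ.IsIrreducible → 2 ≤ k → R1 o ρ → k ≠ k₂ →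
      ρ.character = A₁.character ∨ ρ.character = B₁.character := fun ρ i a r b => by
    obtain ⟨c, hc, h⟩ := exists_occ o (by omega) i (by simpa)
    refine (h.or hδ hc).imp (fun h => (classify h2 (by omega) one_ne_zero i iA₁ iA₂ r (hr _ b₁) (hr _ b₂) h oA₁
      oA₂ (by simpa)).resolve_right fun e => b ?_) fun h => (classify h2 (by omega) hδ0 i iB₁ iB₂ r (hr _ b₁)
      (hr _ b₂) h oB₁ oB₂ (by simpa)).resolve_right fun e => b ?_ <;>
    simpa [h1] using congrFun e 1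
  refine ⟨Nat.card_eq_two_iff.2 ⟨⟨⟨_, _, A₁, iA₁, rfl⟩, h1 _⟩, ⟨⟨_, _, B₁, iB₁, rfl⟩, h1 _⟩, fun e => ?_,
    Set.eq_univ_of_forall ?_⟩, fun k ρ i a e₁ e₂ => ?_⟩
  · have := le_of_occ (n := n + 1) h2 hn ((oA₁.congr (congrArg (·.1.1) e)).all hδ oB₁)
    rw [finrank_fin_fun] at this
    omega
  · rintro ⟨⟨_, k, ρ, i, rfl⟩, e⟩
    obtain rfl : k = k₁ := by simpa [h1] using e
    exact (key ρ i a₁ (hr _ b₁) hk).imp (fun e => Subtype.ext (Subtype.ext e)) fun e => Subtype.ext (Subtype.ext e)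
  · by_contra! h
    rcases key ρ i a (hr _ h) e₂ with e | e <;> exact e₁ (by simpa [h1] using congrFun e 1)

theorem exists_simil (m : ℕ) (hδ : δ ≠ 0) : ∃ s : (Fin m ⊕ Fin m → F) ≃ₗ[F] (Fin m ⊕ Fin m → F),
    ∀ x y, (spPQ m F).B (s x) (s y) = δ * (spPQ m F).B x y := by
  refine ⟨LinearEquiv.piCongrRight fun i => Sum.elim (fun _ => LinearEquiv.smulOfNeZero F F δ hδ)
    (fun _ => LinearEquiv.refl F F) i, fun x y => ?_⟩
  simp [spPQ_B, sympForm, Matrix.J, Matrix.fromBlocks_mulVec, dotProduct, Finset.mul_sum, Matrix.neg_mulVec,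
    mul_add, mul_left_comm, mul_assoc]

theorem force_eq_spOddB : True := by
  have := @sieg.eq_1.{0,0}
  have := @sieg.eq_def.{0,0}
  have := @Occ.eq_1.{0,0,0}
  have := @Occ.eq_def.{0,0,0}
  have := @twist.eq_1.{0,0}
  have := @twist.eq_def.{0,0}
  trivial

end H20.MR
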